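import Cfsg.Agent.H756.LocB

/-!
# Induction over the subgroups with centric intersection with `T` (helper756)
-/

set_option autoImplicit false

namespace Cfsg.Agent.H756

open Cfsg Cfsg.FusionSystem Cfsg.Agent.H752
open Cfsg.Agent.H750 (Iso)
open Cfsg.Agent.H757 (Tr Ex Cj)
open Cfsg.Agent.H770 (Im)
open Cfsg.Agent.H802 (SylIn)

variable {Ω : Type*} [Group Ω] {S T P P' Q : Subgroup Ω} {F : FusionSystem S}
  {p : ℕ} {f g : Ω → Ω}

theorem card_lt_of_mem [Finite S] {Q X : Subgroup Ω} (hX : X ≤ S) (hQX : Q ≤ X) {w : Ω}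
    (hw : w ∈ X) (hwQ : w ∉ Q) : Nat.card Q < Nat.card X := by
  have hXf : Finite X := H802.finite_of_le hX
  by_contra h
  exact hwQ (by rw [Subgroup.eq_of_le_of_card_ge hQX (not_lt.1 h)]; exact hw)

/-- A fully normalized subgroup of `T` that is not `T`-centric. -/
theorem exists_cent_of_not_tc [Finite S] [Fact p.Prime] (hS : IsPGroup p S) (hF : F.IsSaturated p)
    (hT : F.StronglyClosed T) {U U' : Subgroup Ω} (hUT : U ≤ T) (h : ¬ TC F T U)
    (hc : F.IsConj U U') (hU' : F.IsFullyNormalized U') :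
    ∃ w ∈ T, w ∉ U' ∧ ∀ u ∈ U', u * w = w * u := by
  have h1 : ∃ f : Ω → Ω, Mp F U f ∧ ∃ z ∈ T, (∀ x ∈ U, f x * z = z * f x) ∧ ∀ x ∈ U, f x ≠ z := by
    by_contra hcon
    apply h
    refine ⟨hUT, fun f hf z hz hzc => ?_⟩
    by_contra h2
    push Not at h2
    exact hcon ⟨f, hf, z, hz, hzc, h2⟩
  obtain ⟨f, hf, z, hz, hzc, hzn⟩ := h1
  obtain ⟨U₁, hU₁⟩ := exists_iso_of_mp hf
  have hc₁ : F.IsConj U₁ U' := H802.isConj_trans (H802.isConj_symm hU₁.isConj) hc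
  obtain ⟨g₀, hg₀, hI₀⟩ := H770.exists_mp_of_isConj hc₁
  obtain ⟨g, hg, hI⟩ := H770.mp_normalizer hS hF hU' hg₀ hI₀
  have hzS : z ∈ S := hT.1 hz
  have hzC : z ∈ Subgroup.centralizer (U₁ : Set Ω) := by
    refine Subgroup.mem_centralizer_iff.2 fun u hu => ?_
    obtain ⟨x, hx, rfl⟩ := hU₁.surj hu
    exact hzc x hx
  have hzN : z ∈ normalizerIn S U₁ := H802.centralizerIn_le_normalizerIn S U₁ ⟨hzS, hzC⟩
  have hle : U₁ ≤ normalizerIn S U₁ := H802.le_normalizerIn hU₁.le_right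
  refine ⟨g z, mp_mem_of_stronglyClosed hT hg hzN hz, fun hm => ?_, fun u hu => ?_⟩
  · obtain ⟨y, hy, hyz⟩ := (hI _).1 hm
    have h3 := hg.inj (hle hy) hzN hyz
    obtain ⟨x, hx, hxy⟩ := hU₁.surj hy
    exact hzn x hx (hxy.trans h3)
  · obtain ⟨x, hx, rfl⟩ := (hI u).1 hu
    rw [← hg.mul (hle hx) hzN, ← hg.mul hzN (hle hx), Subgroup.mem_centralizer_iff.1 hzC x hx]

/-- An automorphism of a fully normalized `Q` with `Q ⊓ T` fully normalized and not centric extends. -/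
theorem exists_ext_of_not_tc [Finite S] [Fact p.Prime] (hS : IsPGroup p S) (hF : F.IsSaturated p)
    (hT : F.StronglyClosed T) (hQ : F.IsFullyNormalized Q) {w : Ω} (hw : w ∈ T) (hwU : w ∉ Q ⊓ T)
    (hwc : ∀ u ∈ Q ⊓ T, u * w = w * u) {α : MulAut Q} (hα : α ∈ F.autGroup Q) :
    ∃ (X : Subgroup Ω) (k : Ω → Ω), Mp F X k ∧ Q ≤ X ∧ Nat.card Q < Nat.card X ∧
      ∀ x ∈ Q, k x = af α x := by
  have hQS := hQ.1
  have hQf : Finite Q := H802.finite_of_le hQS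
  set U := Q ⊓ T with hU
  set W := centralizerIn T U with hW
  have hWT : W ≤ T := inf_le_left
  have hwW : w ∈ W := ⟨hw, Subgroup.mem_centralizer_iff.2 hwc⟩
  have hQU : Q ≤ normalizerIn S U := (H802.le_normalizerIn hQS).trans (norm_inf_le hT)
  have hRS : Q ⊔ W ≤ S := sup_le hQS (hWT.trans hT.1)
  have hQW : ∀ r ∈ Q, ∀ u ∈ W, r * u * r⁻¹ ∈ W := by
    intro r hr u hu
    refine ⟨conj_mem_of_sc hT (hQS hr) hu.1, Subgroup.mem_centralizer_iff.2 fun y hy => ?_⟩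
    have h1 : r⁻¹ * y * r ∈ U := by
      have := (Subgroup.mem_normalizer_iff.1 (inv_mem (hQU hr).2) y).1 hy
      simpa using this
    have h2 := Subgroup.mem_centralizer_iff.1 hu.2 _ h1
    calc y * (r * u * r⁻¹) = r * (r⁻¹ * y * r * u) * r⁻¹ := by group
      _ = r * (u * (r⁻¹ * y * r)) * r⁻¹ := by rw [h2]
      _ = r * u * r⁻¹ * y := by group
  have hWf : Finite W := H802.finite_of_le (hWT.trans hT.1)
  have hRn : Q ⊔ W ≤ Subgroup.normalizer (W : Set Ω) := by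
    refine sup_le (fun r hr => ?_) Subgroup.le_normalizer
    exact H757.mem_normalizer_of_conj_mem (hQW r hr)
  have hRf : Finite (Q ⊔ W : Subgroup Ω) := H802.finite_of_le hRS
  obtain ⟨v, hvW, hvQ, hvn⟩ := H757.exists_normalizes_of_not_le (hS.to_le hRS) (U := W) (V := Q)
    le_sup_right le_sup_left (fun r hr u hu => (Subgroup.mem_normalizer_iff.1 (hRn hr) u).1 hu)
    fun h => hwU ⟨h hwW, hw⟩
  obtain ⟨c, hc⟩ := H757.exists_cj hvn
  have hvS : v ∈ S := hT.1 hvW.1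
  have hcX : c ∈ gX F T Q := by
    refine ⟨hc.mem_autGroup hQS hvS, fun x => ?_, fun u hu => ?_⟩
    · rw [hc x]
      have h1 := conj_mem_of_sc hT (inv_mem (hQS x.2)) hvW.1
      have h2 : (x : Ω)⁻¹ * (v * x * v⁻¹) = ((x : Ω)⁻¹ * v * (x : Ω)⁻¹⁻¹) * v⁻¹ := by group
      rw [h2]
      exact mul_mem h1 (inv_mem hvW.1)
    · rw [af_cj hc hu.1, ← Subgroup.mem_centralizer_iff.1 hvW.2 u hu]
      group
  have hXS : gX F T Q ≤ autInducedBy S Q :=
    H759.le_autInducedBy_of_normal (H802.isFullyAutomized_of_isFullyNormalized hS hF hQ)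
      (gX F T Q) (fun _ h => h.1) (fun _ ha _ hk => gX_conj_mem hT hQS ha hk)
      (isPGroup_gX hS hQS)
  obtain ⟨s, hs, hcs⟩ := H757.exists_cj_of_mem (hXS (gX_conj_mem hT hQS hα hcX))
  obtain ⟨h1, -⟩ := exists_iso_af hQS hα
  obtain ⟨X, k, hk, hkf, hQX, -, hXN, hX⟩ := H770.mp_receptive
    (H802.isReceptive_of_isFullyNormalized hS hF hQ) (mp_of_iso h1) fun y => h1.mem_iff
  have hvX : v ∈ X := by
    refine hX v hvS hvn ⟨s, hs, fun x hx => ?_⟩
    have h2 := af_cj hcs (af_mem α hx)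
    rw [af_mul _ _ (af_mem α hx), af_mul _ _ (af_mem _ (af_mem α hx)), af_inv_af α hx,
      af_cj hc hx] at h2
    exact h2
  exact ⟨X, k, hk, hQX, card_lt_of_mem hk.le hQX hvX hvQ, hkf⟩

/-- **Induction** over the subgroups with centric intersection with `T`. -/
theorem tc_induction (F : FusionSystem S) [Finite S] [Fact p.Prime] (hS : IsPGroup p S)
    (hF : F.IsSaturated p) (hT : F.StronglyClosed T) (M : Subgroup Ω → (Ω → Ω) → Prop)
    (h_congr : ∀ (P : Subgroup Ω) (f g : Ω → Ω), Mp F P f → M P f → (∀ x ∈ P, g x = f x) → M P g)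
    (h_res : ∀ (P R : Subgroup Ω) (f : Ω → Ω), Mp F P f → M P f → R ≤ P → M R f)
    (h_comp : ∀ (P Q : Subgroup Ω) (f g : Ω → Ω), Mp F P f → Mp F Q g → M P f → M Q g →
      (∀ x ∈ P, f x ∈ Q) → M P (fun x => g (f x)))
    (h_inv : ∀ (P R : Subgroup Ω) (f g : Ω → Ω), Mp F P f → M P f → Mp F R g →
      (∀ y ∈ R, ∃ x ∈ P, f x = y ∧ g y = x) → M R g)
    (h_aut : ∀ Q : Subgroup Ω, F.IsFullyNormalized Q → TC F T (Q ⊓ T) →
      (∀ (R : Subgroup Ω) (f : Ω → Ω), Mp F R f → Nat.card Q < Nat.card R → M R f) →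
      ∀ α ∈ F.autGroup Q, M Q (af α)) :
    ∀ (P : Subgroup Ω) (f : Ω → Ω), Mp F P f → M P f := by
  refine mp_induction F hS hF M h_congr h_res h_comp h_inv ?_
  intro Q hQa hQr IH α hα f hf
  have hQ := H802.isFullyNormalized_of_automized_receptive hS hQa hQr
  have hQS := hQ.1
  have hQf : Finite Q := H802.finite_of_le hQS
  have hαm := mp_af hQS hα
  refine h_congr Q (af α) f hαm ?_ fun x hx => by rw [hf x hx, af_apply α hx]
  by_cases hTC : TC F T (Q ⊓ T)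
  · exact h_aut Q hQ hTC IH α hα
  -- `Q ⊓ T` is not centric
  have hQT : ¬ T ≤ Q := fun h => hTC (by
    rw [inf_eq_right.2 h]
    have hTf : Finite T := H802.finite_of_le hT.1
    exact ⟨le_rfl, fun f hf z hz _ =>
      hf.surj (fun x hx => mp_mem_of_stronglyClosed hT hf hx hx) hz⟩)
  have hUS : Q ⊓ T ≤ S := inf_le_left.trans hQS
  obtain ⟨U', hUc, hU'⟩ := H802.exists_isFullyNormalized hS hF hUS
  obtain ⟨w, hwT, hwU, hwc⟩ := exists_cent_of_not_tc hS hF hT inf_le_right hTC hUc hU'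
  obtain ⟨g₀, hg₀, hI₀⟩ := H770.exists_mp_of_isConj hUc
  obtain ⟨χ, hχ, hI⟩ := H770.mp_normalizer hS hF hU' hg₀ hI₀
  have hle := norm_inf_le (P := Q) hT
  have hQN : Q ≤ normalizerIn S Q := H802.le_normalizerIn hQS
  have hQχ := hQN.trans hle
  obtain ⟨Q', hQ'⟩ := exists_iso_of_mp (hχ.res hQχ)
  have hQ'T : Q' ⊓ T = U' := by
    ext y
    constructor
    · intro hy
      obtain ⟨x, hx, rfl⟩ := (iso_inf hT hQ').surj hy
      exact hI.apply hx
    · intro hy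
      obtain ⟨x, hx, rfl⟩ := (hI y).1 hy
      exact (iso_inf hT hQ').mem hx
  have hQ'n : F.IsFullyNormalized Q' := by
    refine ⟨hQ'.le_right, fun R hR => (hQ.2 R (H802.isConj_trans hQ'.isConj hR)).trans ?_⟩
    have hfin : Finite (normalizerIn S Q') := H802.finite_of_le inf_le_left
    obtain ⟨φ, hφ, hφe⟩ := id hχ
    refine H802.card_le_of_maps (F.injective_of_mem hφ) hle fun x hx => ?_
    rw [hφe]
    exact ⟨hχ.mem (hle hx),
      H770.Mp.mem_normalizer hχ hQχ (fun y => hQ'.mem_iff) (hle hx) hx.2⟩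
  obtain ⟨e, he⟩ := exists_eqv hQ'
  have hα' := he.mem_autGroup hQ' hα
  obtain ⟨X, k, hk, hQX, hcard, hkα⟩ := exists_ext_of_not_tc hS hF hT hQ'n hwT
    (by rw [hQ'T]; exact hwU) (by rw [hQ'T]; exact hwc) hα'
  have hcQ : Nat.card Q = Nat.card Q' := hQ'.card_eq
  have hMk : M Q' k := h_res X Q' k hk (IH X k hk (by rw [hcQ]; exact hcard)) hQX
  -- `χ`
  have hne : Q ≠ S := fun h => hQT (h ▸ hT.1)
  have hlt : Nat.card Q < Nat.card (normalizerIn S Q) := H802.card_lt_card_normalizerIn hS hQS hne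
  have hNf : Finite (normalizerIn S (Q ⊓ T)) := H802.finite_of_le inf_le_left
  have hMχ : M Q χ := h_res _ Q χ hχ
    (IH _ χ hχ (hlt.trans_le (Subgroup.card_le_of_le hle))) hQχ
  obtain ⟨h, hh, hhχ, hχh⟩ := hQ'.exists_inv
  have hMh : M Q' h := h_inv Q Q' χ h (hχ.res hQχ) hMχ (mp_of_iso hh) fun y hy =>
    ⟨h y, hh.mem hy, hχh y hy, rfl⟩
  have hkm : ∀ x ∈ Q', k x ∈ Q' := fun x hx => by rw [hkα x hx]; exact af_mem _ hx
  have h1 := h_comp Q Q' χ k (hχ.res hQχ) (hk.res hQX) hMχ hMk fun x hx => hQ'.mem hx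
  have h2 := h_comp Q Q' (fun x => k (χ x)) h ((hχ.res hQχ).comp (hk.res hQX) fun x hx => hQ'.mem hx)
    (mp_of_iso hh) h1 hMh fun x hx => hkm _ (hQ'.mem hx)
  refine h_congr Q _ _ (((hχ.res hQχ).comp (hk.res hQX) fun x hx => hQ'.mem hx).comp
    (mp_of_iso hh) fun x hx => hkm _ (hQ'.mem hx)) h2 fun x hx => ?_
  show af α x = h (k (χ x))
  rw [hkα _ (hQ'.mem hx), he.af_congr α hx, hhχ _ (af_mem α hx)]

end Cfsg.Agent.H756
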