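import Cfsg.Agent.H756.NM
import Cfsg.Agent.H756.TCInd

/-!
# Decomposition of the maps of `F` (helper756)

Every map of `F` with source `P` is a map in `NM` followed by the restriction of a map defined on `P T`.
-/

set_option autoImplicit false

namespace Cfsg.Agent.H756

open Cfsg Cfsg.FusionSystem Cfsg.Agent.H752
open Cfsg.Agent.H750 (Iso)
open Cfsg.Agent.H757 (Tr Ex Cj)
open Cfsg.Agent.H770 (Im)
open Cfsg.Agent.H802 (SylIn)

variable {Ω : Type*} [Group Ω] {S T L L' P P' Q R N U M : Subgroup Ω} {F : FusionSystem S}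
  {E : FusionSystem T} {p : ℕ} {f g : Ω → Ω}

/-- `f` is a map in `NM` followed by a map defined on `P T`. -/
def DFc (F : FusionSystem S) (E : FusionSystem T) (p : ℕ) (P : Subgroup Ω) (f : Ω → Ω) : Prop :=
  ∃ d ψ : Ω → Ω, NM F E p S P d ∧ Mp F (P ⊔ T) ψ ∧ ∀ x ∈ P, f x = ψ (d x)

theorem im_sup_T [Finite S] (hT : F.StronglyClosed T) {ψ : Ω → Ω} (hψ : Mp F (P ⊔ T) ψ)
    (hI : Im ψ P P') : Im ψ (P ⊔ T) (P' ⊔ T) := by
  have hPS : P ≤ S := le_sup_left.trans hψ.le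
  have hPM : P ≤ P ⊔ T := le_sup_left
  have hTM : T ≤ P ⊔ T := le_sup_right
  have hP'S : P' ≤ S := H770.Mp.im_le (hψ.res hPM) hI
  intro y
  constructor
  · intro hy
    obtain ⟨x', hx', h1⟩ := (mem_sup_T hT hP'S).1 hy
    obtain ⟨x, hx, rfl⟩ := (hI x').1 hx'
    obtain ⟨t, ht, h2⟩ := mp_surj_T hT hψ hTM h1
    refine ⟨x * t, mul_mem (hPM hx) (hTM ht), ?_⟩
    rw [hψ.mul (hPM hx) (hTM ht), h2]
    group
  · rintro ⟨z, hz, rfl⟩
    obtain ⟨x, hx, h1⟩ := (mem_sup_T hT hPS).1 hz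
    exact (mem_sup_T hT hP'S).2 ⟨ψ x, hI.apply hx, h1.map hT hψ (hPM hx) hz⟩

theorem DFc.congr (h : DFc F E p P f) (he : ∀ x ∈ P, g x = f x) : DFc F E p P g := by
  obtain ⟨d, ψ, hd, hψ, h1⟩ := h
  exact ⟨d, ψ, hd, hψ, fun x hx => by rw [he x hx, h1 x hx]⟩

theorem DFc.res (h : DFc F E p P f) (hR : R ≤ P) : DFc F E p R f := by
  obtain ⟨d, ψ, hd, hψ, h1⟩ := h
  exact ⟨d, ψ, hd.res hR, hψ.res (sup_le_sup_right hR T), fun x hx => h1 x (hR hx)⟩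

/-- The image under a map in `NM`. -/
theorem NM.exists_image (hLS : L ≤ S) (h : NM F E p L P f) : ∃ P', Im f P P' := by
  obtain ⟨P', h1, -⟩ := (h.mp hLS).exists_image le_rfl
  exact ⟨P', h1⟩

theorem DFc.comp [Finite S] [Fact p.Prime] (hS : IsPGroup p S) (hE : E.IsNormalIn F p)
    (hf : DFc F E p P f) (hg : DFc F E p Q g) (hPQ : ∀ x ∈ P, f x ∈ Q) :
    DFc F E p P (fun x => g (f x)) := by
  have hInv : E.IsInvariantIn F := hE.1.2.2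
  have hT : F.StronglyClosed T := hInv.2.1
  obtain ⟨d, ψ, hd, hψ, h1⟩ := hf
  obtain ⟨d', ψ', hd', hψ', h2⟩ := hg
  obtain ⟨P₁, hP₁⟩ := hd.exists_image le_rfl
  have hsup : P₁ ⊔ T = P ⊔ T := hd.sup_eq hT le_rfl hP₁
  have hψ₁ : Mp F (P₁ ⊔ T) ψ := by rw [hsup]; exact hψ
  have hP₁M : P₁ ≤ P₁ ⊔ T := le_sup_left
  obtain ⟨P₂, hP₂⟩ := exists_iso_of_mp (hψ₁.res hP₁M)
  have hP₂I : Im ψ P₁ P₂ := fun y => hP₂.mem_iff
  have hI := im_sup_T hT hψ₁ hP₂I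
  have hP₂Q : P₂ ≤ Q := by
    intro y hy
    obtain ⟨z, hz, rfl⟩ := (hP₂I y).1 hy
    obtain ⟨x, hx, rfl⟩ := (hP₁ z).1 hz
    rw [← h1 x hx]
    exact hPQ x hx
  -- `d'` restricted to `P₂`, in its layer
  have hd'₂ : NM F E p (P₂ ⊔ T) P₂ d' := (hd'.res hP₂Q).layer hS hE le_rfl
  obtain ⟨χ, hχ, hχψ, hψχ⟩ := hψ₁.exists_symm le_rfl hI
  have hIχ : Im χ (P₂ ⊔ T) (P₁ ⊔ T) := hI.symm hχψ
  have hd'' : NM F E p (P₁ ⊔ T) P₁ (fun x => χ (d' (ψ x))) :=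
    hd'₂.conj hInv hχ hIχ fun y hy => ⟨ψ y, hP₂I.apply hy, hχψ y (hP₁M hy), rfl⟩
  have hP₂T : P₂ ⊔ T ≤ Q ⊔ T := sup_le_sup_right hP₂Q T
  refine ⟨fun x => χ (d' (ψ (d x))), fun x => ψ' (ψ x), ?_, ?_, ?_⟩
  · exact (hd.comp (hd''.mono hψ₁.le) fun x hx => hP₁.apply hx)
  · rw [← hsup]
    exact hψ₁.comp (hψ'.res hP₂T) fun x hx => hI.apply hx
  · intro x hx
    have hdx : d x ∈ P₁ := hP₁.apply hx
    have hy : ψ (d x) ∈ P₂ := hP₂I.apply hdx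
    have h3 : d' (ψ (d x)) ∈ P₂ ⊔ T := hd'₂.mapsL _ hy
    show g (f x) = ψ' (ψ (χ (d' (ψ (d x)))))
    rw [(hψχ _ h3).2, h1 x hx, h2 _ (hP₂Q hy)]

theorem DFc.symm [Finite S] [Fact p.Prime] (hS : IsPGroup p S) (hE : E.IsNormalIn F p)
    (hf : DFc F E p P f) (hg : Mp F R g) (hR : ∀ y ∈ R, ∃ x ∈ P, f x = y ∧ g y = x) :
    DFc F E p R g := by
  have hInv : E.IsInvariantIn F := hE.1.2.2
  have hT : F.StronglyClosed T := hInv.2.1
  obtain ⟨d, ψ, hd, hψ, h1⟩ := hf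
  obtain ⟨P₀, hP₀⟩ := exists_iso_of_mp hg
  have hP₀P : P₀ ≤ P := by
    intro x hx
    obtain ⟨y, hy, rfl⟩ := hP₀.surj hx
    obtain ⟨x, hx, -, h2⟩ := hR y hy
    rw [h2]; exact hx
  have hfP₀ : ∀ y ∈ R, f (g y) = y := fun y hy => by
    obtain ⟨x, -, h2, h3⟩ := hR y hy
    rw [h3, h2]
  have hd₀ := hd.res hP₀P
  obtain ⟨P₁, hP₁⟩ := hd₀.exists_image le_rfl
  have hsup : P₁ ⊔ T = P₀ ⊔ T := hd₀.sup_eq hT le_rfl hP₁
  have hψ₁ : Mp F (P₁ ⊔ T) ψ := by rw [hsup]; exact hψ.res (sup_le_sup_right hP₀P T)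
  have hP₁M : P₁ ≤ P₁ ⊔ T := le_sup_left
  have hRI : Im ψ P₁ R := by
    intro y
    constructor
    · intro hy
      have h2 := hP₀.mem hy
      refine ⟨d (g y), hP₁.apply h2, ?_⟩
      rw [← h1 _ (hP₀P h2), hfP₀ y hy]
    · rintro ⟨z, hz, rfl⟩
      obtain ⟨x, hx, rfl⟩ := (hP₁ z).1 hz
      obtain ⟨y, hy, rfl⟩ := hP₀.surj hx
      rw [← h1 _ (hP₀P hx), hfP₀ y hy]
      exact hy
  have hI := im_sup_T hT hψ₁ hRI
  obtain ⟨χ, hχ, hχψ, hψχ⟩ := hψ₁.exists_symm le_rfl hI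
  -- the inverse of `d`
  obtain ⟨k, hk, hk1, hk2⟩ := (hd₀.mp le_rfl).exists_symm le_rfl hP₁
  have hkN : NM F E p S P₁ k := hd₀.symm le_rfl fun y hy =>
    ⟨k y, (hk2 y hy).1, (hk2 y hy).2, rfl⟩
  have hkL : NM F E p (P₁ ⊔ T) P₁ k := hkN.layer hS hE le_rfl
  have hconj : NM F E p (R ⊔ T) R (fun y => ψ (k (χ y))) := by
    refine hkL.conj hInv hψ₁ hI fun y hy => ?_
    obtain ⟨z, hz, rfl⟩ := (hRI y).1 hy
    exact ⟨z, hz, rfl, by rw [hχψ z (hP₁M hz)]⟩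
  have hRS : R ≤ S := hg.le
  refine ⟨fun y => ψ (k (χ y)), χ, hconj.mono (sup_le hRS hT.1), hχ, fun y hy => ?_⟩
  obtain ⟨z, hz, rfl⟩ := (hRI y).1 hy
  obtain ⟨x, hx, rfl⟩ := (hP₁ z).1 hz
  obtain ⟨y, hy', rfl⟩ := hP₀.surj hx
  have h2 : ψ (d (g y)) = y := by rw [← h1 _ (hP₀P hx), hfP₀ y hy']
  have h3 : χ (ψ (d (g y))) = d (g y) := hχψ _ (hP₁M hz)
  show g (ψ (d (g y))) = χ (ψ (k (χ (ψ (d (g y))))))
  rw [h3, hk1 _ hx, h2]
  have h4 : g y ∈ P₁ ⊔ T := by rw [hsup]; exact (le_sup_left : P₀ ≤ P₀ ⊔ T) hx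
  rw [hχψ _ h4]

/-- **Decomposition** of the maps of `F`. -/
theorem exists_df [Finite S] [Fact p.Prime] (hS : IsPGroup p S) (hE : E.IsNormalIn F p) :
    ∀ (P : Subgroup Ω) (f : Ω → Ω), Mp F P f → DFc F E p P f := by
  have hF : F.IsSaturated p := hE.1.2.1
  have hInv : E.IsInvariantIn F := hE.1.2.2
  have hT : F.StronglyClosed T := hInv.2.1
  refine tc_induction F hS hF hT (fun P f => DFc F E p P f) (fun P f g _ h he => h.congr he)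
    (fun P R f _ h hR => h.res hR) (fun P Q f g _ _ hf hg h => hf.comp hS hE hg h)
    (fun P R f g _ hf hg h => hf.symm hS hE hg h) ?_
  intro Q hQ hTC IH α hα
  have hQS := hQ.1
  have hQf : Finite Q := H802.finite_of_le hQS
  have hQA : Finite (MulAut Q) := H750.finite_mulAut
  by_cases hTQ : T ≤ Q
  · refine ⟨fun x => x, af α, NM.id hQS fun _ _ => rfl, ?_, fun _ _ => rfl⟩
    rw [sup_eq_left.2 hTQ]
    exact mp_af hQS hα
  have hTf : Finite T := H802.finite_of_le hT.1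
  have hSyl := sylow_of_fn hS hE hQ hTC
  obtain ⟨a, ha, hconj⟩ := H757.frattini_in hSyl (m := α) fun k hk => gN_conj_mem hInv hQS hα hk
  have haF : a ∈ F.autGroup Q := gA_le (gN_le_gA ha)
  set β := a * α with hβ
  have hβF : β ∈ F.autGroup Q := mul_mem haF hα
  -- `β` extends
  obtain ⟨h1, -⟩ := exists_iso_af hQS hβF
  obtain ⟨X, k, hk, hkf, hQX, -, hXN, hX⟩ := H770.mp_receptive
    (H802.isReceptive_of_isFullyNormalized hS hF hQ) (mp_of_iso h1) fun y => h1.mem_iff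
  obtain ⟨t, ht, htQ, htn⟩ := H757.exists_normalizes_of_not_le hS hT.1 hQS
    (fun r hr u hu => conj_mem_of_sc hT hr hu) hTQ
  obtain ⟨c, hc⟩ := H757.exists_cj htn
  obtain ⟨t', ht', hct'⟩ := H757.exists_cj_of_mem (hconj c (hc.mem ht))
  have htX : t ∈ X := by
    refine hX t (hT.1 ht) htn ⟨t', hT.1 ht', fun x hx => ?_⟩
    have h2 := af_cj hct' (af_mem β hx)
    rw [af_mul _ _ (af_mem β hx), af_mul _ _ (af_mem _ (af_mem β hx)), af_inv_af β hx,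
      af_cj hc hx] at h2
    exact h2
  have hDk : DFc F E p Q k := (IH X k hk (card_lt_of_mem hk.le hQX htX htQ)).res hQX
  have hDβ : DFc F E p Q (af β) := hDk.congr fun x hx => (hkf x hx).symm
  have hDa : DFc F E p Q (af a⁻¹) :=
    ⟨af a⁻¹, fun x => x, nm_af hQS hTC (inv_mem ha) le_rfl, mp_id F (sup_le hQS hT.1),
      fun _ _ => rfl⟩
  refine (hDβ.comp hS hE hDa fun x hx => af_mem β hx).congr fun x hx => ?_
  rw [hβ, af_mul _ _ hx, af_inv_af a (af_mem α hx)]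

/-- Every subgroup is carried by a map in `NM` defined on its normalizer to a subgroup that is carried to a `DFN`
subgroup by a map defined on the image of the normalizer and `T`. -/
theorem exists_good [Finite S] [Fact p.Prime] (hS : IsPGroup p S) (hE : E.IsNormalIn F p)
    (hP : P ≤ S) : ∃ (d : Ω → Ω) (P' N' : Subgroup Ω) (ψ : Ω → Ω) (P'' : Subgroup Ω),
      NM F E p S (normalizerIn S P) d ∧ Im d P P' ∧ Im d (normalizerIn S P) N' ∧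
      Mp F (N' ⊔ T) ψ ∧ Im ψ P' P'' ∧ DFN F T P'' := by
  have hF : F.IsSaturated p := hE.1.2.1
  have hT : F.StronglyClosed T := hE.1.2.2.2.1
  obtain ⟨P'', f, hf, hI, hD⟩ := exists_dfn hS hF hT hP
  obtain ⟨d, ψ, hd, hψ, h1⟩ := exists_df hS hE _ f hf
  have hPN : P ≤ normalizerIn S P := H802.le_normalizerIn hP
  obtain ⟨P', hP'⟩ := (hd.res hPN).exists_image le_rfl
  obtain ⟨N', hN'⟩ := hd.exists_image le_rfl
  refine ⟨d, P', N', ψ, P'', hd, hP', hN', ?_, ?_, hD⟩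
  · rw [hd.sup_eq hT le_rfl hN']
    exact hψ
  · intro y
    rw [hI y]
    constructor
    · rintro ⟨x, hx, rfl⟩
      exact ⟨d x, hP'.apply hx, (h1 x (hPN hx)).symm⟩
    · rintro ⟨z, hz, rfl⟩
      obtain ⟨x, hx, rfl⟩ := (hP' z).1 hz
      exact ⟨x, hx, h1 x (hPN hx)⟩

end Cfsg.Agent.H756
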