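import Cfsg.Agent.H756.DSys

/-!
# Saturation of the product system: general facts (helper756)
-/

set_option autoImplicit false

namespace Cfsg.Agent.H756

open Cfsg Cfsg.FusionSystem Cfsg.Agent.H752
open Cfsg.Agent.H750 (Iso)
open Cfsg.Agent.H757 (Tr Ex Cj)
open Cfsg.Agent.H770 (Im)
open Cfsg.Agent.H802 (SylIn)

variable {Ω : Type*} [Group Ω] {S T L L' P P' P₁ P₂ P₀ Q R N U M B : Subgroup Ω}
  {F D : FusionSystem S} {E : FusionSystem T} {p : ℕ} {f g e : Ω → Ω}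

/-- A fully automized receptive member of the class. -/
def FAR (D : FusionSystem S) (p : ℕ) (P : Subgroup Ω) : Prop :=
  ∃ Q, D.IsConj P Q ∧ D.IsFullyAutomized p Q ∧ D.IsReceptive Q

theorem far_conj [Finite S] [Fact p.Prime] (h : FAR D p P) {H : Subgroup (MulAut P)}
    (hH : H ≤ D.autGroup P) (hHp : IsPGroup p H) :
    ∃ (Q : Subgroup Ω) (θ : Ω → Ω), Mp D P θ ∧ Im θ P Q ∧ D.IsReceptive Q ∧
      ∀ β ∈ H, ∃ g ∈ S, ∀ x ∈ P, θ (af β x) = g * θ x * g⁻¹ := by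
  obtain ⟨Q, hc, ha, hr⟩ := h
  obtain ⟨θ, hθ, hI⟩ := H770.exists_mp_of_isConj hc
  have hiso : Iso D P Q θ := iso_of_mp hθ hI
  have hQf : Finite Q := H802.finite_of_le hr.1
  have hQA : Finite (MulAut Q) := H750.finite_mulAut
  obtain ⟨ε, hε⟩ := exists_eqv hiso
  have hSyl := H750.sylIn_of_isFullyAutomized ha
  obtain ⟨g, hg, hgH⟩ := hSyl.exists_conj (B := H.map (MulAut.congr ε).toMonoidHom) (by
    rintro _ ⟨β, hβ, rfl⟩
    exact hε.mem_autGroup hiso (hH hβ)) (hHp.map _)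
  refine ⟨Q, fun x => af g (θ x), hθ.comp (mp_af hr.1 hg) fun x hx => hI.apply hx, fun y => ?_, hr,
    fun β hβ => ?_⟩
  · constructor
    · intro hy
      obtain ⟨x, hx, h1⟩ := (hI _).1 (af_mem g⁻¹ hy)
      exact ⟨x, hx, by show af g (θ x) = y; rw [h1, af_af_inv g hy]⟩
    · rintro ⟨x, hx, rfl⟩
      exact af_mem g (hI.apply hx)
  · obtain ⟨t, ht, hc⟩ := H757.exists_cj_of_mem (hgH _ ⟨β, hβ, rfl⟩)
    refine ⟨t, ht, fun x hx => ?_⟩
    have hx' := hI.apply hx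
    have h1 := af_cj hc (af_mem g hx')
    have h2 : af ((MulAut.congr ε).toMonoidHom β) (θ x) = θ (af β x) := hε.af_congr β hx
    rw [af_mul _ _ (af_mem g hx'), af_mul _ _ (af_mem _ (af_mem g hx')), af_inv_af g hx', h2] at h1
    exact h1

theorem rec_ext (hQ : D.IsReceptive Q) (hf : Mp D P f) (hI : Im f P Q)
    (hN : N ≤ normalizerIn S P)
    (hcond : ∀ g ∈ N, ∃ s ∈ S, ∀ x ∈ P, f (g * x * g⁻¹) = s * f x * s⁻¹) :
    ∃ (X : Subgroup Ω) (k : Ω → Ω), P ≤ X ∧ N ≤ X ∧ Mp D X k ∧ ∀ x ∈ P, k x = f x := by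
  obtain ⟨X, k, hk, hke, hPX, -, -, hX⟩ := H770.mp_receptive hQ hf hI
  exact ⟨X, k, hPX, fun g hg => hX g (hN hg).1 (hN hg).2 (hcond g hg), hk, hke⟩

/-- An automorphism in `gA N` of order prime to `p` fixing `P` is trivial, for `P ≤ N ≤ P N_T(P)`. -/
theorem eq_one_of_fix [Finite S] [Fact p.Prime] (hS : IsPGroup p S) (hE : E.IsInvariantIn F)
    (hTC : TC F T (P ⊓ T)) (hNS : N ≤ S) (hPN : P ≤ N) (hN : N ≤ P ⊔ normalizerIn T P)
    {β : MulAut N} (hβ : β ∈ gA F E N) (hc : Nat.Coprime (orderOf β) p)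
    (hfix : ∀ x ∈ P, af β x = x) : β = 1 := by
  have hT : F.StronglyClosed T := hE.2.1
  have hNf : Finite N := H802.finite_of_le hNS
  have hβm := mp_af hNS hβ.1
  have key : ∀ x ∈ N, x⁻¹ * af β x ∈ P := by
    intro x hx
    obtain ⟨y, hy, t, ht, rfl⟩ := (H757.mem_sup_of_normalizes
      (inf_le_right : normalizerIn T P ≤ Subgroup.normalizer (P : Set Ω))).1 (hN hx)
    have htN : t ∈ N := by
      have := mul_mem (inv_mem (hPN hy)) hx
      rwa [inv_mul_cancel_left] at this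
    have hβt : af β t ∈ T := (tr_maps hβ.2.1 ⟨htN, ht.1⟩).2
    have h1 : t⁻¹ * af β t ∈ P ⊓ T := by
      refine hTC.self hT.1 (mul_mem (inv_mem ht.1) hβt) fun u hu => ?_
      have hu' : t * u * t⁻¹ ∈ P := (Subgroup.mem_normalizer_iff.1 ht.2 u).1 hu.1
      have h2 := hfix _ hu'
      rw [hβm.mul (mul_mem htN (hPN hu.1)) (inv_mem htN), hβm.mul htN (hPN hu.1), hβm.inv htN,
        hfix u hu.1] at h2
      calc u * (t⁻¹ * af β t) = t⁻¹ * (t * u * t⁻¹) * af β t := by group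
        _ = t⁻¹ * (af β t * u * (af β t)⁻¹) * af β t := by rw [h2]
        _ = t⁻¹ * af β t * u := by group
    rw [hβm.mul (hPN hy) htN, hfix y hy]
    have h2 : (y * t)⁻¹ * (y * af β t) = t⁻¹ * af β t := by group
    rw [h2]
    exact h1.1
  obtain ⟨k, hk⟩ := H759.exists_pow_eq_one_of_chain (hS.to_le hNS) β 2
    (fun i => if i = 0 then ⊤ else if i = 1 then P.subgroupOf N else ⊥) (by simp) (by simp)
    (by
      intro i hi x hx
      rcases i with _ | _ | _ | i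
      · simp
      · have hx' : (x : Ω) ∈ P := by simpa [Subgroup.mem_subgroupOf] using hx
        have h1 := hfix x hx'
        rw [af_apply β x.2] at h1
        have h2 : ((β x : N) : Ω) ∈ P := h1 ▸ hx'
        simpa [Subgroup.mem_subgroupOf] using h2
      · have hx' : x = 1 := by simpa using hx
        simp [hx']
      · omega)
    (by
      intro i hi x hx
      rcases i with _ | _ | i
      · have h1 := key x x.2
        rw [af_apply β x.2] at h1
        have h2 : (x : Ω)⁻¹ * ((β x : N) : Ω) ∈ P := h1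
        simpa [Subgroup.mem_subgroupOf] using h2
      · have hx' : (x : Ω) ∈ P := by simpa [Subgroup.mem_subgroupOf] using hx
        have h1 := hfix x hx'
        rw [af_apply β x.2] at h1
        have h2 : β x = x := Subtype.ext h1
        simp [h2]
      · omega)
  have h2 := orderOf_dvd_of_pow_eq_one hk
  rw [← orderOf_eq_one_iff]
  exact Nat.eq_one_of_dvd_coprimes (Nat.Coprime.pow_right k hc) dvd_rfl h2

/-- The automorphisms of `N` in `D` whose restriction to `P` belongs to `W`. -/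
def HW (D : FusionSystem S) (hPN : P ≤ N) (W : Subgroup (MulAut P)) : Subgroup (MulAut N) where
  carrier := {β | β ∈ D.autGroup N ∧ ∃ w ∈ W, ∀ x ∈ P, af β x = af w x}
  one_mem' := ⟨one_mem _, 1, one_mem _, fun x hx => by rw [af_one hx, af_one (hPN hx)]⟩
  mul_mem' := by
    rintro a b ⟨ha, v, hv, h1⟩ ⟨hb, w, hw, h2⟩
    refine ⟨mul_mem ha hb, v * w, mul_mem hv hw, fun x hx => ?_⟩
    rw [af_mul _ _ (hPN hx), af_mul _ _ hx, h2 x hx, h1 _ (af_mem w hx)]
  inv_mem' := by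
    rintro a ⟨ha, v, hv, h1⟩
    refine ⟨inv_mem ha, v⁻¹, inv_mem hv, fun x hx => ?_⟩
    have h2 := h1 _ (af_mem v⁻¹ hx)
    rw [af_af_inv v hx] at h2
    have h3 := af_inv_af a (hPN (af_mem v⁻¹ hx))
    rw [h2] at h3
    exact h3

theorem mem_HW {hPN : P ≤ N} {W : Subgroup (MulAut P)} {β : MulAut N} :
    β ∈ HW D hPN W ↔ β ∈ D.autGroup N ∧ ∃ w ∈ W, ∀ x ∈ P, af β x = af w x := Iff.rfl

theorem af_pow_eq (hPN : P ≤ N) {β : MulAut N} {w : MulAut P} (h : ∀ x ∈ P, af β x = af w x)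
    (n : ℕ) : ∀ x ∈ P, af (β ^ n) x = af (w ^ n) x := by
  induction n with
  | zero => intro x hx; rw [pow_zero, pow_zero, af_one hx, af_one (hPN hx)]
  | succ n ih =>
    intro x hx
    rw [pow_succ', pow_succ', af_mul _ _ hx, af_mul _ _ (hPN hx), ih x hx, h _ (af_mem _ hx)]

/-- Every element of a finite group has a power by a power of `p` that has order prime to `p`. -/
theorem exists_pow_coprime {G : Type*} [Group G] [Finite G] [Fact p.Prime] (β : G) :
    ∃ k : ℕ, Nat.Coprime (orderOf (β ^ p ^ k)) p := by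
  have hp : p.Prime := Fact.out
  have h0 : orderOf β ≠ 0 := (orderOf_pos β).ne'
  refine ⟨(orderOf β).factorization p, ?_⟩
  rw [orderOf_pow_of_dvd (pow_ne_zero _ hp.ne_zero) (Nat.ordProj_dvd _ _)]
  exact (Nat.coprime_ordCompl hp h0).symm

theorem isPGroup_HW [Finite S] [Fact p.Prime] (hS : IsPGroup p S) (hE : E.IsInvariantIn F)
    (hTC : TC F T (P ⊓ T)) (hNS : N ≤ S) (hPN : P ≤ N) (hN : N ≤ P ⊔ normalizerIn T P)
    {W : Subgroup (MulAut P)} (hW : IsPGroup p W) : IsPGroup p (HW (DSy F E p hE) hPN W) := by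
  have hNf : Finite N := H802.finite_of_le hNS
  have hNA : Finite (MulAut N) := H750.finite_mulAut
  rintro ⟨β, hβ, w, hw, h1⟩
  obtain ⟨k, hk⟩ := hW ⟨w, hw⟩
  have hk' : w ^ p ^ k = 1 := congrArg Subtype.val hk
  obtain ⟨l, hl⟩ := exists_pow_coprime (p := p) (β ^ p ^ k)
  have h2 : (β ^ p ^ k) ^ p ^ l = 1 := by
    have h3 : (β ^ p ^ k) ^ p ^ l ∈ (DSy F E p hE).autGroup N := pow_mem (pow_mem hβ _) _
    refine eq_one_of_fix hS hE hTC hNS hPN hN
      (mem_gA_of_dm hS hE (mp_dsy_iff.1 (mp_af hNS h3)) hl) hl fun x hx => ?_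
    rw [← pow_mul, af_pow_eq hPN h1 _ x hx, pow_mul, hk', one_pow, af_one hx]
  exact ⟨k + l, Subtype.ext (by rw [pow_add, pow_mul]; exact h2)⟩

/-- A `p`-subgroup containing `Aut_T(P)` meets `gN P` in `Aut_T(P)`. -/
theorem inf_gN_eq [Finite S] [Fact p.Prime] (hPS : P ≤ S)
    (hSyl : SylIn p (autInducedBy T P) (gN F E p P)) {W : Subgroup (MulAut P)} (hW : IsPGroup p W)
    (hTW : autInducedBy T P ≤ W) : W ⊓ gN F E p P = autInducedBy T P := by
  have hPf : Finite P := H802.finite_of_le hPS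
  have hPA : Finite (MulAut P) := H750.finite_mulAut
  exact hSyl.eq_of_le inf_le_right (hW.to_le inf_le_left) (le_inf hTW hSyl.le)

/-- A map of `F` on `P B`, `B ≤ N_T(P)`, carries it into `P' N_T(P')`. -/
theorem mp_maps_NT (hT : F.StronglyClosed T) (hf : Mp F M f) (hPM : P ≤ M) (hI : Im f P P')
    (hMP : ∀ x ∈ M, ∃ y ∈ P, ∃ t ∈ M ⊓ normalizerIn T P, y * t = x) :
    ∀ x ∈ M, f x ∈ P' ⊔ normalizerIn T P' := by
  intro x hx
  obtain ⟨y, hy, t, ht, rfl⟩ := hMP x hx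
  rw [hf.mul (hPM hy) ht.1]
  refine mul_mem ((le_sup_left : P' ≤ _) (hI.apply hy))
    ((le_sup_right : normalizerIn T P' ≤ _) ⟨mp_mem_of_stronglyClosed hT hf ht.1 ht.2.1, ?_⟩)
  exact H770.Mp.mem_normalizer hf hPM hI ht.1 ht.2.2

/-- `N_S(P)` normalizes `P N_T(P)`. -/
theorem norm_sup_NT (hT : F.StronglyClosed T) {g : Ω} (hg : g ∈ normalizerIn S P) :
    g ∈ Subgroup.normalizer ((P ⊔ normalizerIn T P : Subgroup Ω) : Set Ω) := by
  refine mem_normalizer_sup hg.2 (Subgroup.mem_normalizer_iff.2 fun x => ?_)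
  have hgn := H759.StronglyClosed.le_normalizer hT hg.1
  have h1 : ∀ g ∈ Subgroup.normalizer (P : Set Ω), ∀ x,
      x ∈ Subgroup.normalizer (P : Set Ω) → g * x * g⁻¹ ∈ Subgroup.normalizer (P : Set Ω) :=
    fun g hg x hx => mul_mem (mul_mem hg hx) (inv_mem hg)
  constructor
  · intro hx
    exact ⟨(Subgroup.mem_normalizer_iff.1 hgn x).1 hx.1, h1 g hg.2 x hx.2⟩
  · intro hx
    refine ⟨(Subgroup.mem_normalizer_iff.1 hgn x).2 hx.1, ?_⟩
    have h2 := h1 g⁻¹ (inv_mem hg.2) _ hx.2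
    rwa [show g⁻¹ * (g * x * g⁻¹) * g⁻¹⁻¹ = x by group] at h2

end Cfsg.Agent.H756
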