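import Cfsg.Agent.H756.DSatA

/-!
# Saturation of the product system: automization (helper756)
-/

set_option autoImplicit false

namespace Cfsg.Agent.H756

open Cfsg Cfsg.FusionSystem Cfsg.Agent.H752
open Cfsg.Agent.H750 (Iso)
open Cfsg.Agent.H757 (Tr Ex Cj)
open Cfsg.Agent.H770 (Im)
open Cfsg.Agent.H802 (SylIn)

variable {Ω : Type*} [Group Ω] {S T L L' P P' P₁ P₂ P₀ Q R N U M B : Subgroup Ω}
  {F D : FusionSystem S} {E : FusionSystem T} {p : ℕ} {f g e : Ω → Ω}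

/-- Extension of an isomorphism of the product system to `P N_T(P)`. -/
theorem dm_ext_NT [Finite S] [Fact p.Prime] (hS : IsPGroup p S) (hE : E.IsNormalIn F p)
    (hTC : TC F T (P ⊓ T)) (he : DM F E p P e)
    (hcond : ∀ m ∈ normalizerIn T P, ∃ t ∈ T, ∀ x ∈ P, e (m * x * m⁻¹) = t * e x * t⁻¹) :
    ∃ f : Ω → Ω, DM F E p (P ⊔ normalizerIn T P) f ∧ ∀ x ∈ P, f x = e x := by
  have hT : F.StronglyClosed T := hE.1.2.2.2.1
  obtain ⟨s, hs, d, hd, h1⟩ := he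
  have hsn : ∀ t ∈ T, s⁻¹ * t * s ∈ T := fun t ht => by
    have := conj_mem_of_sc hT (inv_mem hs) ht
    rwa [inv_inv] at this
  obtain ⟨f, hf, hfe⟩ := rec_all hS hE _ P rfl hd.le hTC d (normalizerIn T P) hd inf_le_left
    inf_le_right fun m hm => by
      obtain ⟨t, ht, h2⟩ := hcond m hm
      refine ⟨s⁻¹ * t * s, hsn t ht, fun x hx => ?_⟩
      have h3 := h2 x hx
      have hmx : m * x * m⁻¹ ∈ P := (Subgroup.mem_normalizer_iff.1 hm.2 x).1 hx
      rw [h1 _ hmx, h1 x hx] at h3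
      calc d (m * x * m⁻¹) = s⁻¹ * (s * d (m * x * m⁻¹) * s⁻¹) * s := by group
        _ = s⁻¹ * (t * (s * d x * s⁻¹) * t⁻¹) * s := by rw [h3]
        _ = s⁻¹ * t * s * d x * (s⁻¹ * t * s)⁻¹ := by group
  exact ⟨fun x => s * f x * s⁻¹, ⟨s, hs, f, hf, fun _ _ => rfl⟩, fun x hx => by
    show s * f x * s⁻¹ = e x
    rw [hfe x hx, h1 x hx]⟩

/-- `P < P N_T(P)` when `T ≰ P`. -/
theorem card_lt_sup_NT [Finite S] [Fact p.Prime] (hS : IsPGroup p S) (hT : F.StronglyClosed T)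
    (hPS : P ≤ S) (hTP : ¬ T ≤ P) : Nat.card P < Nat.card (P ⊔ normalizerIn T P : Subgroup Ω) := by
  have hle : P ⊔ normalizerIn T P ≤ S := sup_le hPS (inf_le_left.trans hT.1)
  have hf : Finite (P ⊔ normalizerIn T P : Subgroup Ω) := H802.finite_of_le hle
  refine (card_lt_NT hS (Q := P ⊔ T) le_sup_left (sup_le hPS hT.1) le_rfl
    (hPS.trans (H759.StronglyClosed.le_normalizer hT)) fun h => hTP (le_sup_right.trans h)).trans_le
    (Subgroup.card_le_of_le (sup_le_sup_left inf_le_right P))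

/-- Every element of a `p`-subgroup of `Aut_D(P)` containing `Aut_T(P)` extends to `P N_T(P)`, `P` good. -/
theorem exists_ext_of_mem [Finite S] [Fact p.Prime] (hS : IsPGroup p S) (hE : E.IsNormalIn F p)
    (hPS : P ≤ S) (hTC : TC F T (P ⊓ T)) (hSyl : SylIn p (autInducedBy T P) (gN F E p P))
    {W : Subgroup (MulAut P)} (hWD : W ≤ (DSy F E p hE.1.2.2).autGroup P)
    (hW : IsPGroup p W) (hTW : autInducedBy T P ≤ W) {w : MulAut P} (hw : w ∈ W) :
    ∃ β ∈ (DSy F E p hE.1.2.2).autGroup (P ⊔ normalizerIn T P), ∀ x ∈ P, af β x = af w x := by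
  have hInv : E.IsInvariantIn F := hE.1.2.2
  have hT : F.StronglyClosed T := hInv.2.1
  have hTf : Finite T := H802.finite_of_le hT.1
  have hPN : P ≤ P ⊔ normalizerIn T P := le_sup_left
  have hinf := inf_gN_eq hPS hSyl hW hTW
  have hwD := mp_dsy_iff.1 (mp_af hPS (hWD hw))
  have hwF : w ∈ F.autGroup P := mem_aut_of_mp hPS hwD.mp
  obtain ⟨f, hf, hfe⟩ := dm_ext_NT hS hE hTC hwD fun m hm => by
    obtain ⟨α, hα, hc⟩ := cj_of_mem_NT le_rfl hm
    have h1 : w * α * w⁻¹ ∈ autInducedBy T P := by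
      rw [← hinf]
      refine ⟨W.mul_mem (W.mul_mem hw (hTW hα)) (W.inv_mem hw), ?_⟩
      exact gN_conj_mem hInv hPS hwF (hSyl.le hα)
    obtain ⟨t, ht, hct⟩ := H757.exists_cj_of_mem h1
    refine ⟨t, ht, fun x hx => ?_⟩
    have h2 := af_cj hct (af_mem w hx)
    rw [af_mul _ _ (af_mem w hx), af_mul _ _ (af_mem _ (af_mem w hx)), af_inv_af w hx,
      af_cj hc hx] at h2
    exact h2
  have hNS : P ⊔ normalizerIn T P ≤ S := hf.le
  have hNf : Finite (P ⊔ normalizerIn T P : Subgroup Ω) := H802.finite_of_le hNS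
  have hI : Im f P P := by
    intro y
    constructor
    · intro hy
      exact ⟨_, af_mem w⁻¹ hy, by rw [hfe _ (af_mem w⁻¹ hy), af_af_inv w hy]⟩
    · rintro ⟨x, hx, rfl⟩
      rw [hfe x hx]
      exact af_mem w hx
  obtain ⟨β, hβ, hβe⟩ := (mp_dsy_iff (hE := hInv).2 hf).exists_aut
    (mp_maps_NT hT hf.mp hPN hI (sup_NT_decomp le_rfl))
  exact ⟨β, hβ, fun x hx => by rw [af_apply β (hPN hx), ← hβe _ (hPN hx), hfe x hx]⟩

/-- **(6b)** -/
theorem six_b [Finite S] [Fact p.Prime] (hS : IsPGroup p S) (hE : E.IsNormalIn F p)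
    (hPS : P ≤ S) (hTC : TC F T (P ⊓ T)) (hTP : ¬ T ≤ P)
    (hSyl : SylIn p (autInducedBy T P) (gN F E p P))
    (IH : ∀ Q : Subgroup Ω, Q ≤ S → TC F T (Q ⊓ T) → Nat.card P < Nat.card Q →
      FAR (DSy F E p hE.1.2.2) p Q) :
    ∃ (P₃ : Subgroup Ω) (θ : Ω → Ω), Mp (DSy F E p hE.1.2.2) (normalizerIn S P) θ ∧ Im θ P P₃ ∧
      SylIn p (autInducedBy S P₃) ((DSy F E p hE.1.2.2).autGroup P₃) := by
  have hInv : E.IsInvariantIn F := hE.1.2.2
  have hT : F.StronglyClosed T := hInv.2.1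
  set D := DSy F E p hE.1.2.2 with hD
  have hPf : Finite P := H802.finite_of_le hPS
  have hPA : Finite (MulAut P) := H750.finite_mulAut
  obtain ⟨W, hSW, hW⟩ := H802.exists_sylIn (K := D.autGroup P)
    (H802.autInducedBy_le_autGroup D hPS) (H802.isPGroup_autInducedBy hS P)
  have hTW : autInducedBy T P ≤ W := (autInducedBy_mono hT.1).trans hSW
  have hPN : P ≤ P ⊔ normalizerIn T P := le_sup_left
  have hNS : P ⊔ normalizerIn T P ≤ S := sup_le hPS (inf_le_left.trans hT.1)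
  have hTCN : TC F T ((P ⊔ normalizerIn T P) ⊓ T) := hTC.mono (inf_le_inf_right T hPN) inf_le_right
  have hext : ∀ w ∈ W, ∃ β ∈ D.autGroup (P ⊔ normalizerIn T P), ∀ x ∈ P, af β x = af w x :=
    fun w hw => exists_ext_of_mem hS hE hPS hTC hSyl hW.le hW.isPGroup hTW hw
  have hHp := isPGroup_HW hS hInv hTC hNS hPN le_rfl hW.isPGroup
  obtain ⟨Q, θ, hθ, hθI, hQr, hθH⟩ := far_conj (IH _ hNS hTCN (card_lt_sup_NT hS hT hPS hTP))
    (H := HW D hPN W) (fun β hβ => hβ.1) hHp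
  obtain ⟨X, k, hPX, hNX, hk, hkθ⟩ := rec_ext hQr hθ hθI (N := normalizerIn S P)
    (fun g hg => ⟨hg.1, norm_sup_NT hT hg⟩) fun g hg => by
      obtain ⟨β, hβ⟩ := H757.exists_cj (norm_sup_NT hT hg)
      obtain ⟨α, hα⟩ := H757.exists_cj (P := P) hg.2
      obtain ⟨s, hs, h1⟩ := hθH β ⟨hβ.mem_autGroup hNS hg.1, α, hSW (hα.mem hg.1), fun x hx => by
        rw [af_cj hβ (hPN hx), af_cj hα hx]⟩
      exact ⟨s, hs, fun x hx => by rw [← af_cj hβ hx, h1 x hx]⟩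
  have hPNS : P ≤ normalizerIn S P := H802.le_normalizerIn hPS
  obtain ⟨P₃, hP₃, hP₃S, -⟩ := H770.Mp.exists_im hk (hPNS.trans hNX)
  refine ⟨P₃, k, hk.res hNX, hP₃, ?_⟩
  have hiso : Iso D P P₃ k := iso_of_mp (hk.res (hPNS.trans hNX)) hP₃
  obtain ⟨ε, hε⟩ := exists_eqv hiso
  have hP₃f : Finite P₃ := H802.finite_of_le hP₃S
  have hP₃A : Finite (MulAut P₃) := H750.finite_mulAut
  refine H802.sylIn_of_card_ge (H802.autInducedBy_le_autGroup D hP₃S)
    (H802.isPGroup_autInducedBy hS P₃) ?_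
  rw [← H802.card_autGroup_eq hiso.isConj, ← hW.2,
    Nat.card_congr (W.equivMapOfInjective (MulAut.congr ε).toMonoidHom
      (MulAut.congr ε).injective).toEquiv]
  refine Subgroup.card_le_of_le ?_
  rintro _ ⟨w, hw, rfl⟩
  obtain ⟨β, hβ, hβw⟩ := hext w hw
  obtain ⟨s, hs, h1⟩ := hθH β ⟨hβ, w, hw, hβw⟩
  refine (cj_of_af (g := s) fun y hy => ?_ : Cj s _).mem hs
  obtain ⟨x, hx, rfl⟩ := (hP₃ y).1 hy
  have h2 : af ((MulAut.congr ε).toMonoidHom w) (k x) = k (af w x) := hε.af_congr w hx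
  rw [h2, hkθ _ (hPN (af_mem w hx)), hkθ _ (hPN hx), ← hβw x hx, h1 x (hPN hx)]

end Cfsg.Agent.H756
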