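import Cfsg.Agent.H756.DSatB

/-!
# Saturation of the product system: fully normalized subgroups (helper756)
-/

set_option autoImplicit false

namespace Cfsg.Agent.H756

open Cfsg Cfsg.FusionSystem Cfsg.Agent.H752
open Cfsg.Agent.H750 (Iso)
open Cfsg.Agent.H757 (Tr Ex Cj)
open Cfsg.Agent.H770 (Im)
open Cfsg.Agent.H802 (SylIn)

variable {Ω : Type*} [Group Ω] {S T L L' P P' P₁ P₂ P₀ Q R N U M B A : Subgroup Ω}
  {F D : FusionSystem S} {E : FusionSystem T} {p : ℕ} {f g e : Ω → Ω}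

theorem mp_card_le [Finite B] (hf : Mp D M f) (hA : A ≤ M) (h : ∀ x ∈ A, f x ∈ B) :
    Nat.card A ≤ Nat.card B := by
  refine Nat.card_le_card_of_injective (fun x : A => (⟨f x, h x x.2⟩ : B)) ?_
  intro x y hxy
  exact Subtype.ext (hf.inj (hA x.2) (hA y.2) (congrArg Subtype.val hxy))

theorem mp_surj_of_card [Finite B] (hf : Mp D M f) (hA : A ≤ M) (h : ∀ x ∈ A, f x ∈ B)
    (hc : Nat.card B ≤ Nat.card A) {b : Ω} (hb : b ∈ B) : ∃ x ∈ A, f x = b := by
  have hinj : Function.Injective (fun x : A => (⟨f x, h x x.2⟩ : B)) := by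
    intro x y hxy
    exact Subtype.ext (hf.inj (hA x.2) (hA y.2) (congrArg Subtype.val hxy))
  have hAf : Finite A := Finite.of_injective _ hinj
  have hbij := (Nat.bijective_iff_injective_and_card _).2
    ⟨hinj, le_antisymm (mp_card_le hf hA h) hc⟩
  obtain ⟨x, hx⟩ := hbij.2 ⟨b, hb⟩
  exact ⟨x, x.2, congrArg Subtype.val hx⟩

theorem exists_max_nat {α : Type*} (s : α → Prop) (f : α → ℕ) (b : ℕ) (hb : ∀ a, s a → f a ≤ b)
    (h : ∃ a, s a) : ∃ a, s a ∧ ∀ c, s c → f c ≤ f a := by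
  have hne : {n | ∃ a, s a ∧ f a = n}.Nonempty := by
    obtain ⟨a, ha⟩ := h
    exact ⟨f a, a, ha, rfl⟩
  have hbd : BddAbove {n | ∃ a, s a ∧ f a = n} := ⟨b, by
    rintro _ ⟨a, ha, rfl⟩
    exact hb a ha⟩
  obtain ⟨a, ha, hae⟩ := Nat.sSup_mem hne hbd
  refine ⟨a, ha, fun c hc => ?_⟩
  rw [hae]
  exact le_csSup hbd ⟨c, hc, rfl⟩

theorem le_iff_of_iso [Finite S] (hT : F.StronglyClosed T) (h : Iso F P P' f) :
    T ≤ P' ↔ T ≤ P := by
  have hTf : Finite T := H802.finite_of_le hT.1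
  have h1 := (iso_inf hT h).card_eq
  have key : ∀ Q : Subgroup Ω, T ≤ Q ↔ Nat.card T ≤ Nat.card (Q ⊓ T : Subgroup Ω) := by
    intro Q
    constructor
    · intro hQ
      rw [inf_eq_right.2 hQ]
    · intro hc
      have h2 : Q ⊓ T = T := Subgroup.eq_of_le_of_card_ge inf_le_right hc
      rw [← h2]
      exact inf_le_left
  rw [key P, key P', h1]

theorem Good.of_ext (hN : P ≤ N) {ψ : Ω → Ω} (hψ : Mp F (N ⊔ T) ψ) (hI : Im ψ P P')
    (hD : DFN F T P') : Good F T P :=
  ⟨ψ, P', hψ.res (sup_le_sup_right hN T), hI, hD⟩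

theorem fn_facts [Finite S] [Fact p.Prime] (hS : IsPGroup p S) (hE : E.IsNormalIn F p)
    (hP : (DSy F E p hE.1.2.2).IsFullyNormalized P) (hTC : TC F T (P ⊓ T)) (hTP : ¬ T ≤ P)
    (IH : ∀ Q : Subgroup Ω, Q ≤ S → TC F T (Q ⊓ T) → Nat.card P < Nat.card Q →
      FAR (DSy F E p hE.1.2.2) p Q) :
    SylIn p (autInducedBy S P) ((DSy F E p hE.1.2.2).autGroup P) ∧
    (∀ Q, (DSy F E p hE.1.2.2).IsConj P Q →
      Nat.card (centralizerIn S Q) ≤ Nat.card (centralizerIn S P)) ∧
    SylIn p (autInducedBy T P) (gN F E p P) := by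
  have hInv : E.IsInvariantIn F := hE.1.2.2
  have hT : F.StronglyClosed T := hInv.2.1
  have hTf : Finite T := H802.finite_of_le hT.1
  set D := DSy F E p hE.1.2.2 with hD
  have hPS := hP.1
  have hPf : Finite P := H802.finite_of_le hPS
  have hPA : Finite (MulAut P) := H750.finite_mulAut
  have hCf : ∀ Q : Subgroup Ω, Finite (centralizerIn S Q) := fun Q =>
    H802.finite_of_le inf_le_left
  have hNf : ∀ Q : Subgroup Ω, Finite (normalizerIn S Q) := fun Q =>
    H802.finite_of_le inf_le_left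
  have hgen : ∀ Q : Subgroup Ω, D.IsConj P Q → ∃ f : Ω → Ω, Iso D P Q f ∧ Iso F P Q f := by
    intro Q hQ
    obtain ⟨f, hf, hI⟩ := H770.exists_mp_of_isConj hQ
    exact ⟨f, iso_of_mp hf hI, iso_of_mp (mp_dsy_iff.1 hf).mp hI⟩
  refine ⟨?_, ?_, ?_⟩
  rotate_left 2
  · -- the Sylow property of `Aut_T(P)`
    obtain ⟨d, P', N', ψ, P'', hd, hI, hN', hψ, hI', hD'⟩ := exists_good hS hE hPS
    have hPN : P ≤ normalizerIn S P := H802.le_normalizerIn hPS
    have hiso : Iso F P P' d := iso_of_mp ((hd.mp le_rfl).res hPN) hI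
    have hTC' : TC F T (P' ⊓ T) := image_tc hT hiso hTC
    have hP'N' : P' ≤ N' := fun y hy => by
      obtain ⟨x, hx, rfl⟩ := (hI y).1 hy
      exact hN'.apply (hPN hx)
    have hg : Good F T P' := Good.of_ext hP'N' hψ hI' hD'
    refine sylT_of_iso hS hE (hd.mp le_rfl) hPN hI (fun t ht htn => ?_) (hg.sylow hS hE hTC')
    exact mp_surj_of_card (B := normalizerIn S P') (hd.mp le_rfl) le_rfl
      (fun x hx => ⟨(hd.mp le_rfl).mem hx,
        H770.Mp.mem_normalizer (hd.mp le_rfl) hPN hI hx hx.2⟩)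
      (hP.2 P' (iso_of_mp ((mp_dsy_iff (hE := hInv).2 hd.dm).res hPN) hI).isConj) ⟨hT.1 ht, htn⟩
  all_goals
    obtain ⟨P₁, hP₁, hmax⟩ := exists_max_nat (fun Q => D.IsConj P Q)
      (fun Q => Nat.card (centralizerIn S Q)) (Nat.card S)
      (fun Q _ => Subgroup.card_le_of_le inf_le_left) ⟨P, H802.isConj_refl D hPS⟩
    obtain ⟨f₁, hf₁D, hf₁⟩ := hgen P₁ hP₁
    have hP₁S : P₁ ≤ S := hf₁.le_right
    obtain ⟨d, P₀, N', ψ, P'', hd, hI, hN', hψ, hI', hD'⟩ := exists_good hS hE hP₁S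
    have hPN : P₁ ≤ normalizerIn S P₁ := H802.le_normalizerIn hP₁S
    have hdD : Mp D (normalizerIn S P₁) d := mp_dsy_iff.2 hd.dm
    have hiso : Iso F P₁ P₀ d := iso_of_mp ((hd.mp le_rfl).res hPN) hI
    have hisoD : Iso D P₁ P₀ d := iso_of_mp (hdD.res hPN) hI
    have hP₀N' : P₀ ≤ N' := fun y hy => by
      obtain ⟨x, hx, rfl⟩ := (hI y).1 hy
      exact hN'.apply (hPN hx)
    have hg : Good F T P₀ := Good.of_ext hP₀N' hψ hI' hD'
    have hTC₀ : TC F T (P₀ ⊓ T) := image_tc hT hiso (image_tc hT hf₁ hTC)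
    have hTP₀ : ¬ T ≤ P₀ := fun h =>
      hTP ((le_iff_of_iso hT hf₁).1 ((le_iff_of_iso hT hiso).1 h))
    have hcard : Nat.card P₀ = Nat.card P := by rw [hf₁.card_eq, hiso.card_eq]
    obtain ⟨P₃, θ, hθ, hθI, hSyl⟩ := six_b hS hE hiso.le_right hTC₀ hTP₀ (hg.sylow hS hE hTC₀)
      fun Q h1 h2 h3 => IH Q h1 h2 (by rwa [hcard] at h3)
    have hP₀N : P₀ ≤ normalizerIn S P₀ := H802.le_normalizerIn hiso.le_right
    have hisoθ : Iso D P₀ P₃ θ := iso_of_mp (hθ.res hP₀N) hθI
    have hc3 : D.IsConj P P₃ :=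
      H802.isConj_trans hP₁ (H802.isConj_trans hisoD.isConj hisoθ.isConj)
    have hC1 : Nat.card (centralizerIn S P₁) ≤ Nat.card (centralizerIn S P₀) :=
      mp_card_le hdD (H802.centralizerIn_le_normalizerIn S P₁) fun x hx =>
        ⟨hdD.mem (H802.centralizerIn_le_normalizerIn S P₁ hx), H770.Mp.mem_centralizer hdD hPN hI
          (H802.centralizerIn_le_normalizerIn S P₁ hx) hx.2⟩
    have hC2 : Nat.card (centralizerIn S P₀) ≤ Nat.card (centralizerIn S P₃) :=
      mp_card_le hθ (H802.centralizerIn_le_normalizerIn S P₀) fun x hx =>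
        ⟨hθ.mem (H802.centralizerIn_le_normalizerIn S P₀ hx), H770.Mp.mem_centralizer hθ hP₀N hθI
          (H802.centralizerIn_le_normalizerIn S P₀ hx) hx.2⟩
    have hC3 : Nat.card (centralizerIn S P₃) ≤ Nat.card (centralizerIn S P₁) := hmax P₃ hc3
    have hC4 : Nat.card (centralizerIn S P) ≤ Nat.card (centralizerIn S P₁) :=
      hmax P (H802.isConj_refl D hPS)
    have hN3 := hP.2 P₃ hc3
    have hA : Nat.card (autInducedBy S P) ≤ Nat.card (autInducedBy S P₃) := by
      rw [hSyl.2, ← H802.card_autGroup_eq hc3]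
      exact H802.card_le_of_isPGroup (H802.autInducedBy_le_autGroup D hPS)
        (H802.isPGroup_autInducedBy hS P)
    have hpos : 0 < Nat.card (autInducedBy S P) := Nat.card_pos
    have hposC : 0 < Nat.card (centralizerIn S P₃) := Nat.card_pos
    have hmul := H802.card_autInducedBy_mul S P
    have hmul3 := H802.card_autInducedBy_mul S P₃
    rw [← hmul, ← hmul3] at hN3
    have hC34 : Nat.card (centralizerIn S P) ≤ Nat.card (centralizerIn S P₃) := by omega
  · have h1 : Nat.card (autInducedBy S P₃) ≤ Nat.card (autInducedBy S P) := by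
      by_contra hcon
      push Not at hcon
      have h2 : Nat.card (autInducedBy S P) * Nat.card (centralizerIn S P) ≤
        Nat.card (autInducedBy S P) * Nat.card (centralizerIn S P₃) := Nat.mul_le_mul_left _ hC34
      have h3 : Nat.card (autInducedBy S P) * Nat.card (centralizerIn S P₃) <
        Nat.card (autInducedBy S P₃) * Nat.card (centralizerIn S P₃) :=
        Nat.mul_lt_mul_of_pos_right hcon hposC
      omega
    refine H802.sylIn_of_card_ge (H802.autInducedBy_le_autGroup D hPS)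
      (H802.isPGroup_autInducedBy hS P) ?_
    rw [H802.card_autGroup_eq hc3, ← hSyl.2]
    exact h1
  · intro Q hQ
    have h1 : Nat.card (centralizerIn S P₃) ≤ Nat.card (centralizerIn S P) := by
      by_contra hcon
      push Not at hcon
      have h2 : Nat.card (autInducedBy S P) * Nat.card (centralizerIn S P₃) ≤
        Nat.card (autInducedBy S P₃) * Nat.card (centralizerIn S P₃) := Nat.mul_le_mul_right _ hA
      have h3 : Nat.card (autInducedBy S P) * Nat.card (centralizerIn S P) <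
        Nat.card (autInducedBy S P) * Nat.card (centralizerIn S P₃) :=
        Nat.mul_lt_mul_of_pos_left hcon hpos
      omega
    have h2 := hmax Q hQ
    omega

end Cfsg.Agent.H756
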