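import Cfsg.Agent.H756.DSatC

/-!
# Saturation of the product system: extension to the normalizer (helper756)
-/

set_option autoImplicit false

namespace Cfsg.Agent.H756

open Cfsg Cfsg.FusionSystem Cfsg.Agent.H752
open Cfsg.Agent.H750 (Iso)
open Cfsg.Agent.H757 (Tr Ex Cj)
open Cfsg.Agent.H770 (Im)
open Cfsg.Agent.H802 (SylIn)

variable {Ω : Type*} [Group Ω] {S T L L' P P' P₁ P₂ P₀ Q R N U M B A : Subgroup Ω}
  {F D : FusionSystem S} {E : FusionSystem T} {p : ℕ} {f g e : Ω → Ω}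

theorem inv_mul_mem_of_act (hTS : T ≤ S) (hTC : TC F T (P ⊓ T)) {z w : Ω}
    (hz : z ∈ T) (hw : w ∈ T) (h : ∀ x ∈ P, z * x * z⁻¹ = w * x * w⁻¹) : z⁻¹ * w ∈ P ⊓ T := by
  refine hTC.self hTS (mul_mem (inv_mem hz) hw) fun u hu => ?_
  calc u * (z⁻¹ * w) = z⁻¹ * (z * u * z⁻¹) * w := by group
    _ = z⁻¹ * (w * u * w⁻¹) * w := by rw [h u hu.1]
    _ = z⁻¹ * w * u := by group

theorem card_MK [Finite S] (V : Subgroup (MulAut P)) :
    Nat.card (MK S P V) = Nat.card (autInducedBy (MK S P V) P) * Nat.card (centralizerIn S P) := by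
  have h1 := H802.card_autInducedBy_mul (MK S P V) P
  have h2 : normalizerIn (MK S P V) P = MK S P V := inf_eq_left.2 MK_le_normalizer
  have h3 : centralizerIn (MK S P V) P = centralizerIn S P := by
    apply le_antisymm
    · exact inf_le_inf_right _ MK_le_T
    · intro c hc
      refine ⟨⟨hc.1, 1, one_mem _, fun x => ?_⟩, hc.2⟩
      have h4 := Subgroup.mem_centralizer_iff.1 hc.2 x x.2
      show ((1 : MulAut P) x : Ω) = c * x * c⁻¹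
      rw [MulAut.one_apply, ← h4, mul_inv_cancel_right]
  rw [h2, h3] at h1
  exact h1.symm

theorem autInducedBy_MK_le (V : Subgroup (MulAut P)) : autInducedBy (MK S P V) P ≤ V := by
  intro α hα
  obtain ⟨m, ⟨hm, β, hβ, h1⟩, h2⟩ := H757.exists_cj_of_mem hα
  have h3 : α = β := af_ext fun x hx => by rw [af_cj h1 hx, af_cj h2 hx]
  rw [h3]
  exact hβ

theorem le_autInducedBy_MK {V : Subgroup (MulAut P)} (hV : V ≤ autInducedBy S P) :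
    V ≤ autInducedBy (MK S P V) P := by
  intro α hα
  obtain ⟨m, hm, h1⟩ := H757.exists_cj_of_mem (hV hα)
  exact h1.mem ⟨hm, α, hα, h1⟩

/-- **(6a)** -/
theorem six_a [Finite S] [Fact p.Prime] (hS : IsPGroup p S) (hE : E.IsNormalIn F p)
    (hP : (DSy F E p hE.1.2.2).IsFullyNormalized P) (hTC : TC F T (P ⊓ T)) (hTP : ¬ T ≤ P)
    (IH : ∀ Q : Subgroup Ω, Q ≤ S → TC F T (Q ⊓ T) → Nat.card P < Nat.card Q →
      FAR (DSy F E p hE.1.2.2) p Q)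
    (he : Mp (DSy F E p hE.1.2.2) P₁ e) (hI : Im e P₁ P)
    (hcond : ∀ g ∈ normalizerIn S P₁, ∃ h ∈ S, ∀ x ∈ P₁, e (g * x * g⁻¹) = h * e x * h⁻¹) :
    ∃ k : Ω → Ω, Mp (DSy F E p hE.1.2.2) (normalizerIn S P₁) k ∧ ∀ x ∈ P₁, k x = e x := by
  have hInv : E.IsInvariantIn F := hE.1.2.2
  have hT : F.StronglyClosed T := hInv.2.1
  have hTS := hT.1
  have hTf : Finite T := H802.finite_of_le hTS
  obtain ⟨hSylS, hcent, hSylT⟩ := fn_facts hS hE hP hTC hTP IH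
  set D := DSy F E p hE.1.2.2 with hD
  have hPS := hP.1
  have hPf : Finite P := H802.finite_of_le hPS
  have hPA : Finite (MulAut P) := H750.finite_mulAut
  have hisoD : Iso D P₁ P e := iso_of_mp he hI
  have heF : Mp F P₁ e := (mp_dsy_iff.1 he).mp
  have hiso : Iso F P₁ P e := iso_of_mp heF hI
  have hP₁S : P₁ ≤ S := hiso.le_left
  have hP₁f : Finite P₁ := H802.finite_of_le hP₁S
  obtain ⟨e', he'i, -, -⟩ := hiso.exists_inv
  have hTC₁ : TC F T (P₁ ⊓ T) := image_tc hT he'i hTC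
  have hTP₁ : ¬ T ≤ P₁ := fun h => hTP ((le_iff_of_iso hT hiso).2 h)
  obtain ⟨ε, hε⟩ := exists_eqv hiso
  have hinf := inf_gN_eq hPS hSylT hSylS.isPGroup (autInducedBy_mono hTS)
  -- Step 1: extension to `P₁ N_T(P₁)`
  obtain ⟨k, hk, hke⟩ := dm_ext_NT hS hE hTC₁ (mp_dsy_iff.1 he) fun m hm => by
    obtain ⟨α, hα, hc⟩ := cj_of_mem_NT le_rfl hm
    have h1 : MulAut.congr ε α ∈ autInducedBy T P := by
      rw [← hinf]
      refine ⟨?_, hε.mem_gN hInv hiso (autInducedBy_le_gN hT hP₁S hα)⟩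
      obtain ⟨h, hh, h2⟩ := hcond m ⟨hTS hm.1, hm.2⟩
      refine (cj_of_af (g := h) fun y hy => ?_ : Cj h _).mem hh
      obtain ⟨x, hx, rfl⟩ := (hI y).1 hy
      rw [hε.af_congr α hx, af_cj hc hx, h2 x hx]
    obtain ⟨t, ht, hct⟩ := H757.exists_cj_of_mem h1
    refine ⟨t, ht, fun x hx => ?_⟩
    rw [← af_cj hct (hI.apply hx), hε.af_congr α hx, af_cj hc hx]
  have hkD : Mp D (P₁ ⊔ normalizerIn T P₁) k := mp_dsy_iff.2 hk
  have hkF := hk.mp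
  have hP₁N : P₁ ≤ P₁ ⊔ normalizerIn T P₁ := le_sup_left
  have hNNT : normalizerIn T P₁ ≤ P₁ ⊔ normalizerIn T P₁ := le_sup_right
  have hN₁S : P₁ ⊔ normalizerIn T P₁ ≤ S := hk.le
  obtain ⟨Q₁, hQ₁, hQ₁S, -⟩ := H770.Mp.exists_im hkD le_rfl
  have hIk : Im k P₁ P := fun y => by
    rw [hI y]
    exact ⟨fun ⟨x, hx, h⟩ => ⟨x, hx, by rw [hke x hx, h]⟩,
      fun ⟨x, hx, h⟩ => ⟨x, hx, by rw [← hke x hx, h]⟩⟩
  have hPQ₁ : P ≤ Q₁ := fun y hy => by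
    obtain ⟨x, hx, rfl⟩ := (hIk y).1 hy
    exact hQ₁.apply (hP₁N hx)
  have hQ₁N : Q₁ ≤ P ⊔ normalizerIn T P := fun y hy => by
    obtain ⟨x, hx, rfl⟩ := (hQ₁ y).1 hy
    exact mp_maps_NT hT hkF hP₁N hIk (sup_NT_decomp le_rfl) x hx
  have hisoQ : Iso D (P₁ ⊔ normalizerIn T P₁) Q₁ k := iso_of_mp hkD hQ₁
  obtain ⟨εQ, hεQ⟩ := exists_eqv hisoQ
  have hTCQ : TC F T (Q₁ ⊓ T) := hTC.mono (inf_le_inf_right T hPQ₁) inf_le_right
  have hcardQ : Nat.card P < Nat.card Q₁ := by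
    rw [← hisoQ.card_eq, ← hiso.card_eq]
    exact card_lt_sup_NT hS hT hP₁S hTP₁
  -- the groups `V` and `J`
  set V := (autInducedBy S P₁).map (MulAut.congr ε).toMonoidHom with hV
  have hVS : V ≤ autInducedBy S P := by
    rintro _ ⟨α, hα, rfl⟩
    obtain ⟨g, hg, hc⟩ := H757.exists_cj_of_mem hα
    obtain ⟨h, hh, h2⟩ := hcond g ⟨hg, hc.mem_normalizer⟩
    refine (cj_of_af (g := h) fun y hy => ?_ : Cj h _).mem hh
    obtain ⟨x, hx, rfl⟩ := (hI y).1 hy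
    have h3 : af ((MulAut.congr ε).toMonoidHom α) (e x) = e (af α x) := hε.af_congr α hx
    rw [h3, af_cj hc hx, h2 x hx]
  have hVp : IsPGroup p V := (H802.isPGroup_autInducedBy hS P₁).map _
  have hJp := isPGroup_HW hS hInv hTC hQ₁S hPQ₁ hQ₁N hVp
  obtain ⟨Q, θ, hθ, hθI, hQr, hθJ⟩ := far_conj (IH Q₁ hQ₁S hTCQ hcardQ)
    (H := HW D hPQ₁ V) (fun β hβ => hβ.1) hJp
  -- elements of `N_S(P₁)` acting on `Q₁`
  have hact : ∀ g₁ ∈ normalizerIn S P₁, ∃ β ∈ HW D hPQ₁ V,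
      ∀ x ∈ P₁ ⊔ normalizerIn T P₁, k (g₁ * x * g₁⁻¹) = af β (k x) := by
    intro g₁ hg₁
    obtain ⟨γ, hγ⟩ := H757.exists_cj (norm_sup_NT hT hg₁)
    obtain ⟨α, hα⟩ := H757.exists_cj (P := P₁) hg₁.2
    refine ⟨MulAut.congr εQ γ, ⟨hεQ.mem_autGroup hisoQ (hγ.mem_autGroup hN₁S hg₁.1),
      MulAut.congr ε α, ⟨α, hα.mem hg₁.1, rfl⟩, fun y hy => ?_⟩, fun x hx => ?_⟩
    · obtain ⟨x, hx, rfl⟩ := (hIk y).1 hy
      rw [hεQ.af_congr γ (hP₁N hx), hke x hx, hε.af_congr α hx, af_cj hγ (hP₁N hx), af_cj hα hx,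
        hke _ ((Subgroup.mem_normalizer_iff.1 hg₁.2 x).1 hx)]
    · rw [hεQ.af_congr γ hx, af_cj hγ hx]
  -- the group `N'`
  have hN'S : MK S P V ≤ normalizerIn S P := le_inf MK_le_T MK_le_normalizer
  have hVcj : ∀ g ∈ MK S P V, ∃ g₁ ∈ normalizerIn S P₁, ∀ x ∈ P₁, g * e x * g⁻¹ =
      e (g₁ * x * g₁⁻¹) := by
    rintro g ⟨hg, _, ⟨α, hα, rfl⟩, hc⟩
    obtain ⟨g₁, hg₁, hc₁⟩ := H757.exists_cj_of_mem hα
    refine ⟨g₁, ⟨hg₁, hc₁.mem_normalizer⟩, fun x hx => ?_⟩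
    have h3 : af ((MulAut.congr ε).toMonoidHom α) (e x) = e (af α x) := hε.af_congr α hx
    rw [← af_cj hc (hI.apply hx), h3, af_cj hc₁ hx]
  have hN'Q : ∀ g ∈ MK S P V, g ∈ Subgroup.normalizer (Q₁ : Set Ω) := by
    intro g hg
    obtain ⟨g₁, hg₁, h1⟩ := hVcj g hg
    refine H802.mem_normalizer_of_conj_mem hQ₁S fun y hy => ?_
    obtain ⟨x, hx, rfl⟩ := (hQ₁ y).1 hy
    obtain ⟨u, hu, t, ht, rfl⟩ := (H757.mem_sup_of_normalizes
      (inf_le_right : normalizerIn T P₁ ≤ Subgroup.normalizer (P₁ : Set Ω))).1 hx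
    have htN := hNNT ht
    rw [hkF.mul (hP₁N hu) htN]
    have h2 : g * (k u * k t) * g⁻¹ = (g * k u * g⁻¹) * (g * k t * g⁻¹) := by group
    rw [h2]
    have hgu : g₁ * u * g₁⁻¹ ∈ P₁ := (Subgroup.mem_normalizer_iff.1 hg₁.2 u).1 hu
    refine mul_mem ?_ ?_
    · rw [hke u hu, h1 u hu]
      exact hPQ₁ (hI.apply hgu)
    · have hg₁N := norm_sup_NT hT hg₁
      have htg : g₁ * t * g₁⁻¹ ∈ P₁ ⊔ normalizerIn T P₁ :=
        (Subgroup.mem_normalizer_iff.1 hg₁N t).1 htN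
      have htgT : g₁ * t * g₁⁻¹ ∈ T := conj_mem_of_sc hT hg₁.1 ht.1
      have hz : k t ∈ T := mp_mem_of_stronglyClosed hT hkF htN ht.1
      have hz' : k (g₁ * t * g₁⁻¹) ∈ T := mp_mem_of_stronglyClosed hT hkF htg htgT
      have hgz : g * k t * g⁻¹ ∈ T := conj_mem_of_sc hT hg.1 hz
      have h3 := inv_mul_mem_of_act hTS hTC hz' hgz fun y hy => by
        obtain ⟨x, hx, rfl⟩ := (hI y).1 hy
        have hx1 : g₁⁻¹ * x * g₁ ∈ P₁ := by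
          have := (Subgroup.mem_normalizer_iff.1 (inv_mem hg₁.2) x).1 hx
          rwa [inv_inv] at this
        have hx2 : t * (g₁⁻¹ * x * g₁) * t⁻¹ ∈ P₁ :=
          (Subgroup.mem_normalizer_iff.1 ht.2 _).1 hx1
        have h4 : e x = g * e (g₁⁻¹ * x * g₁) * g⁻¹ := by
          rw [h1 _ hx1]; congr 1; group
        have h5 : k t * e (g₁⁻¹ * x * g₁) * (k t)⁻¹ = e (t * (g₁⁻¹ * x * g₁) * t⁻¹) := by
          rw [← hke _ hx1, ← hke _ hx2, hkF.mul (mul_mem htN (hP₁N hx1)) (inv_mem htN),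
            hkF.mul htN (hP₁N hx1), hkF.inv htN]
        have h6 : k (g₁ * t * g₁⁻¹) * e x * (k (g₁ * t * g₁⁻¹))⁻¹ =
            e (g₁ * (t * (g₁⁻¹ * x * g₁) * t⁻¹) * g₁⁻¹) := by
          rw [← hke x hx, ← hke _ ((Subgroup.mem_normalizer_iff.1 hg₁.2 _).1 hx2),
            ← hkF.inv htg, ← hkF.mul htg (hP₁N hx), ← hkF.mul (mul_mem htg (hP₁N hx)) (inv_mem htg)]
          congr 1
          group
        rw [h6, ← h1 _ hx2, ← h5]
        conv_rhs => rw [h4]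
        group
      have h7 : g * k t * g⁻¹ = k (g₁ * t * g₁⁻¹) * ((k (g₁ * t * g₁⁻¹))⁻¹ * (g * k t * g⁻¹)) := by
        group
      rw [h7]
      exact mul_mem (hQ₁.apply htg) (hPQ₁ h3.1)
  -- extension of `θ` to `N'`
  obtain ⟨X', k', hQX', hNX', hk', hk'θ⟩ := rec_ext hQr hθ hθI (N := MK S P V)
    (fun g hg => ⟨hg.1, hN'Q g hg⟩) fun g hg => by
      obtain ⟨β, hβ⟩ := H757.exists_cj (hN'Q g hg)
      obtain ⟨hgS, α, hα, hc⟩ := id hg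
      obtain ⟨s, hs, h1⟩ := hθJ β ⟨hβ.mem_autGroup hQ₁S hgS, α, hα, fun x hx => by
        rw [af_cj hβ (hPQ₁ hx), af_cj hc hx]⟩
      exact ⟨s, hs, fun x hx => by rw [← af_cj hβ hx, h1 x hx]⟩
  -- extension of `θ k` to `N_S(P₁)`
  have hθk : Mp D (P₁ ⊔ normalizerIn T P₁) (fun x => θ (k x)) := hkD.comp hθ fun x hx => hQ₁.apply hx
  obtain ⟨X'', φ, hNX'', hSX'', hφ, hφθ⟩ := rec_ext hQr hθk (hQ₁.comp hθI)
    (N := normalizerIn S P₁) (fun g hg => ⟨hg.1, norm_sup_NT hT hg⟩) fun g hg => by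
      obtain ⟨β, hβ, h1⟩ := hact g hg
      obtain ⟨s, hs, h2⟩ := hθJ β hβ
      exact ⟨s, hs, fun x hx => by
        show θ (k (g * x * g⁻¹)) = s * θ (k x) * s⁻¹
        rw [h1 x hx, h2 _ (hQ₁.apply hx)]⟩
  -- the image `P₂` of `P`
  have hPX' : P ≤ X' := hPQ₁.trans hQX'
  obtain ⟨P₂, hP₂, hP₂S, -⟩ := H770.Mp.exists_im hk' hPX'
  have hiso₂ : Iso D P P₂ k' := iso_of_mp (hk'.res hPX') hP₂
  have hP₂f : Finite P₂ := H802.finite_of_le hP₂S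
  have hP₂A : Finite (MulAut P₂) := H750.finite_mulAut
  obtain ⟨ε₂, hε₂⟩ := exists_eqv hiso₂
  set V₂ := V.map (MulAut.congr ε₂).toMonoidHom with hV₂
  have hφe : ∀ x ∈ P₁, φ x = k' (e x) := fun x hx => by
    rw [hφθ x (hP₁N hx)]
    show θ (k x) = k' (e x)
    rw [hke x hx, hk'θ _ (hPQ₁ (hI.apply hx))]
  have hP₁X'' : P₁ ≤ X'' := hP₁N.trans hNX''
  have hmap1 : ∀ g ∈ MK S P V, k' g ∈ MK S P₂ V₂ := by
    intro g hg
    obtain ⟨hgS, α, hα, hc⟩ := id hg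
    exact ⟨hk'.mem (hNX' hg), _, ⟨α, hα, rfl⟩, hε₂.cj hk' hPX' (hNX' hg) hc⟩
  have hmap2 : ∀ g ∈ normalizerIn S P₁, φ g ∈ MK S P₂ V₂ := by
    intro g hg
    obtain ⟨α, hα⟩ := H757.exists_cj (P := P₁) hg.2
    refine ⟨hφ.mem (hSX'' hg), MulAut.congr ε₂ (MulAut.congr ε α),
      ⟨_, ⟨α, hα.mem hg.1, rfl⟩, rfl⟩, cj_of_af fun y hy => ?_⟩
    obtain ⟨z, hz, rfl⟩ := (hP₂ y).1 hy
    obtain ⟨x, hx, rfl⟩ := (hI z).1 hz
    have hgx : g * x * g⁻¹ ∈ P₁ := (Subgroup.mem_normalizer_iff.1 hg.2 x).1 hx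
    rw [hε₂.af_congr _ hz, hε.af_congr α hx, af_cj hα hx, ← hφe _ hgx, ← hφe x hx,
      hφ.mul (mul_mem (hSX'' hg) (hP₁X'' hx)) (inv_mem (hSX'' hg)),
      hφ.mul (hSX'' hg) (hP₁X'' hx), hφ.inv (hSX'' hg)]
  have hKf : Finite (MK S P₂ V₂) := H802.finite_of_le (MK_le_T : MK S P₂ V₂ ≤ S)
  have hcardK : Nat.card (MK S P₂ V₂) ≤ Nat.card (MK S P V) := by
    rw [card_MK, card_MK]
    refine Nat.mul_le_mul ?_ (hcent P₂ hiso₂.isConj)
    refine (Subgroup.card_le_of_le (autInducedBy_MK_le V₂)).trans ?_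
    rw [hV₂, ← Nat.card_congr (V.equivMapOfInjective (MulAut.congr ε₂).toMonoidHom
      (MulAut.congr ε₂).injective).toEquiv]
    exact Subgroup.card_le_of_le (le_autInducedBy_MK hVS)
  have hsurj : ∀ b ∈ MK S P₂ V₂, ∃ g ∈ MK S P V, k' g = b := fun b hb =>
    mp_surj_of_card hk' hNX' hmap1 hcardK hb
  obtain ⟨I', hI', -, -⟩ := H770.Mp.exists_im hk' le_rfl
  obtain ⟨κ, hκ, hκk, hkκ⟩ := hk'.exists_symm le_rfl hI'
  refine ⟨fun x => κ (φ x), (hφ.res hSX'').comp hκ fun g hg => ?_, fun x hx => ?_⟩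
  · obtain ⟨g', hg', h1⟩ := hsurj _ (hmap2 g hg)
    rw [← h1]
    exact hI'.apply (hNX' hg')
  · show κ (φ x) = e x
    rw [hφe x hx, hκk _ (hPX' (hI.apply hx))]

end Cfsg.Agent.H756
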