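import Cfsg.Agent.H756.DSatD

/-!
# Saturation of the product system: receptivity (helper756)
-/

set_option autoImplicit false

namespace Cfsg.Agent.H756

open Cfsg Cfsg.FusionSystem Cfsg.Agent.H752
open Cfsg.Agent.H750 (Iso)
open Cfsg.Agent.H757 (Tr Ex Cj)
open Cfsg.Agent.H770 (Im)
open Cfsg.Agent.H802 (SylIn)

variable {Ω : Type*} [Group Ω] {S T L L' P P' P₁ P₂ P₀ Q R N U M B A : Subgroup Ω}
  {F D : FusionSystem S} {E : FusionSystem T} {p : ℕ} {f g e : Ω → Ω}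

theorem centralizerIn_le_MK {K : Subgroup (MulAut P)} : centralizerIn S P ≤ MK S P K := by
  intro c hc
  refine ⟨hc.1, 1, one_mem _, fun x => ?_⟩
  have h4 := Subgroup.mem_centralizer_iff.1 hc.2 x x.2
  show ((1 : MulAut P) x : Ω) = c * x * c⁻¹
  rw [MulAut.one_apply, ← h4, mul_inv_cancel_right]

theorem mem_centralizerIn_of_cj {z w : Ω} {α : MulAut P} (hz : z ∈ S) (hw : w ∈ S) (h1 : Cj z α)
    (h2 : Cj w α) : z⁻¹ * w ∈ centralizerIn S P := by
  refine ⟨S.mul_mem (S.inv_mem hz) hw, Subgroup.mem_centralizer_iff.2 fun u hu => ?_⟩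
  have h4 : z * u * z⁻¹ = w * u * w⁻¹ := by rw [← af_cj h1 hu, ← af_cj h2 hu]
  calc u * (z⁻¹ * w) = z⁻¹ * (z * u * z⁻¹) * w := by group
    _ = z⁻¹ * (w * u * w⁻¹) * w := by rw [h4]
    _ = z⁻¹ * w * u := by group

/-- Extension of the automorphisms of `P` in the product system. -/
theorem ext_aut [Finite S] [Fact p.Prime] (hS : IsPGroup p S) (hE : E.IsNormalIn F p)
    (hPS : P ≤ S) (hTC : TC F T (P ⊓ T)) {ψ : Ω → Ω} {P'' : Subgroup Ω}
    (hψ : Mp F (normalizerIn S P) ψ) (hI : Im ψ P P'') (hDFN : DFN F T P'')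
    (hSylS : SylIn p (autInducedBy S P) ((DSy F E p hE.1.2.2).autGroup P))
    (hSylT : SylIn p (autInducedBy T P) (gN F E p P)) :
    ∀ (K : Subgroup (MulAut P)) (a : MulAut P), K ≤ autInducedBy S P →
      a ∈ (DSy F E p hE.1.2.2).autGroup P → (∀ k ∈ K, a * k * a⁻¹ ∈ autInducedBy S P) →
      ∃ f : Ω → Ω, Mp (DSy F E p hE.1.2.2) (P ⊔ MK S P K) f ∧ ∀ x ∈ P, f x = af a x := by
  have hInv : E.IsInvariantIn F := hE.1.2.2
  have hT : F.StronglyClosed T := hInv.2.1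
  have hTS := hT.1
  have hTf : Finite T := H802.finite_of_le hTS
  set D := DSy F E p hE.1.2.2 with hD
  have hPf : Finite P := H802.finite_of_le hPS
  have hPA : Finite (MulAut P) := H750.finite_mulAut
  have hinf := inf_gN_eq hPS hSylT hSylS.isPGroup (autInducedBy_mono hTS)
  have hNS : ∀ K : Subgroup (MulAut P), P ⊔ MK S P K ≤ S := fun K => sup_le hPS MK_le_T
  have hDF : D.autGroup P ≤ F.autGroup P := fun α hα =>
    mem_aut_of_mp hPS (mp_dsy_iff.1 (mp_af hPS hα)).mp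
  refine alp_induction hSylS (fun K a => ∃ f : Ω → Ω, Mp D (P ⊔ MK S P K) f ∧
    ∀ x ∈ P, f x = af a x) ?_ ?_ ?_ ?_ ?_
  · rintro K K' a hK ⟨f, hf, h1⟩
    exact ⟨f, hf.res (sup_le_sup_left (MK_mono hK) P), h1⟩
  · rintro K K' a b hK hK' ha hb hKK ⟨f, hf, hfa⟩ ⟨g, hg, hgb⟩
    have hPN : P ≤ P ⊔ MK S P K := le_sup_left
    have hmap : ∀ x ∈ P ⊔ MK S P K, f x ∈ P ⊔ MK S P K' := by
      refine hf.mem_sup (fun x hx => ?_) fun m hm => ?_
      · rw [hfa x hx]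
        exact (le_sup_left : P ≤ P ⊔ MK S P K') (af_mem a hx)
      · refine (le_sup_right : MK S P K' ≤ P ⊔ MK S P K') ?_
        have hmN := (le_sup_right : MK S P K ≤ P ⊔ MK S P K) hm
        obtain ⟨hmT, α, hα, hc⟩ := hm
        exact ⟨hf.mem hmN, _, hKK α hα, cj_conj hf hPN hfa hmN hc⟩
    refine ⟨fun x => g (f x), hf.comp hg hmap, fun x hx => ?_⟩
    show g (f x) = _
    rw [hfa x hx, hgb _ (af_mem a hx), af_mul _ _ hx]
  · rintro K K' a hK hK' ha hKK ⟨f, hf, hfa⟩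
    have hPN : P ≤ P ⊔ MK S P K := le_sup_left
    obtain ⟨I, hI', -, -⟩ := H770.Mp.exists_im hf le_rfl
    obtain ⟨k, hk, hkf, hfk⟩ := hf.exists_symm le_rfl hI'
    have hPI : P ≤ I := fun y hy => (hI' y).2 ⟨af a⁻¹ y, hPN (af_mem _ hy), by
      rw [hfa _ (af_mem _ hy), af_af_inv a hy]⟩
    have hIm : Im f P P := by
      intro y
      constructor
      · intro hy
        exact ⟨_, af_mem a⁻¹ hy, by rw [hfa _ (af_mem a⁻¹ hy), af_af_inv a hy]⟩
      · rintro ⟨x, hx, rfl⟩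
        rw [hfa x hx]
        exact af_mem a hx
    have hCN : centralizerIn S P ≤ P ⊔ MK S P K :=
      centralizerIn_le_MK.trans le_sup_right
    have hCf : Finite (centralizerIn S P) := H802.finite_of_le inf_le_left
    have hCI : centralizerIn S P ≤ I := by
      intro c hc
      obtain ⟨c', hc', h1⟩ := mp_surj_of_card (B := centralizerIn S P) hf hCN
        (fun x hx => ⟨hf.mem (hCN hx), H770.Mp.mem_centralizer hf hPN hIm (hCN hx) hx.2⟩) le_rfl hc
      rw [← h1]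
      exact hI'.apply (hCN hc')
    have hle : P ⊔ MK S P K' ≤ I := by
      refine sup_le hPI ?_
      rintro t ⟨ht, α', hα', hc⟩
      obtain ⟨m, hm, hmc⟩ := H757.exists_cj_of_mem (hK (hKK α' hα'))
      have hmK : m ∈ MK S P K := ⟨hm, _, hKK α' hα', hmc⟩
      have hmN := (le_sup_right : MK S P K ≤ P ⊔ MK S P K) hmK
      have h1 := cj_conj hf hPN hfa hmN hmc
      have h2 : a * (a⁻¹ * α' * a) * a⁻¹ = α' := by group
      rw [h2] at h1
      have h3 := mem_centralizerIn_of_cj (hf.mem hmN) ht h1 hc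
      have h4 : t = f m * ((f m)⁻¹ * t) := by group
      rw [h4]
      exact mul_mem (hI'.apply hmN) (hCI h3)
    refine ⟨k, hk.res hle, fun x hx => ?_⟩
    have h1 := hkf _ (hPN (af_mem a⁻¹ hx))
    rwa [hfa _ (af_mem a⁻¹ hx), af_af_inv a hx] at h1
  · intro K a hK ha hKa hco
    have hPN : P ≤ P ⊔ MK S P K := le_sup_left
    have hMN : MK S P K ≤ P ⊔ MK S P K := le_sup_right
    have haA : a ∈ gA F E P := mem_gA_of_dm hS hInv (mp_dsy_iff.1 (mp_af hPS ha)) hco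
    have haN : a ∈ gN F E p P := mem_gN_of_coprime haA hco
    have ham := mp_af hPS haA.1
    have hNn : P ⊔ MK S P K ≤ Subgroup.normalizer (P : Set Ω) :=
      sup_le Subgroup.le_normalizer MK_le_normalizer
    have hNNS : P ⊔ MK S P K ≤ normalizerIn S P := le_inf (hNS K) hNn
    obtain ⟨b, hb, hbc, hbx⟩ := exists_ext_gA' hS hE (N := P ⊔ MK S P K) (hψ.res hNNS) hI hDFN hTC
      hPN hNn haA hco (fun y hy => by
        have hyS := hNS K hy
        obtain ⟨x₀, hx₀, m, hm, hxm⟩ := (H757.mem_sup_of_normalizes MK_le_normalizer).1 hy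
        obtain ⟨hmS, α, hα, hc⟩ := id hm
        obtain ⟨m', hm', hc'⟩ := H757.exists_cj_of_mem (hK (hKa α hα))
        have hm'K : m' ∈ MK S P K := ⟨hm', _, hKa α hα, hc'⟩
        obtain ⟨γ, hγ⟩ := H757.exists_cj (P := P) (hNn hy)
        have hax₀ := af_mem a hx₀
        have hy₁ : af a x₀ * m' ∈ P ⊔ MK S P K := mul_mem (hPN hax₀) (hMN hm'K)
        -- `a γ a⁻¹` is conjugation by `a(x₀) m'`
        have h1 : Cj (af a x₀ * m') (a * γ * a⁻¹) := by
          refine cj_of_af fun z hz => ?_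
          have hz' := af_mem a⁻¹ hz
          have hαz := af_mem α hz'
          have h2 := af_cj hc' hz
          rw [af_mul _ _ hz, af_mul _ _ hz', af_cj hc hz'] at h2
          have hmz : m * af a⁻¹ z * m⁻¹ ∈ P := by rw [← af_cj hc hz']; exact hαz
          rw [af_mul _ _ hz, af_mul _ _ hz', af_cj hγ hz', ← hxm]
          have h3 : x₀ * m * af a⁻¹ z * (x₀ * m)⁻¹ = x₀ * (m * af a⁻¹ z * m⁻¹) * x₀⁻¹ := by group
          rw [h3, ham.mul (mul_mem hx₀ hmz) (inv_mem hx₀), ham.mul hx₀ hmz, ham.inv hx₀, h2]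
          group
        have hγS : γ ∈ autInducedBy S P := hγ.mem hyS
        have h2 : a * γ * a⁻¹ * γ⁻¹ ∈ autInducedBy T P := by
          rw [← hinf]
          refine ⟨(autInducedBy S P).mul_mem (h1.mem (hNS K hy₁)) ((autInducedBy S P).inv_mem hγS), ?_⟩
          have h3 : a * γ * a⁻¹ * γ⁻¹ = a * (γ * a⁻¹ * γ⁻¹) := by group
          rw [h3]
          exact mul_mem haN (gN_conj_mem hInv hPS (hγ.mem_autGroup hPS hyS) (inv_mem haN))
        obtain ⟨t, ht, hct⟩ := H757.exists_cj_of_mem h2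
        have h4 : Cj (t * y) (a * γ * a⁻¹) := by
          have := hct.mul hγ
          rwa [inv_mul_cancel_right] at this
        have h5 := mem_centralizerIn_of_cj (hNS K hy₁) (mul_mem (hTS ht) hyS) h1 h4
        refine ⟨t * y, ?_, ?_, fun x hx => ?_⟩
        · have h6 : t * y = af a x₀ * m' * ((af a x₀ * m')⁻¹ * (t * y)) := by group
          rw [h6]
          exact mul_mem hy₁ (hMN (centralizerIn_le_MK h5))
        · show y⁻¹ * (t * y) ∈ T
          have h6 := conj_mem_of_sc hT (inv_mem hyS) ht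
          have h7 : y⁻¹ * (t * y) = y⁻¹ * t * y⁻¹⁻¹ := by group
          rw [h7]
          exact h6
        · have h6 := af_cj h4 (af_mem a hx)
          rw [af_mul _ _ (af_mem a hx), af_mul _ _ (af_mem _ (af_mem a hx)), af_inv_af a hx,
            af_cj hγ hx] at h6
          exact h6)
    refine ⟨af b, mp_dsy_iff.2 (nm_af (hNS K) (hTC.mono (inf_le_inf_right T hPN) inf_le_right)
      (mem_gN_of_coprime hb hbc) le_rfl).dm, (ex_iff hPN).1 hbx⟩
  · intro v hv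
    obtain ⟨s, hs, hc⟩ := H757.exists_cj_of_mem hv
    exact ⟨fun x => s * x * s⁻¹, mp_conj D (hNS _) hs, fun x hx => (af_cj hc hx).symm⟩

/-- **(6c)** -/
theorem six_c [Finite S] [Fact p.Prime] (hS : IsPGroup p S) (hE : E.IsNormalIn F p)
    (hPS : P ≤ S) (hTC : TC F T (P ⊓ T)) {ψ : Ω → Ω} {P'' : Subgroup Ω}
    (hψ : Mp F (normalizerIn S P) ψ) (hI : Im ψ P P'') (hDFN : DFN F T P'')
    (hSylS : SylIn p (autInducedBy S P) ((DSy F E p hE.1.2.2).autGroup P))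
    (hSylT : SylIn p (autInducedBy T P) (gN F E p P))
    (hext : ∀ (P₀ : Subgroup Ω) (φ : Ω → Ω), Mp (DSy F E p hE.1.2.2) P₀ φ → Im φ P₀ P →
      ∃ α ∈ (DSy F E p hE.1.2.2).autGroup P, ∃ k : Ω → Ω,
        Mp (DSy F E p hE.1.2.2) (normalizerIn S P₀) k ∧ ∀ x ∈ P₀, k x = af α (φ x)) :
    (DSy F E p hE.1.2.2).IsReceptive P := by
  set D := DSy F E p hE.1.2.2 with hD
  have hPf : Finite P := H802.finite_of_le hPS
  refine ⟨hPS, fun P₀ φ hφ hφP => ?_⟩
  have hP₀S : P₀ ≤ S := (D.le_of_mem hφ).1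
  have hφm : Mp D P₀ (ex φ) := mp_ex hφ
  have hφI : Im (ex φ) P₀ P := by
    intro y
    rw [← hφP]
    constructor
    · rintro ⟨x, rfl⟩
      exact ⟨x, x.2, ex_coe _ x⟩
    · rintro ⟨x, hx, rfl⟩
      exact ⟨⟨x, hx⟩, (ex_apply (φ : P₀ → Ω) hx).symm⟩
  obtain ⟨α, hα, k, hk, hkα⟩ := hext P₀ (ex φ) hφm hφI
  have hP₀N : P₀ ≤ normalizerIn S P₀ := H802.le_normalizerIn hP₀S
  set X := extender S P₀ φ with hX
  have hXN : X ≤ normalizerIn S P₀ := H802.extender_le_normalizerIn _ _ _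
  have hP₀X : P₀ ≤ X := H802.le_extender hP₀S (H802.hom_apply_mem hφ)
  have hkI : Im k P₀ P := by
    intro y
    constructor
    · intro hy
      obtain ⟨x, hx, h1⟩ := (hφI _).1 (af_mem α⁻¹ hy)
      exact ⟨x, hx, by rw [hkα x hx, h1, af_af_inv α hy]⟩
    · rintro ⟨x, hx, rfl⟩
      rw [hkα x hx]
      exact af_mem α (hφI.apply hx)
  have hiso : Iso D P₀ P k := iso_of_mp (hk.res hP₀N) hkI
  obtain ⟨ε, hε⟩ := exists_eqv hiso
  obtain ⟨f, hf, hfa⟩ := ext_aut hS hE hPS hTC hψ hI hDFN hSylS hSylT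
    ((autInducedBy X P₀).map (MulAut.congr ε).toMonoidHom) α⁻¹ (by
      rintro _ ⟨β, hβ, rfl⟩
      obtain ⟨g, hg, hc⟩ := H757.exists_cj_of_mem hβ
      exact (hε.cj hk hP₀N (hXN hg) hc).mem (hk.mem (hXN hg))) (inv_mem hα) (by
      rintro _ ⟨β, hβ, rfl⟩
      obtain ⟨g, hg, hc⟩ := H757.exists_cj_of_mem hβ
      obtain ⟨hgS, hgn, h, hh, h1⟩ := (H802.mem_extender_iff S P₀ φ g).1 hg
      refine (cj_of_af (g := h) fun y hy => ?_ : Cj h _).mem hh
      obtain ⟨x, hx, rfl⟩ := (hφI y).1 hy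
      have hx' := hφI.apply hx
      have hgx : g * x * g⁻¹ ∈ P₀ := (Subgroup.mem_normalizer_iff.1 hgn x).1 hx
      rw [inv_inv, af_mul _ _ hx', af_mul _ _ (af_mem α hx'), ← hkα x hx]
      have h2 : af ((MulAut.congr ε).toMonoidHom β) (k x) = k (af β x) := hε.af_congr β hx
      rw [h2, af_cj hc hx, hkα _ hgx, af_inv_af α (hφI.apply hgx), ex_apply (φ : P₀ → Ω) hx,
        ex_apply (φ : P₀ → Ω) hgx]
      exact h1 ⟨x, hx⟩ hgx)
  have hmap : ∀ g ∈ X, k g ∈ P ⊔ MK S P ((autInducedBy X P₀).map (MulAut.congr ε).toMonoidHom) := by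
    intro g hg
    obtain ⟨β, hc⟩ := H757.exists_cj (P := P₀) (hXN hg).2
    exact (le_sup_right : MK S P _ ≤ P ⊔ MK S P _)
      ⟨hk.mem (hXN hg), _, ⟨β, hc.mem hg, rfl⟩, hε.cj hk hP₀N (hXN hg) hc⟩
  obtain ⟨χ, hχ, hχe⟩ := (hk.res hXN).comp hf hmap
  refine ⟨χ, hχ, fun x hx hx' => ?_⟩
  rw [hχe]
  show f (k x) = φ ⟨x, hx⟩
  rw [hfa _ (hkI.apply hx), hkα x hx, af_inv_af α (hφI.apply hx), ex_apply (φ : P₀ → Ω) hx]

end Cfsg.Agent.H756
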