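import Cfsg.Agent.H756.DSatE

/-!
# Saturation of the product system: all subgroups meeting `T` in a centric subgroup (helper756)
-/

set_option autoImplicit false

namespace Cfsg.Agent.H756

open Cfsg Cfsg.FusionSystem Cfsg.Agent.H752
open Cfsg.Agent.H750 (Iso)
open Cfsg.Agent.H757 (Tr Ex Cj)
open Cfsg.Agent.H770 (Im)
open Cfsg.Agent.H802 (SylIn)

variable {Ω : Type*} [Group Ω] {S T L L' P P' P₁ P₂ P₀ Q R N U M B A : Subgroup Ω}
  {F D : FusionSystem S} {E : FusionSystem T} {p : ℕ} {f g e : Ω → Ω}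

/-- Maps in `NM F E p P P` are elements of `gN P`. -/
theorem nm_top (h : NM F E p P P f) : ∃ a ∈ gN F E p P, ∀ x ∈ P, f x = af a x := by
  induction h with
  | id hPL hf => exact ⟨1, one_mem _, fun x hx => by rw [hf x hx, af_one hx]⟩
  | @step Q f g a hf hQL hTC ha hfQ hg ih =>
    obtain ⟨b, hb, h1⟩ := ih
    have h2 : Q = P := by
      refine le_antisymm hQL fun x hx => ?_
      have h3 := hfQ _ (af_mem b⁻¹ hx)
      rwa [h1 _ (af_mem b⁻¹ hx), af_af_inv b hx] at h3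
    subst h2
    exact ⟨a * b, mul_mem ha hb, fun x hx => by rw [hg x hx, h1 x hx, af_mul _ _ hx]⟩

theorem im_af {a : MulAut P} (h : ∀ x ∈ P, f x = af a x) : Im f P P := by
  intro y
  constructor
  · intro hy
    exact ⟨_, af_mem a⁻¹ hy, by rw [h _ (af_mem a⁻¹ hy), af_af_inv a hy]⟩
  · rintro ⟨x, hx, rfl⟩
    rw [h x hx]
    exact af_mem a hx

theorem im_unique (h : Im f P Q) (h' : Im f P R) : Q = R := by
  ext y
  rw [h y, h' y]

/-- The case `T ≤ P`. -/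
theorem far_top [Finite S] [Fact p.Prime] (hS : IsPGroup p S) (hE : E.IsNormalIn F p)
    (hPS : P ≤ S) (hTP : T ≤ P) : FAR (DSy F E p hE.1.2.2) p P := by
  have hInv : E.IsInvariantIn F := hE.1.2.2
  have hT : F.StronglyClosed T := hInv.2.1
  have hTf : Finite T := H802.finite_of_le hT.1
  set D := DSy F E p hE.1.2.2 with hD
  have hPf : Finite P := H802.finite_of_le hPS
  have hPA : Finite (MulAut P) := H750.finite_mulAut
  have hTC : TC F T (P ⊓ T) := tc_of_le hT hTP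
  have hsup : P ⊔ T = P := sup_eq_left.2 hTP
  have hnm : ∀ {Q : Subgroup Ω} {d : Ω → Ω}, T ≤ Q → NM F E p S Q d →
      ∃ a ∈ gN F E p Q, ∀ x ∈ Q, d x = af a x := by
    intro Q d hQ hd
    have h1 := hd.layer hS hE le_rfl
    rw [sup_eq_left.2 hQ] at h1
    exact nm_top h1
  obtain ⟨d, P', N', ψ, P'', hd, hI, hN', hψ, hI', hDFN⟩ := exists_good hS hE hPS
  have hPN : P ≤ normalizerIn S P := H802.le_normalizerIn hPS
  have hP' : P' = P := by
    obtain ⟨a, -, ha⟩ := hnm hTP (hd.res hPN)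
    exact im_unique hI (im_af ha)
  have hN'' : N' = normalizerIn S P := by
    obtain ⟨a, -, ha⟩ := hnm (hTP.trans hPN) hd
    exact im_unique hN' (im_af ha)
  subst hP'
  subst hN''
  have hψ' : Mp F (normalizerIn S P') ψ := hψ.res le_sup_left
  have hg : Good F T P' := Good.of_ext hPN hψ hI' hDFN
  have hSylT := hg.sylow hS hE hTC
  have hSylS : SylIn p (autInducedBy S P') (D.autGroup P') := by
    obtain ⟨W, hSW, hW⟩ := H802.exists_sylIn (K := D.autGroup P')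
      (H802.autInducedBy_le_autGroup D hPS) (H802.isPGroup_autInducedBy hS P')
    have hinf := inf_gN_eq hPS hSylT hW.isPGroup ((autInducedBy_mono hT.1).trans hSW)
    have hWS : W ≤ autInducedBy S P' := by
      intro w hw
      obtain ⟨s, hs, k, hk, h1⟩ := mp_dsy_iff.1 (mp_af hPS (hW.le hw))
      obtain ⟨δ, hδ, h2⟩ := hnm hTP hk
      have hsn : s ∈ Subgroup.normalizer (P' : Set Ω) := by
        refine H802.mem_normalizer_of_conj_mem hPS fun y hy => ?_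
        have h3 := h1 _ (af_mem δ⁻¹ hy)
        rw [h2 _ (af_mem δ⁻¹ hy), af_af_inv δ hy] at h3
        rw [← h3]
        exact af_mem _ (af_mem δ⁻¹ hy)
      obtain ⟨σ, hσ⟩ := H757.exists_cj hsn
      have hσS : σ ∈ autInducedBy S P' := hσ.mem hs
      have h4 : w = σ * δ := af_ext fun x hx => by
        rw [h1 x hx, h2 x hx, af_mul _ _ hx, af_cj hσ (af_mem δ hx)]
      have h5 : δ ∈ W ⊓ gN F E p P' := by
        refine ⟨?_, hδ⟩
        have h6 : δ = σ⁻¹ * w := by rw [h4]; group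
        rw [h6]
        exact W.mul_mem (W.inv_mem (hSW hσS)) hw
      rw [hinf] at h5
      rw [h4]
      exact mul_mem hσS (autInducedBy_mono hT.1 h5)
    rw [le_antisymm hSW hWS]
    exact hW
  refine ⟨P', H802.isConj_refl D hPS, H750.isFullyAutomized_of_sylIn hPS hSylS,
    six_c hS hE hPS hTC hψ' hI' hDFN hSylS hSylT fun P₀ φ hφ hφI => ?_⟩
  have hiso : Iso F P₀ P' φ := iso_of_mp (mp_dsy_iff.1 hφ).mp hφI
  have hTP₀ : T ≤ P₀ := (le_iff_of_iso hT hiso).1 hTP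
  have hP₀S : P₀ ≤ S := hiso.le_left
  obtain ⟨s, hs, k, hk, h1⟩ := mp_dsy_iff.1 hφ
  obtain ⟨δ, hδ, h2⟩ := hnm hTP₀ hk
  have hδD : δ ∈ D.autGroup P₀ :=
    mem_aut_of_mp hP₀S (mp_dsy_iff.2 (hk.congr fun x hx => (h2 x hx).symm).dm)
  have hsI : Im (fun x => s * x * s⁻¹) P₀ P' := by
    intro y
    rw [hφI y]
    constructor
    · rintro ⟨x, hx, rfl⟩
      exact ⟨k x, by rw [h2 x hx]; exact af_mem δ hx, (h1 x hx).symm⟩
    · rintro ⟨x, hx, rfl⟩
      exact ⟨af δ⁻¹ x, af_mem _ hx, by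
        rw [h1 _ (af_mem _ hx), h2 _ (af_mem _ hx), af_af_inv δ hx]⟩
  have hsiso : Iso D P₀ P' (fun x => s * x * s⁻¹) := iso_of_mp (mp_conj D hP₀S hs) hsI
  obtain ⟨ε, hε⟩ := exists_eqv hsiso
  refine ⟨MulAut.congr ε δ⁻¹, hε.mem_autGroup hsiso (inv_mem hδD), fun x => s * x * s⁻¹,
    mp_conj D inf_le_left hs, fun x hx => ?_⟩
  rw [h1 x hx, h2 x hx]
  have h3 : af (MulAut.congr ε δ⁻¹) (s * af δ x * s⁻¹) = s * af δ⁻¹ (af δ x) * s⁻¹ :=
    hε.af_congr δ⁻¹ (af_mem δ hx)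
  rw [h3, af_inv_af δ hx]

/-- Every subgroup `P` with `P ⊓ T` centric is conjugate to a fully automized receptive subgroup. -/
theorem far_all [Finite S] [Fact p.Prime] (hS : IsPGroup p S) (hE : E.IsNormalIn F p) :
    ∀ (n : ℕ) (P : Subgroup Ω), Nat.card S - Nat.card P = n → P ≤ S → TC F T (P ⊓ T) →
      FAR (DSy F E p hE.1.2.2) p P := by
  have hInv : E.IsInvariantIn F := hE.1.2.2
  have hT : F.StronglyClosed T := hInv.2.1
  have hTf : Finite T := H802.finite_of_le hT.1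
  intro n
  induction n using Nat.strong_induction_on with
  | _ n IHn =>
  intro P hn hPS hTC
  have IH : ∀ Q : Subgroup Ω, Q ≤ S → TC F T (Q ⊓ T) → Nat.card P < Nat.card Q →
      FAR (DSy F E p hE.1.2.2) p Q := by
    intro Q hQ hQT hlt
    have h1 : Nat.card Q ≤ Nat.card S := Subgroup.card_le_of_le hQ
    exact IHn _ (by omega) Q rfl hQ hQT
  by_cases hTP : T ≤ P
  · exact far_top hS hE hPS hTP
  set D := DSy F E p hE.1.2.2 with hD
  have hNf : ∀ Q : Subgroup Ω, Finite (normalizerIn S Q) := fun Q =>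
    H802.finite_of_le inf_le_left
  obtain ⟨P₁, hP₁, hmax⟩ := exists_max_nat (fun Q => D.IsConj P Q)
    (fun Q => Nat.card (normalizerIn S Q)) (Nat.card S)
    (fun Q _ => Subgroup.card_le_of_le inf_le_left) ⟨P, H802.isConj_refl D hPS⟩
  obtain ⟨f₁, hf₁, hI₁⟩ := H770.exists_mp_of_isConj hP₁
  have hiso₁ : Iso F P P₁ f₁ := iso_of_mp (mp_dsy_iff.1 hf₁).mp hI₁
  have hP₁S : P₁ ≤ S := hiso₁.le_right
  obtain ⟨d, P₂, N', ψ, P'', hd, hI, hN', hψ, hI', hDFN⟩ := exists_good hS hE hP₁S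
  have hPN : P₁ ≤ normalizerIn S P₁ := H802.le_normalizerIn hP₁S
  have hdD : Mp D (normalizerIn S P₁) d := mp_dsy_iff.2 hd.dm
  have hiso : Iso F P₁ P₂ d := iso_of_mp ((hd.mp le_rfl).res hPN) hI
  have hisoD : Iso D P₁ P₂ d := iso_of_mp (hdD.res hPN) hI
  have hP₂S : P₂ ≤ S := hiso.le_right
  have hP₂f : Finite P₂ := H802.finite_of_le hP₂S
  have hP₂A : Finite (MulAut P₂) := H750.finite_mulAut
  have hc₂ : D.IsConj P P₂ := H802.isConj_trans hP₁ hisoD.isConj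
  have hN'eq : N' = normalizerIn S P₂ := by
    have h1 : N' ≤ normalizerIn S P₂ := by
      intro y hy
      obtain ⟨x, hx, rfl⟩ := (hN' y).1 hy
      exact ⟨hdD.mem hx, H770.Mp.mem_normalizer hdD hPN hI hx hx.2⟩
    have h2 : Nat.card N' = Nat.card (normalizerIn S P₁) := H770.Mp.im_card hdD hN'
    exact Subgroup.eq_of_le_of_card_ge h1 (by rw [h2]; exact hmax P₂ hc₂)
  subst hN'eq
  have hP₂N : P₂ ≤ normalizerIn S P₂ := H802.le_normalizerIn hP₂S
  have hTC₂ : TC F T (P₂ ⊓ T) := image_tc hT hiso (image_tc hT hiso₁ hTC)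
  have hTP₂ : ¬ T ≤ P₂ := fun h =>
    hTP ((le_iff_of_iso hT hiso₁).1 ((le_iff_of_iso hT hiso).1 h))
  have hcard : Nat.card P₂ = Nat.card P := by rw [hiso₁.card_eq, hiso.card_eq]
  have IH₂ : ∀ Q : Subgroup Ω, Q ≤ S → TC F T (Q ⊓ T) → Nat.card P₂ < Nat.card Q →
      FAR D p Q := fun Q h1 h2 h3 => IH Q h1 h2 (by rwa [hcard] at h3)
  have hfn : D.IsFullyNormalized P₂ := by
    refine ⟨hP₂S, fun Q hQ => ?_⟩
    have h1 := hmax Q (H802.isConj_trans hc₂ hQ)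
    have h2 : Nat.card (normalizerIn S P₂) = Nat.card (normalizerIn S P₁) :=
      H770.Mp.im_card hdD hN'
    rw [h2]
    exact h1
  obtain ⟨hSylS, hcent, hSylT⟩ := fn_facts hS hE hfn hTC₂ hTP₂ IH₂
  refine ⟨P₂, hc₂, H750.isFullyAutomized_of_sylIn hP₂S hSylS,
    six_c hS hE hP₂S hTC₂ (hψ.res le_sup_left) hI' hDFN hSylS hSylT fun P₀ φ hφ hφI => ?_⟩
  have hφiso : Iso D P₀ P₂ φ := iso_of_mp hφ hφI
  obtain ⟨ε, hε⟩ := exists_eqv hφiso
  obtain ⟨α, hα, hαS⟩ := hSylS.exists_conj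
    (B := (autInducedBy S P₀).map (MulAut.congr ε).toMonoidHom) (by
      rintro _ ⟨β, hβ, rfl⟩
      exact hε.mem_autGroup hφiso (H802.autInducedBy_le_autGroup D hφiso.le_left hβ))
    ((H802.isPGroup_autInducedBy hS P₀).map _)
  have hαφ : Mp D P₀ (fun x => af α (φ x)) :=
    hφ.comp (mp_af hP₂S hα) fun x hx => hφI.apply hx
  have hαφI : Im (fun x => af α (φ x)) P₀ P₂ := by
    intro y
    constructor
    · intro hy
      obtain ⟨x, hx, h1⟩ := (hφI _).1 (af_mem α⁻¹ hy)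
      exact ⟨x, hx, by show af α (φ x) = y; rw [h1, af_af_inv α hy]⟩
    · rintro ⟨x, hx, rfl⟩
      exact af_mem α (hφI.apply hx)
  obtain ⟨k, hk, hke⟩ := six_a hS hE hfn hTC₂ hTP₂ IH₂ hαφ hαφI fun g hg => by
    obtain ⟨β, hβ⟩ := H757.exists_cj (P := P₀) hg.2
    obtain ⟨h, hh, hc⟩ := H757.exists_cj_of_mem (hαS _ ⟨β, hβ.mem hg.1, rfl⟩)
    refine ⟨h, hh, fun x hx => ?_⟩
    have hx' := hφI.apply hx
    have h1 := af_cj hc (af_mem α hx')
    have h2 : af ((MulAut.congr ε).toMonoidHom β) (φ x) = φ (af β x) := hε.af_congr β hx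
    rw [af_mul _ _ (af_mem α hx'), af_mul _ _ (af_mem _ (af_mem α hx')), af_inv_af α hx', h2,
      af_cj hβ hx] at h1
    exact h1
  exact ⟨α, hα, k, hk, hke⟩

end Cfsg.Agent.H756
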