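import Cfsg.Agent.H756.DSatF
import Cfsg.Agent.S5110
import Cfsg.Agent.H802.FusEss

/-!
# Saturation of the product system (helper756)
-/

set_option autoImplicit false

namespace Cfsg.Agent.H756

open Cfsg Cfsg.FusionSystem Cfsg.Agent.H752
open Cfsg.Agent.H750 (Iso)
open Cfsg.Agent.H757 (Tr Ex Cj)
open Cfsg.Agent.H770 (Im)
open Cfsg.Agent.H802 (SylIn)

variable {Ω : Type*} [Group Ω] {S T L L' P P' P₁ P₂ P₀ Q R N U M B A : Subgroup Ω}
  {F D : FusionSystem S} {E : FusionSystem T} {p : ℕ} {f g e : Ω → Ω}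

/-- Maps in `NM` belong to every system containing the maps of the product system with source in the family. -/
theorem NM.mp_of_gen [Finite S] {hE : E.IsInvariantIn F} {X : FusionSystem S}
    (hX : ∀ P : Subgroup Ω, P ≤ S → TC F T (P ⊓ T) → (DSy F E p hE).Hom P ⊆ X.Hom P)
    (h : NM F E p S P f) : Mp X P f := by
  induction h with
  | id hPL hf => exact (mp_id X hPL).congr hf
  | step hf hQL hTC ha hfQ hg ih =>
    refine (ih.comp ?_ hfQ).congr hg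
    obtain ⟨φ, hφ, h1⟩ := mp_dsy_iff (hE := hE).2 (nm_af hQL hTC ha le_rfl).dm
    exact ⟨φ, hX _ hQL hTC hφ, h1⟩

theorem mem_pCore_map {G : Type*} [Group G] {p : ℕ} {A K : Subgroup G} (hKA : K ≤ A)
    (hn : ∀ a ∈ A, ∀ k ∈ K, a * k * a⁻¹ ∈ K) (hp : IsPGroup p K) {g : G} (hg : g ∈ K) :
    g ∈ (pCore p A).map A.subtype := by
  refine ⟨⟨g, hKA hg⟩, ?_, rfl⟩
  have h1 : K.subgroupOf A ≤ pCore p A := by
    refine le_sSup ⟨⟨fun k hk a => ?_⟩, ?_⟩
    · exact hn a a.2 k hk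
    · exact hp.comap_subtype
  exact h1 hg

/-- Condition (*) for the product system. -/
theorem dsy_star [Finite S] [Fact p.Prime] (hS : IsPGroup p S) (hE : E.IsNormalIn F p)
    (hPc : (DSy F E p hE.1.2.2).IsCentric P) (hTC : ¬ TC F T (P ⊓ T)) :
    ∃ Q, (DSy F E p hE.1.2.2).IsConj P Q ∧
      ¬ (autInducedBy S Q ⊓ (pCore p ↥((DSy F E p hE.1.2.2).autGroup Q)).map
        ((DSy F E p hE.1.2.2).autGroup Q).subtype ≤ Inn Q) := by
  have hF : F.IsSaturated p := hE.1.2.1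
  have hInv : E.IsInvariantIn F := hE.1.2.2
  have hT : F.StronglyClosed T := hInv.2.1
  have hTS := hT.1
  have hTf : Finite T := H802.finite_of_le hTS
  set D := DSy F E p hE.1.2.2 with hD
  have hPS := hPc.1
  set U := P ⊓ T with hU
  have hUS : U ≤ S := inf_le_left.trans hPS
  obtain ⟨U', hc, hU'⟩ := H802.exists_isFullyNormalized hS hF hUS
  obtain ⟨f₀, hf₀, hI₀⟩ := H770.exists_mp_of_isConj hc
  obtain ⟨f, hf, hI⟩ := H770.mp_normalizer hS hF hU' hf₀ hI₀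
  obtain ⟨w, hw, hwU, hwc⟩ := exists_cent_of_not_tc hS hF hT inf_le_right hTC hc hU'
  obtain ⟨d, ψ, hd, hψ, hfψ⟩ := exists_df hS hE _ f hf
  have hPN : P ≤ normalizerIn S U := (H802.le_normalizerIn hPS).trans (norm_inf_le hT)
  have hUN : U ≤ normalizerIn S U := H802.le_normalizerIn hUS
  have hNT : normalizerIn S U ≤ normalizerIn S U ⊔ T := le_sup_left
  have hTN : T ≤ normalizerIn S U ⊔ T := le_sup_right
  obtain ⟨w₀, hw₀, hψw⟩ := mp_surj_T hT hψ hTN hw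
  have hdm := hd.mp le_rfl
  have hdD : Mp D (normalizerIn S U) d := mp_dsy_iff.2 hd.dm
  obtain ⟨Q, hQ, hQS, -⟩ := H770.Mp.exists_im hdD hPN
  have hisoD : Iso D P Q d := iso_of_mp (hdD.res hPN) hQ
  have hiso : Iso F P Q d := iso_of_mp (hdm.res hPN) hQ
  have hdN : ∀ x ∈ normalizerIn S U, d x ∈ normalizerIn S U ⊔ T := fun x hx =>
    (mem_sup_T hT inf_le_left).2 ⟨x, hx, hd.cg x hx⟩
  have hisoU := iso_inf hT hiso
  have hcQ : D.IsConj P Q := hisoD.isConj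
  -- `w₀` centralizes `Q ⊓ T`
  have hw₀U : w₀ ∉ Q ⊓ T := by
    intro h
    obtain ⟨x, hx, h1⟩ := hisoU.surj h
    apply hwU
    rw [← hψw, ← h1, ← hfψ x (hUN hx)]
    exact hI.apply hx
  have hw₀c : ∀ u ∈ Q ⊓ T, u * w₀ = w₀ * u := by
    intro u hu
    obtain ⟨x, hx, rfl⟩ := hisoU.surj hu
    have hxN := hdN x (hUN hx)
    refine hψ.inj (mul_mem hxN (hTN hw₀)) (mul_mem (hTN hw₀) hxN) ?_
    rw [hψ.mul hxN (hTN hw₀), hψ.mul (hTN hw₀) hxN, hψw, ← hfψ x (hUN hx)]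
    exact hwc _ (hI.apply hx)
  set W := centralizerIn T (Q ⊓ T) with hW
  have hWT : W ≤ T := inf_le_left
  have hw₀W : w₀ ∈ W := ⟨hw₀, Subgroup.mem_centralizer_iff.2 hw₀c⟩
  have hWQ : ¬ W ≤ Q := fun h => hw₀U ⟨h hw₀W, hw₀⟩
  have hQU : Q ≤ normalizerIn S (Q ⊓ T) := (H802.le_normalizerIn hQS).trans (norm_inf_le hT)
  have hWn : W ≤ normalizerIn S (Q ⊓ T) := fun x hx =>
    ⟨hTS hx.1, Subgroup.centralizer_le_normalizer _ hx.2⟩
  have hRf : Finite (normalizerIn S (Q ⊓ T)) := H802.finite_of_le inf_le_left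
  obtain ⟨w₁, hw₁, hw₁Q, hw₁n⟩ := H757.exists_normalizes_of_not_le
    (R := normalizerIn S (Q ⊓ T)) (hS.to_le inf_le_left) hWn hQU
    (fun r hr u hu => by
      refine ⟨conj_mem_of_sc hT hr.1 hu.1, Subgroup.mem_centralizer_iff.2 fun z hz => ?_⟩
      have h1 : r⁻¹ * z * r ∈ Q ⊓ T := by
        have := (Subgroup.mem_normalizer_iff.1 (inv_mem hr.2) z).1 hz
        rwa [inv_inv] at this
      have h2 := Subgroup.mem_centralizer_iff.1 hu.2 _ h1
      calc z * (r * u * r⁻¹) = r * (r⁻¹ * z * r * u) * r⁻¹ := by group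
        _ = r * (u * (r⁻¹ * z * r)) * r⁻¹ := by rw [h2]
        _ = r * u * r⁻¹ * z := by group) hWQ
  obtain ⟨γ, hγ⟩ := H757.exists_cj hw₁n
  have hw₁S : w₁ ∈ S := hTS hw₁.1
  have hγX : γ ∈ gX F T Q := by
    have h1 := cj_mem_gA (E := E) hT hQS hw₁.1 hγ
    refine ⟨h1.1, h1.2.1, fun x hx => ?_⟩
    rw [af_cj hγ hx.1, ← Subgroup.mem_centralizer_iff.1 hw₁.2 x hx, mul_inv_cancel_right]
  refine ⟨Q, hcQ, fun hle => ?_⟩
  have hγI : γ ∈ Inn Q := by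
    refine hle ⟨hγ.mem hw₁S, mem_pCore_map (K := gX F T Q ⊓ D.autGroup Q) inf_le_right ?_
      ((isPGroup_gX hS hQS).to_le inf_le_left) ⟨hγX, hγ.mem_autGroup hQS hw₁S⟩⟩
    intro a ha k hk
    refine ⟨gX_conj_mem hT hQS (mem_aut_of_mp hQS (mp_dsy_iff.1 (mp_af hQS ha)).mp) hk.1, ?_⟩
    exact (D.autGroup Q).mul_mem ((D.autGroup Q).mul_mem ha hk.2) ((D.autGroup Q).inv_mem ha)
  exact hw₁Q (H802.mem_of_conj_mem_inn hQS (hPc.2 Q hcQ) hw₁S hγ hγI)

/-- **The product system is saturated.** -/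
theorem dsy_saturated [Finite S] [Fact p.Prime] (hS : IsPGroup p S) (hE : E.IsNormalIn F p) :
    (DSy F E p hE.1.2.2).IsSaturated p := by
  have hInv : E.IsInvariantIn F := hE.1.2.2
  have hT : F.StronglyClosed T := hInv.2.1
  refine Cfsg.Agent.S5110.result p hS _ {P | P ≤ S ∧ TC F T (P ⊓ T)} (fun P hP => hP.1) ?_ ?_ ?_ ?_
  · intro P hP Q hQ
    obtain ⟨f, hf, hI⟩ := H770.exists_mp_of_isConj hQ
    have hiso : Iso F P Q f := iso_of_mp (mp_dsy_iff.1 hf).mp hI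
    exact ⟨hiso.le_right, image_tc hT hiso hP.2⟩
  · intro P hP
    exact far_all hS hE _ P rfl hP.1 hP.2
  · intro X hX P φ hφ
    have hX' : ∀ P : Subgroup Ω, P ≤ S → TC F T (P ⊓ T) →
        (DSy F E p hE.1.2.2).Hom P ⊆ X.Hom P := fun P h1 h2 => hX P ⟨h1, h2⟩
    obtain ⟨s, hs, d, hd, h1⟩ := mp_dsy_iff.1 (mp_ex hφ)
    have h2 : Mp X P (ex φ) := ((hd.mp_of_gen hX').comp (mp_conj X le_rfl hs)
      fun x hx => hd.mapsL x hx).congr h1
    exact h2.mem_hom fun x hx => (ex_apply (φ : P → Ω) hx).symm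
  · intro P hPc hP
    exact dsy_star hS hE hPc fun h => hP ⟨hPc.1, h⟩

end Cfsg.Agent.H756
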