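import Cfsg.Agent.H756.Rec4
import Cfsg.Agent.H756.MkSys

/-!
# The product system (helper756)
-/

set_option autoImplicit false

namespace Cfsg.Agent.H756

open Cfsg Cfsg.FusionSystem Cfsg.Agent.H752
open Cfsg.Agent.H750 (Iso)
open Cfsg.Agent.H757 (Tr Ex Cj)
open Cfsg.Agent.H770 (Im)
open Cfsg.Agent.H802 (SylIn)

variable {Ω : Type*} [Group Ω] {S T L L' P P' P₁ P₂ P₀ Q R N U M B : Subgroup Ω}
  {F : FusionSystem S} {E : FusionSystem T} {p : ℕ} {f g e : Ω → Ω}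

/-- The maps of the product system. -/
def DM (F : FusionSystem S) (E : FusionSystem T) (p : ℕ) (P : Subgroup Ω) (f : Ω → Ω) : Prop :=
  ∃ s ∈ S, ∃ d : Ω → Ω, NM F E p S P d ∧ ∀ x ∈ P, f x = s * d x * s⁻¹

/-- Conjugation of `NM` by an element of `S`. -/
theorem NM.conjS [Finite S] (hE : E.IsInvariantIn F) (h : NM F E p S P f) {s : Ω} (hs : s ∈ S)
    {k : Ω → Ω} (hk : ∀ y ∈ R, s⁻¹ * y * s ∈ P ∧ k y = s * f (s⁻¹ * y * s) * s⁻¹) :
    NM F E p S R k := by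
  refine h.conj hE (ψ := fun x => s * x * s⁻¹) (mp_conj F le_rfl hs) (L' := S) (fun y => ?_)
    fun y hy => ⟨s⁻¹ * y * s, (hk y hy).1, by group, (hk y hy).2⟩
  constructor
  · intro hy
    exact ⟨s⁻¹ * y * s, mul_mem (mul_mem (inv_mem hs) hy) hs, by group⟩
  · rintro ⟨x, hx, rfl⟩
    exact mul_mem (mul_mem hs hx) (inv_mem hs)

theorem DM.congr (h : DM F E p P f) (he : ∀ x ∈ P, g x = f x) : DM F E p P g := by
  obtain ⟨s, hs, d, hd, h1⟩ := h
  exact ⟨s, hs, d, hd, fun x hx => by rw [he x hx, h1 x hx]⟩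

theorem NM.dm (h : NM F E p S P f) : DM F E p P f :=
  ⟨1, one_mem _, f, h, fun x _ => by group⟩

theorem dm_conj (hP : P ≤ S) {s : Ω} (hs : s ∈ S) : DM F E p P (fun x => s * x * s⁻¹) :=
  ⟨s, hs, fun x => x, NM.id hP fun _ _ => rfl, fun _ _ => rfl⟩

theorem DM.mp (h : DM F E p P f) : Mp F P f := by
  obtain ⟨s, hs, d, hd, h1⟩ := h
  refine ((hd.mp le_rfl).comp (mp_conj F le_rfl hs) fun x hx => hd.mapsL x hx).congr h1

theorem DM.le (h : DM F E p P f) : P ≤ S := h.mp.le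

theorem DM.res (h : DM F E p P f) (hR : R ≤ P) : DM F E p R f := by
  obtain ⟨s, hs, d, hd, h1⟩ := h
  exact ⟨s, hs, d, hd.res hR, fun x hx => h1 x (hR hx)⟩

theorem DM.comp [Finite S] (hE : E.IsInvariantIn F) (hf : DM F E p P f) (hg : DM F E p Q g)
    (h : ∀ x ∈ P, f x ∈ Q) : DM F E p P (fun x => g (f x)) := by
  obtain ⟨s, hs, d, hd, h1⟩ := hf
  obtain ⟨r, hr, k, hk, h2⟩ := hg
  obtain ⟨I, hI⟩ := hd.exists_image le_rfl
  have h3 : NM F E p S I (fun y => s⁻¹ * k (s * y * s⁻¹) * s) := by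
    refine hk.conjS hE (inv_mem hs) fun y hy => ?_
    obtain ⟨x, hx, rfl⟩ := (hI y).1 hy
    have h4 : s⁻¹⁻¹ * d x * s⁻¹ = f x := by rw [inv_inv, h1 x hx]
    refine ⟨by rw [h4]; exact h x hx, ?_⟩
    rw [inv_inv]
  refine ⟨r * s, mul_mem hr hs, _, hd.comp h3 fun x hx => hI.apply hx, fun x hx => ?_⟩
  show g (f x) = r * s * (s⁻¹ * k (s * d x * s⁻¹) * s) * (r * s)⁻¹
  rw [h2 _ (h x hx), ← h1 x hx]
  group

theorem DM.symm [Finite S] (hE : E.IsInvariantIn F) (hf : DM F E p P f)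
    (hg : ∀ y ∈ R, ∃ x ∈ P, f x = y ∧ g y = x) : DM F E p R g := by
  obtain ⟨s, hs, d, hd, h1⟩ := hf
  obtain ⟨I, hI⟩ := hd.exists_image le_rfl
  obtain ⟨κ, hκ, hκd, hdκ⟩ := (hd.mp le_rfl).exists_symm le_rfl hI
  have hκN : NM F E p S I κ := hd.symm le_rfl fun y hy => ⟨κ y, (hdκ y hy).1, (hdκ y hy).2, rfl⟩
  have h3 : NM F E p S R (fun y => s * κ (s⁻¹ * y * s) * s⁻¹) := by
    refine hκN.conjS hE hs fun y hy => ⟨?_, rfl⟩
    obtain ⟨x, hx, rfl, -⟩ := hg y hy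
    have h4 : s⁻¹ * f x * s = d x := by rw [h1 x hx]; group
    rw [h4]
    exact hI.apply hx
  refine ⟨s⁻¹, inv_mem hs, _, h3, fun y hy => ?_⟩
  obtain ⟨x, hx, rfl, h4⟩ := hg y hy
  have h5 : s⁻¹ * f x * s = d x := by rw [h1 x hx]; group
  rw [h4, h5, hκd x hx]
  group

/-- **The product system** of `S` and `E`. -/
def DSy (F : FusionSystem S) (E : FusionSystem T) (p : ℕ) [Finite S] (hE : E.IsInvariantIn F) :
    FusionSystem S :=
  mkSys F (DM F E p) (fun _ _ _ h he => h.congr he) (fun _ hP _ ht => dm_conj hP ht)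
    (fun _ _ _ _ _ hf _ hg h => hf.comp hE hg h)
    (fun _ _ _ _ _ hf _ hI h => hf.symm hE fun y hy => by
      obtain ⟨x, hx, rfl⟩ := (hI y).1 hy
      exact ⟨x, hx, rfl, h x hx⟩)

theorem mp_dsy_iff [Finite S] {hE : E.IsInvariantIn F} :
    Mp (DSy F E p hE) P f ↔ DM F E p P f :=
  mp_mkSys_iff.trans ⟨fun h => h.2, fun h => ⟨h.mp, h⟩⟩

theorem dsy_le [Finite S] {hE : E.IsInvariantIn F} : DSy F E p hE ≤ F := mkSys_le

/-- Powers of automorphisms in the product system. -/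
theorem dm_pow [Finite S] (hE : E.IsInvariantIn F) {α : MulAut P} {s : Ω} (hs : s ∈ S)
    (hf : NM F E p S P f) (h : ∀ x ∈ P, af α x = s * f x * s⁻¹) (n : ℕ) :
    ∃ k : Ω → Ω, NM F E p S P k ∧ ∀ x ∈ P, af (α ^ n) x = s ^ n * k x * (s ^ n)⁻¹ := by
  induction n with
  | zero =>
    refine ⟨fun x => x, NM.id hf.le fun _ _ => rfl, fun x hx => ?_⟩
    rw [pow_zero, pow_zero, af_one hx]
    group
  | succ n ih =>
    obtain ⟨k, hk, h1⟩ := ih
    obtain ⟨I, hI⟩ := hk.exists_image le_rfl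
    have hsn := pow_mem hs n
    have h3 : NM F E p S I (fun y => (s ^ n)⁻¹ * f (s ^ n * y * (s ^ n)⁻¹) * s ^ n) := by
      refine hf.conjS hE (inv_mem hsn) fun y hy => ?_
      obtain ⟨x, hx, rfl⟩ := (hI y).1 hy
      rw [inv_inv]
      refine ⟨?_, rfl⟩
      rw [← h1 x hx]
      exact af_mem _ hx
    refine ⟨_, hk.comp h3 fun x hx => hI.apply hx, fun x hx => ?_⟩
    show af (α ^ (n + 1)) x = s ^ (n + 1) * ((s ^ n)⁻¹ * f (s ^ n * k x * (s ^ n)⁻¹) * s ^ n) *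
      (s ^ (n + 1))⁻¹
    rw [← h1 x hx, pow_succ' α, af_mul _ _ hx, h _ (af_mem _ hx), pow_succ' s]
    group

/-- Automorphisms of order prime to `p` in the product system lie in `gA`. -/
theorem mem_gA_of_dm [Finite S] [Fact p.Prime] (hS : IsPGroup p S) (hE : E.IsInvariantIn F)
    {α : MulAut P} (h : DM F E p P (af α)) (hc : Nat.Coprime (orderOf α) p) : α ∈ gA F E P := by
  have hPS := h.le
  obtain ⟨s, hs, d, hd, h1⟩ := h
  obtain ⟨m, hm⟩ := hS ⟨s, hs⟩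
  have hm' : s ^ p ^ m = 1 := congrArg Subtype.val hm
  obtain ⟨k, hk, h2⟩ := dm_pow hE hs hd h1 (p ^ m)
  have h3 : ∀ x ∈ P, af (α ^ p ^ m) x = k x := fun x hx => by
    rw [h2 x hx, hm']; group
  have hkm := hk.mp le_rfl
  have h4 : α ^ p ^ m ∈ gA F E P := by
    refine ⟨?_, tr_iff.2 fun x hx => by rw [h3 x hx]; exact hk.cg x hx,
      hk.mpE.congr fun x hx => h3 x hx.1⟩
    exact hkm.mem_autGroup (fun x hx => by rw [← h3 x hx, af_apply _ hx])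
  obtain ⟨i, hi⟩ := exists_pow_eq_self_of_coprime (hc.symm.pow_left m)
  rw [← hi]
  exact pow_mem h4 i

end Cfsg.Agent.H756
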