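import Cfsg.Agent.H757.ExtMain
import Cfsg.Agent.H756.Flat
import Cfsg.Agent.H756.Transfer

/-!
# Local groups of a normal subsystem (helper756)

`gA F E P` : the automorphisms of `P` in `F`, trivial modulo `T`, restricting to `E` on `P ⊓ T`.
`gX F T P` : those that are trivial on `P ⊓ T`.
`gN F E p P` : generated by the `p'`-elements of `gA` and those `F`-conjugate to conjugation by an element of `T`.
-/

set_option autoImplicit false

namespace Cfsg.Agent.H756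

open Cfsg Cfsg.FusionSystem Cfsg.Agent.H752
open Cfsg.Agent.H750 (Iso)
open Cfsg.Agent.H757 (Tr Ex Cj)

variable {Ω : Type*} [Group Ω] {S T P P' : Subgroup Ω} {F : FusionSystem S} {E : FusionSystem T}
  {p : ℕ} {f : Ω → Ω}

theorem tr_iff {α : MulAut P} : Tr T α ↔ ∀ x ∈ P, Cg T x (af α x) := by
  constructor
  · intro h x hx
    rw [af_apply α hx]
    exact h ⟨x, hx⟩
  · intro h x
    have := h x x.2
    rwa [af_apply α x.2] at this

theorem mem_of_cg {x y : Ω} (h : Cg T x y) (hx : x ∈ T) : y ∈ T := by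
  have h1 : y = x * (x⁻¹ * y) := by group
  rw [h1]
  exact mul_mem hx h

theorem mem_of_cg' {x y : Ω} (h : Cg T x y) (hy : y ∈ T) : x ∈ T := mem_of_cg h.symm hy

theorem tr_maps {α : MulAut P} (h : Tr T α) {x : Ω} (hx : x ∈ P ⊓ T) : af α x ∈ P ⊓ T :=
  ⟨af_mem α hx.1, mem_of_cg (tr_iff.1 h x hx.1) hx.2⟩

/-! ### The groups -/

/-- Automorphisms of `P` in `F`, trivial modulo `T`, restricting to a map of `E` on `P ⊓ T`. -/
def gA (F : FusionSystem S) (E : FusionSystem T) (P : Subgroup Ω) : Subgroup (MulAut P) where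
  carrier := {α | α ∈ F.autGroup P ∧ Tr T α ∧ Mp E (P ⊓ T) (af α)}
  one_mem' := ⟨one_mem _, Tr.one, (mp_id E inf_le_right).congr fun x hx => af_one hx.1⟩
  mul_mem' := by
    rintro a b ⟨ha, ha1, ha2⟩ ⟨hb, hb1, hb2⟩
    refine ⟨mul_mem ha hb, ha1.mul hb1, ?_⟩
    exact (hb2.comp ha2 fun x hx => tr_maps hb1 hx).congr fun x hx => af_mul _ _ hx.1
  inv_mem' := by
    rintro a ⟨ha, ha1, ha2⟩
    refine ⟨inv_mem ha, ha1.inv, ha2.symm fun y hy => ?_⟩
    exact ⟨af a⁻¹ y, tr_maps ha1.inv hy, af_af_inv a hy.1, rfl⟩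

/-- Automorphisms of `P` in `F`, trivial modulo `T` and on `P ⊓ T`. -/
def gX (F : FusionSystem S) (T : Subgroup Ω) (P : Subgroup Ω) : Subgroup (MulAut P) where
  carrier := {α | α ∈ F.autGroup P ∧ Tr T α ∧ ∀ x ∈ P ⊓ T, af α x = x}
  one_mem' := ⟨one_mem _, Tr.one, fun x hx => af_one hx.1⟩
  mul_mem' := by
    rintro a b ⟨ha, ha1, ha2⟩ ⟨hb, hb1, hb2⟩
    refine ⟨mul_mem ha hb, ha1.mul hb1, fun x hx => ?_⟩
    rw [af_mul _ _ hx.1, hb2 x hx, ha2 x hx]
  inv_mem' := by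
    rintro a ⟨ha, ha1, ha2⟩
    refine ⟨inv_mem ha, ha1.inv, fun x hx => ?_⟩
    have := af_inv_af a hx.1
    rwa [ha2 x hx] at this

theorem mem_gA {α : MulAut P} :
    α ∈ gA F E P ↔ α ∈ F.autGroup P ∧ Tr T α ∧ Mp E (P ⊓ T) (af α) := Iff.rfl

theorem mem_gX {α : MulAut P} :
    α ∈ gX F T P ↔ α ∈ F.autGroup P ∧ Tr T α ∧ ∀ x ∈ P ⊓ T, af α x = x := Iff.rfl

/-- `α` is `F`-conjugate to conjugation by an element of `T`. -/
def TConj (F : FusionSystem S) (T P : Subgroup Ω) (α : MulAut P) : Prop :=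
  ∃ φ : Ω → Ω, Mp F P φ ∧ ∃ t ∈ T, ∀ x ∈ P, φ (af α x) = t * φ x * t⁻¹

/-- The group generated by the `p'`-elements of `gA` and its elements `F`-conjugate to `T`-conjugations. -/
def gN (F : FusionSystem S) (E : FusionSystem T) (p : ℕ) (P : Subgroup Ω) : Subgroup (MulAut P) :=
  Subgroup.closure {α | α ∈ gA F E P ∧ (Nat.Coprime (orderOf α) p ∨ TConj F T P α)}

theorem gX_le_gA : gX F T P ≤ gA F E P := fun _ hα =>
  ⟨hα.1, hα.2.1, (mp_id E inf_le_right).congr fun x hx => hα.2.2 x hx⟩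

theorem gN_le_gA : gN F E p P ≤ gA F E P :=
  (Subgroup.closure_le _).2 fun _ h => h.1

theorem gA_le : gA F E P ≤ F.autGroup P := fun _ h => h.1

theorem mem_gN_of_coprime {α : MulAut P} (h : α ∈ gA F E P) (hc : Nat.Coprime (orderOf α) p) :
    α ∈ gN F E p P := Subgroup.subset_closure ⟨h, Or.inl hc⟩

theorem mem_gN_of_tconj {α : MulAut P} (h : α ∈ gA F E P) (hc : TConj F T P α) :
    α ∈ gN F E p P := Subgroup.subset_closure ⟨h, Or.inr hc⟩

/-! ### Transport -/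

/-- `e` is given by the function `f`. -/
def Eqv (f : Ω → Ω) (e : P ≃* P') : Prop := ∀ x : P, ((e x : P') : Ω) = f x

theorem exists_eqv (h : Iso F P P' f) : ∃ e : P ≃* P', Eqv f e := by
  obtain ⟨φ, hφ, hr, hφe⟩ := h
  exact ⟨H802.isoOf φ (F.injective_of_mem hφ) hr, fun x => by
    rw [← hφe x x.2]; exact H802.coe_isoOf _ _ _ _⟩

theorem Eqv.af_congr {e : P ≃* P'} (he : Eqv f e) (α : MulAut P) {x : Ω} (hx : x ∈ P) :
    af (MulAut.congr e α) (f x) = f (af α x) := by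
  have h1 : f x ∈ P' := by rw [← he ⟨x, hx⟩]; exact (e _).2
  rw [af_apply _ h1]
  have h2 : (⟨f x, h1⟩ : P') = e ⟨x, hx⟩ := Subtype.ext (he ⟨x, hx⟩).symm
  rw [h2, af_apply α hx, ← he]
  show ((e (α (e.symm (e ⟨x, hx⟩))) : P') : Ω) = _
  rw [MulEquiv.symm_apply_apply]

theorem Eqv.surj {e : P ≃* P'} (he : Eqv f e) {y : Ω} (hy : y ∈ P') : ∃ x ∈ P, f x = y :=
  ⟨e.symm ⟨y, hy⟩, (e.symm ⟨y, hy⟩).2, by rw [← he, MulEquiv.apply_symm_apply]⟩

theorem Eqv.mem {e : P ≃* P'} (he : Eqv f e) {x : Ω} (hx : x ∈ P) : f x ∈ P' := by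
  rw [← he ⟨x, hx⟩]; exact (e _).2

theorem Eqv.mem_autGroup (h : Iso F P P' f) {e : P ≃* P'} (he : Eqv f e) {α : MulAut P}
    (hα : α ∈ F.autGroup P) : MulAut.congr e α ∈ F.autGroup P' := by
  obtain ⟨φ, hφ, hr, hφe⟩ := h
  have h1 := H802.congr_mem_autGroup hφ hr hα
  have h2 : H802.isoOf φ (F.injective_of_mem hφ) hr = e := by
    ext x
    rw [H802.coe_isoOf, he, ← hφe x x.2]
  rwa [h2] at h1

theorem mp_of_iso (h : Iso F P P' f) : Mp F P f := by
  obtain ⟨φ, hφ, -, hφe⟩ := h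
  exact ⟨φ, hφ, hφe⟩

theorem iso_of_mp (h : Mp F P f) (hP' : ∀ y, y ∈ P' ↔ ∃ x ∈ P, f x = y) : Iso F P P' f := by
  obtain ⟨φ, hφ, hφe⟩ := h
  refine ⟨φ, hφ, ?_, hφe⟩
  ext y
  rw [hP' y]
  constructor
  · rintro ⟨x, rfl⟩
    exact ⟨x, x.2, (hφe x x.2).symm⟩
  · rintro ⟨x, hx, rfl⟩
    exact ⟨⟨x, hx⟩, hφe x hx⟩

theorem exists_iso_of_mp (h : Mp F P f) : ∃ P', Iso F P P' f := by
  obtain ⟨P', h1, -⟩ := h.exists_image le_rfl
  exact ⟨P', iso_of_mp h h1⟩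

theorem Eqv.tr (hT : F.StronglyClosed T) (h : Iso F P P' f) {e : P ≃* P'} (he : Eqv f e)
    {α : MulAut P} (hα : Tr T α) : Tr T (MulAut.congr e α) := by
  rw [tr_iff] at hα ⊢
  intro y hy
  obtain ⟨x, hx, rfl⟩ := he.surj hy
  rw [he.af_congr α hx]
  exact (hα x hx).map hT (mp_of_iso h) hx (af_mem α hx)

theorem inf_iff (hT : F.StronglyClosed T) (h : Iso F P P' f) {x : Ω} (hx : x ∈ P) :
    f x ∈ P' ⊓ T ↔ x ∈ P ⊓ T :=
  ⟨fun h1 => ⟨hx, mp_mem_of_stronglyClosed' hT (mp_of_iso h) hx h1.2⟩,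
    fun h1 => ⟨h.mem hx, mp_mem_of_stronglyClosed hT (mp_of_iso h) hx h1.2⟩⟩

/-- The isomorphism induced on the intersections with `T`. -/
theorem iso_inf (hT : F.StronglyClosed T) (h : Iso F P P' f) : Iso F (P ⊓ T) (P' ⊓ T) f :=
  iso_of_mp ((mp_of_iso h).res inf_le_left) fun y => by
    constructor
    · intro hy
      obtain ⟨x, hx, rfl⟩ := h.surj hy.1
      exact ⟨x, (inf_iff hT h hx).1 hy, rfl⟩
    · rintro ⟨x, hx, rfl⟩
      exact (inf_iff hT h hx.1).2 hx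

theorem strongInv [Finite T] (hE : E.IsInvariantIn F) : StrongInvC E F := by
  obtain ⟨-, -, h3, h4⟩ := isInvariantIn_iff.1 hE
  exact strongInvC_of_invC h3 h4

theorem Eqv.mem_gA [Finite T] (hE : E.IsInvariantIn F) (h : Iso F P P' f) {e : P ≃* P'}
    (he : Eqv f e) {α : MulAut P} (hα : α ∈ gA F E P) : MulAut.congr e α ∈ gA F E P' := by
  have hT : F.StronglyClosed T := hE.2.1
  refine ⟨he.mem_autGroup h hα.1, he.tr hT h hα.2.1, ?_⟩
  refine strongInv hE (P ⊓ T) (P ⊓ T) (P' ⊓ T) (af α) f _ le_rfl inf_le_right hα.2.2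
    (fun x hx => tr_maps hα.2.1 hx) (mp_of_iso (iso_inf hT h)) fun y hy => ?_
  obtain ⟨x, hx, rfl⟩ := (iso_inf hT h).surj hy
  exact ⟨x, hx, rfl, he.af_congr α hx.1⟩

theorem Eqv.mem_gX (hT : F.StronglyClosed T) (h : Iso F P P' f) {e : P ≃* P'}
    (he : Eqv f e) {α : MulAut P} (hα : α ∈ gX F T P) : MulAut.congr e α ∈ gX F T P' := by
  refine ⟨he.mem_autGroup h hα.1, he.tr hT h hα.2.1, fun y hy => ?_⟩
  obtain ⟨x, hx, rfl⟩ := (iso_inf hT h).surj hy
  rw [he.af_congr α hx.1, hα.2.2 x hx]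

theorem Eqv.tconj (h : Iso F P P' f) {e : P ≃* P'} (he : Eqv f e) {α : MulAut P}
    (hα : TConj F T P α) : TConj F T P' (MulAut.congr e α) := by
  obtain ⟨φ, hφ, t, ht, h1⟩ := hα
  obtain ⟨g, hg, hgf, hfg⟩ := h.exists_inv
  refine ⟨fun y => φ (g y), (mp_of_iso hg).comp hφ fun y hy => hg.mem hy, t, ht, fun y hy => ?_⟩
  obtain ⟨x, hx, rfl⟩ := he.surj hy
  show φ (g (af (MulAut.congr e α) (f x))) = t * φ (g (f x)) * t⁻¹
  rw [he.af_congr α hx, hgf _ (af_mem α hx), hgf x hx, h1 x hx]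

theorem Eqv.mem_gN [Finite T] (hE : E.IsInvariantIn F) (h : Iso F P P' f) {e : P ≃* P'}
    (he : Eqv f e) {α : MulAut P} (hα : α ∈ gN F E p P) : MulAut.congr e α ∈ gN F E p P' := by
  have key : gN F E p P ≤ (gN F E p P').comap (MulAut.congr e).toMonoidHom := by
    refine (Subgroup.closure_le _).2 ?_
    rintro α ⟨hα, h1⟩
    refine Subgroup.subset_closure ⟨he.mem_gA hE h hα, ?_⟩
    rcases h1 with h1 | h1
    · left
      rwa [show (MulAut.congr e).toMonoidHom α = MulAut.congr e α from rfl,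
        MulEquiv.orderOf_eq (MulAut.congr e)]
    · right
      exact he.tconj h h1
  exact key hα

theorem eqv_symm (h : Iso F P P' f) {e : P ≃* P'} (he : Eqv f e) :
    ∃ g, Iso F P' P g ∧ Eqv g e.symm ∧ (∀ x ∈ P, g (f x) = x) ∧ ∀ y ∈ P', f (g y) = y := by
  obtain ⟨g, hg, hgf, hfg⟩ := h.exists_inv
  refine ⟨g, hg, fun y => ?_, hgf, hfg⟩
  have h1 : (y : Ω) = f (e.symm y : P) := by rw [← he, MulEquiv.apply_symm_apply]
  rw [h1, hgf _ (e.symm y).2]

theorem congr_symm_congr (e : P ≃* P') (α : MulAut P) :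
    MulAut.congr e.symm (MulAut.congr e α) = α := by
  ext x
  simp [MulAut.congr_apply]

theorem congr_congr_symm (e : P ≃* P') (α : MulAut P') :
    MulAut.congr e (MulAut.congr e.symm α) = α := by
  ext x
  simp [MulAut.congr_apply]

theorem congr_self (β α : MulAut P) : MulAut.congr β α = β * α * β⁻¹ := rfl

theorem exists_iso_af (hP : P ≤ S) {β : MulAut P} (hβ : β ∈ F.autGroup P) :
    Iso F P P (af β) ∧ Eqv (af β) β := by
  refine ⟨iso_of_mp (mp_af hP hβ) fun y => ⟨fun hy => ⟨af β⁻¹ y, af_mem _ hy, af_af_inv β hy⟩, ?_⟩,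
    fun x => (af_apply β x.2).symm⟩
  rintro ⟨x, hx, rfl⟩
  exact af_mem β hx

theorem gA_conj_mem [Finite T] (hE : E.IsInvariantIn F) (hP : P ≤ S) {β α : MulAut P}
    (hβ : β ∈ F.autGroup P) (hα : α ∈ gA F E P) : β * α * β⁻¹ ∈ gA F E P := by
  obtain ⟨h1, h2⟩ := exists_iso_af hP hβ
  exact h2.mem_gA hE h1 hα

theorem gX_conj_mem (hT : F.StronglyClosed T) (hP : P ≤ S) {β α : MulAut P}
    (hβ : β ∈ F.autGroup P) (hα : α ∈ gX F T P) : β * α * β⁻¹ ∈ gX F T P := by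
  obtain ⟨h1, h2⟩ := exists_iso_af hP hβ
  exact h2.mem_gX hT h1 hα

theorem gN_conj_mem [Finite T] (hE : E.IsInvariantIn F) (hP : P ≤ S) {β α : MulAut P}
    (hβ : β ∈ F.autGroup P) (hα : α ∈ gN F E p P) : β * α * β⁻¹ ∈ gN F E p P := by
  obtain ⟨h1, h2⟩ := exists_iso_af hP hβ
  exact h2.mem_gN hE h1 hα

/-! ### The group `gX` -/

/-- `gX` is a `p`-group. -/
theorem isPGroup_gX [Finite S] [Fact p.Prime] (hS : IsPGroup p S) (hP : P ≤ S) :
    IsPGroup p (gX F T P) := by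
  have hfP : Finite P := H802.finite_of_le hP
  rintro ⟨β, hβ, hβ1, hβ2⟩
  obtain ⟨k, hk⟩ := H759.exists_pow_eq_one_of_chain (hS.to_le hP) β 2
    (fun i => if i = 0 then ⊤ else if i = 1 then (P ⊓ T).subgroupOf P else ⊥) (by simp) (by simp)
    (by
      intro i hi x hx
      rcases i with _ | _ | _ | i
      · simp
      · have hx' : (x : Ω) ∈ P ⊓ T := by simpa [Subgroup.mem_subgroupOf] using hx
        have h1 := tr_maps hβ1 hx'
        rw [af_apply β x.2] at h1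
        have h2 : ((β x : P) : Ω) ∈ T := h1.2
        simpa [Subgroup.mem_subgroupOf] using h2
      · have hx' : x = 1 := by simpa using hx
        simp [hx']
      · omega)
    (by
      intro i hi x hx
      rcases i with _ | _ | i
      · have h1 : (x : Ω)⁻¹ * ((β x : P) : Ω) ∈ T := hβ1 x
        simpa [Subgroup.mem_subgroupOf] using h1
      · have hx' : (x : Ω) ∈ P ⊓ T := by simpa [Subgroup.mem_subgroupOf] using hx
        have h1 := hβ2 x hx'
        rw [af_apply β x.2] at h1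
        have h2 : β x = x := Subtype.ext h1
        simp [h2]
      · omega)
  exact ⟨k, Subtype.ext hk⟩

/-- Two elements of `gA` agreeing on `P ⊓ T` differ by an element of `gX`. -/
theorem mul_inv_mem_gX {α β : MulAut P} (hα : α ∈ gA F E P) (hβ : β ∈ gA F E P)
    (h : ∀ x ∈ P ⊓ T, af α x = af β x) : α * β⁻¹ ∈ gX F T P := by
  refine ⟨mul_mem hα.1 (inv_mem hβ.1), hα.2.1.mul hβ.2.1.inv, fun x hx => ?_⟩
  rw [af_mul _ _ hx.1, h _ (tr_maps hβ.2.1.inv hx), af_af_inv β hx.1]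

theorem eq_one_of_coprime [Finite S] [Fact p.Prime] (hS : IsPGroup p S) (hP : P ≤ S) {α : MulAut P}
    (hα : α ∈ gX F T P) (hc : Nat.Coprime (orderOf α) p) : α = 1 := by
  obtain ⟨k, hk⟩ := isPGroup_gX (F := F) (T := T) hS hP ⟨α, hα⟩
  have h1 : α ^ p ^ k = 1 := congrArg Subtype.val hk
  have h2 := orderOf_dvd_of_pow_eq_one h1
  rw [← orderOf_eq_one_iff]
  exact Nat.eq_one_of_dvd_coprimes (Nat.Coprime.pow_right k hc) dvd_rfl h2

end Cfsg.Agent.H756
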