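import Cfsg.Agent.H756.LocA
import Cfsg.Agent.H752.Gen
import Cfsg.Agent.H770.MpExt

/-!
# Local groups of a normal subsystem: extension of elements of order prime to `p` (helper756)
-/

set_option autoImplicit false

namespace Cfsg.Agent.H756

open Cfsg Cfsg.FusionSystem Cfsg.Agent.H752
open Cfsg.Agent.H750 (Iso)
open Cfsg.Agent.H757 (Tr Ex Cj)
open Cfsg.Agent.H770 (Im)
open Cfsg.Agent.H802 (SylIn)

variable {Ω : Type*} [Group Ω] {S T P P' N U M : Subgroup Ω} {F : FusionSystem S}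
  {E : FusionSystem T} {p : ℕ} {f : Ω → Ω}

/-- `P` and `P ⊓ T` are fully normalized. -/
def DFN (F : FusionSystem S) (T P : Subgroup Ω) : Prop :=
  F.IsFullyNormalized P ∧ F.IsFullyNormalized (P ⊓ T)

theorem norm_inf_le (hT : F.StronglyClosed T) :
    normalizerIn S P ≤ normalizerIn S (P ⊓ T) := by
  intro g hg
  have hgn := hg.2
  have h1 := H759.StronglyClosed.le_normalizer hT hg.1
  refine ⟨hg.1, ?_⟩
  show g ∈ Subgroup.normalizer ((P ⊓ T : Subgroup Ω) : Set Ω)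
  replace hgn : g ∈ Subgroup.normalizer (P : Set Ω) := hgn
  rw [Subgroup.mem_normalizer_iff] at hgn h1 ⊢
  intro x
  rw [Subgroup.mem_inf, Subgroup.mem_inf, hgn x, h1 x]

theorem exists_dfn [Finite S] [Fact p.Prime] (hS : IsPGroup p S) (hF : F.IsSaturated p)
    (hT : F.StronglyClosed T) (hP : P ≤ S) :
    ∃ (P' : Subgroup Ω) (f : Ω → Ω), Mp F (normalizerIn S P) f ∧ Im f P P' ∧ DFN F T P' := by
  obtain ⟨P₁, hc, hP₁⟩ := H802.exists_isFullyNormalized hS hF hP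
  obtain ⟨f₀, hf₀, hI₀⟩ := H770.exists_mp_of_isConj hc
  obtain ⟨f₁, hf₁, hI₁⟩ := H770.mp_normalizer hS hF hP₁ hf₀ hI₀
  have hPN : P ≤ normalizerIn S P := H802.le_normalizerIn hP
  have hP₁N : P₁ ≤ normalizerIn S P₁ := H802.le_normalizerIn hP₁.1
  have hle := norm_inf_le (P := P₁) hT
  obtain ⟨U, hUc, hU⟩ := H802.exists_isFullyNormalized hS hF
    ((inf_le_left : P₁ ⊓ T ≤ P₁).trans hP₁.1)
  obtain ⟨g₀, hg₀, hJ₀⟩ := H770.exists_mp_of_isConj hUc
  obtain ⟨g, hg, hJ⟩ := H770.mp_normalizer hS hF hU hg₀ hJ₀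
  have hP₁le := hP₁N.trans hle
  obtain ⟨P', hP', hP'S, hP'c⟩ := H770.Mp.exists_im hg hP₁le
  have hmapN : ∀ x ∈ normalizerIn S P₁, g x ∈ normalizerIn S P' := fun x hx =>
    ⟨hg.mem (hle hx), H770.Mp.mem_normalizer hg hP₁le hP' (hle hx) hx.2⟩
  have hfin : Finite (normalizerIn S P') := H802.finite_of_le inf_le_left
  have hcard : Nat.card (normalizerIn S P₁) ≤ Nat.card (normalizerIn S P') := by
    obtain ⟨φ, hφ, hφe⟩ := hg
    exact H802.card_le_of_maps (F.injective_of_mem hφ) hle fun x hx => by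
      rw [hφe]; exact hmapN x hx
  have hconj : F.IsConj P₁ P' := H770.Mp.isConj (hg.res hP₁le) hP'
  have hmap1 : ∀ x ∈ normalizerIn S P, f₁ x ∈ normalizerIn S P₁ := fun x hx =>
    ⟨hf₁.mem hx, H770.Mp.mem_normalizer hf₁ hPN hI₁ hx hx.2⟩
  refine ⟨P', fun x => g (f₁ x), hf₁.comp hg fun x hx => hle (hmap1 x hx), hI₁.comp hP', ?_, ?_⟩
  · refine ⟨hP'S, fun Q hQ => ?_⟩
    exact (hP₁.2 Q (H802.isConj_trans hconj hQ)).trans hcard
  · have h1 : P' ⊓ T = U := by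
      ext y
      constructor
      · rintro ⟨hy, hyT⟩
        obtain ⟨x, hx, rfl⟩ := (hP' y).1 hy
        exact hJ.apply ⟨hx, mp_mem_of_stronglyClosed' hT hg (hP₁le hx) hyT⟩
      · intro hy
        obtain ⟨x, hx, rfl⟩ := (hJ y).1 hy
        exact ⟨hP'.apply hx.1, mp_mem_of_stronglyClosed hT hg (hP₁le hx.1) hx.2⟩
    rw [h1]
    exact hU

/-! ### `ZT` and conjugations -/

/-- The centre of `P ⊓ T`. -/
def ZT (T P : Subgroup Ω) : Subgroup Ω := (P ⊓ T) ⊓ Subgroup.centralizer ((P ⊓ T : Subgroup Ω) : Set Ω)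

theorem mem_ZT_of (hT : T ≤ S) (hP : TC F T (P ⊓ T)) {z : Ω} (hz : z ∈ T)
    (hc : ∀ x ∈ P ⊓ T, x * z = z * x) : z ∈ ZT T P :=
  ⟨hP.self hT hz hc, Subgroup.mem_centralizer_iff.2 hc⟩

theorem af_cj {g : Ω} {α : MulAut P} (h : Cj g α) {x : Ω} (hx : x ∈ P) : af α x = g * x * g⁻¹ := by
  rw [af_apply α hx]; exact h ⟨x, hx⟩

theorem cj_of_af {g : Ω} {α : MulAut P} (h : ∀ x ∈ P, af α x = g * x * g⁻¹) : Cj g α := fun x => by
  rw [← h x x.2, af_apply α x.2]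

theorem ex_iff {α : MulAut P} {β : MulAut N} (hPN : P ≤ N) :
    Ex α β ↔ ∀ x ∈ P, af β x = af α x := by
  constructor
  · intro h x hx
    rw [af_apply β (hPN hx), af_apply α hx]
    exact h x hx (hPN hx)
  · intro h x hx hN
    rw [← af_apply β hN, h x hx, af_apply α hx]

/-- Conjugation by an element of `T` lies in `gN`. -/
theorem cj_mem_gA (hT : F.StronglyClosed T) (hP : P ≤ S) {t : Ω}
    (ht : t ∈ T) {α : MulAut P} (h : Cj t α) : α ∈ gA F E P := by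
  refine ⟨h.mem_autGroup hP (hT.1 ht), fun x => ?_, (mp_conj E inf_le_right ht).congr fun x hx =>
    af_cj h hx.1⟩
  rw [h x]
  have h1 := conj_mem_of_sc hT (inv_mem (hP x.2)) ht
  have h2 : (x : Ω)⁻¹ * (t * x * t⁻¹) = ((x : Ω)⁻¹ * t * (x : Ω)⁻¹⁻¹) * t⁻¹ := by group
  rw [h2]
  exact mul_mem h1 (inv_mem ht)

theorem tconj_of_cj (hP : P ≤ S) {t : Ω} (ht : t ∈ T) {α : MulAut P} (h : Cj t α) :
    TConj F T P α := ⟨fun x => x, mp_id F hP, t, ht, fun _ hx => af_cj h hx⟩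

theorem autInducedBy_le_gN (hT : F.StronglyClosed T) (hP : P ≤ S) :
    autInducedBy T P ≤ gN F E p P := by
  intro α hα
  obtain ⟨t, ht, h⟩ := H757.exists_cj_of_mem hα
  exact mem_gN_of_tconj (cj_mem_gA hT hP ht h) (tconj_of_cj hP ht h)

/-! ### Extension of `p'`-elements -/

/-- Automorphisms of order prime to `p` of `M` between `U` and `N_T(U)` restricting to `E` on the centric receptive
subgroup `U` lie in `E`. -/
theorem mem_of_coprime_ext [Finite S] [Fact p.Prime] (hS : IsPGroup p S)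
    (hE : E.IsInvariantIn F) (hU : TC F T U) (hUr : E.IsReceptive U) (hUM : U ≤ M)
    (hM : M ≤ normalizerIn T U) {η : MulAut M} (hη : η ∈ F.autGroup M)
    (hηc : Nat.Coprime (orderOf η) p) (hηU : ∀ x ∈ U, af η x ∈ U) (hηE : Mp E U (af η)) :
    η ∈ E.autGroup M := by
  have hT : F.StronglyClosed T := hE.2.1
  have hMT : M ≤ T := hM.trans inf_le_left
  have hMS : M ≤ S := hMT.trans hT.1
  have hTf : Finite T := H802.finite_of_le hT.1
  have hMf : Finite M := H802.finite_of_le hMS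
  have hUf : Finite U := H802.finite_of_le (hUM.trans hMS)
  have hMA : Finite (MulAut M) := H750.finite_mulAut
  obtain ⟨κ, hκ, hκe⟩ := hηE.exists_aut hηU
  have hex : Ex κ η := (ex_iff hUM).2 fun x hx => by rw [hκe x hx, af_apply κ hx]
  have hκc : Nat.Coprime (orderOf κ) p :=
    Nat.Coprime.coprime_dvd_left (H757.Ex.orderOf_dvd hUM hex) hηc
  obtain ⟨β, hβ, hβx⟩ := H757.exists_ext_aut hUr hUM (fun x hx => hUM (hU.self hT.1 hx.1
      fun y hy => Subgroup.mem_centralizer_iff.1 hx.2 y hy)) hM hκ (by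
    intro v hv
    obtain ⟨m, hm, hc⟩ := H757.exists_cj_of_mem hv
    exact (H757.Cj.conj_of_ex hUM hex (n := ⟨m, hm⟩) hc).mem (η _).2)
  obtain ⟨j, hj, hjc⟩ := H752.Restr.exists_coprime (hPQ := hUM) (α := κ) (β := β)
    (fun x hx => hβx x hx (hUM hx)) hκc
  -- the automorphisms trivial on `U`
  let B : Subgroup (MulAut M) :=
    { carrier := {b | b ∈ F.autGroup M ∧ ∀ x ∈ U, af b x = x}
      one_mem' := ⟨one_mem _, fun x hx => af_one (hUM hx)⟩
      mul_mem' := by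
        rintro a b ⟨ha, ha1⟩ ⟨hb, hb1⟩
        refine ⟨mul_mem ha hb, fun x hx => ?_⟩
        rw [af_mul _ _ (hUM hx), hb1 x hx, ha1 x hx]
      inv_mem' := by
        rintro a ⟨ha, ha1⟩
        refine ⟨inv_mem ha, fun x hx => ?_⟩
        have := af_inv_af a (hUM hx)
        rwa [ha1 x hx] at this }
  have hBp : IsPGroup p B := by
    rintro ⟨b, hb, hb1⟩
    obtain ⟨k, hk⟩ := pow_eq_one_of_fix hS hT hU hUM hMT (hM.trans inf_le_right) hb
      fun x hx => by rw [← af_apply b (hUM hx)]; exact hb1 x hx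
    exact ⟨k, Subtype.ext hk⟩
  have hE1 : E.autGroup M ≤ F.autGroup M := H757.autGroup_le_of_isSubsystemOf hE.1 hMT hMS
  have hβj : β ^ j ∈ E.autGroup M := zpow_mem hβ j
  have hjU : ∀ x ∈ U, af (β ^ j) x = af η x := fun x hx => by
    rw [af_apply (β ^ j) (hUM hx), hj x hx, hκe x hx]
  have hjm : ∀ x ∈ U, af (β ^ j) x ∈ U := fun x hx => by rw [hjU x hx]; exact hηU x hx
  have hjinv : ∀ x ∈ U, af (β ^ j)⁻¹ x ∈ U := by
    intro x hx
    have hm : Mp F U (af (β ^ j)) := (mp_af hMS (hE1 hβj)).res hUM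
    obtain ⟨y, hy, rfl⟩ := hm.surj hjm hx
    rwa [af_inv_af _ (hUM hy)]
  obtain ⟨b, hb, hηb⟩ := H757.exists_conj_of_coset hBp (κ := β ^ j) (κ₁ := η) (by
      rintro v ⟨hv, hv1⟩
      refine ⟨mul_mem (mul_mem (hE1 hβj) hv) (inv_mem (hE1 hβj)), fun x hx => ?_⟩
      rw [af_mul _ _ (hUM hx), af_mul _ _ (hUM (hjinv x hx)), hv1 _ (hjinv x hx),
        af_af_inv _ (hUM hx)]) hjc hηc (by
      refine ⟨mul_mem hη (inv_mem (hE1 hβj)), fun x hx => ?_⟩
      rw [af_mul _ _ (hUM hx), ← hjU _ (hjinv x hx), af_af_inv _ (hUM hx)])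
  rw [hηb]
  exact H757.autGroup_conj_mem hE hMT hb.1 hβj

/-- **Extension of `p'`-elements of `gA`** to `N C_S(P ⊓ T)`. -/
theorem exists_ext0 [Finite S] [Fact p.Prime] (hS : IsPGroup p S) (hE : E.IsNormalIn F p)
    (hD : DFN F T P) (hTC : TC F T (P ⊓ T)) (hPN : P ≤ N) (hN : N ≤ normalizerIn S P)
    {h : MulAut P} (hh : h ∈ gA F E P) (hc : Nat.Coprime (orderOf h) p)
    (hcond : ∀ y ∈ N, ∃ y' ∈ N, ∀ x ∈ P, af h (y * x * y⁻¹) = y' * af h x * y'⁻¹) :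
    ∃ β ∈ F.autGroup (N ⊔ centralizerIn S (P ⊓ T)), Nat.Coprime (orderOf β) p ∧ Ex h β ∧
      Tr T β := by
  have hF : F.IsSaturated p := hE.1.2.1
  have hInv : E.IsInvariantIn F := hE.1.2.2
  have hT : F.StronglyClosed T := hInv.2.1
  have hTS : T ≤ S := hT.1
  have hPS : P ≤ S := hD.1.1
  have hTf : Finite T := H802.finite_of_le hTS
  have hPf : Finite P := H802.finite_of_le hPS
  have hPA : Finite (MulAut P) := H750.finite_mulAut
  set U := P ⊓ T with hUdef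
  set C := centralizerIn S U with hCdef
  set M := N ⊔ C with hMdef
  have hUP : U ≤ P := inf_le_left
  have hUT : U ≤ T := inf_le_right
  have hUf : Finite U := H802.finite_of_le (hUP.trans hPS)
  have hNM : N ≤ M := le_sup_left
  have hCM : C ≤ M := le_sup_right
  have hPM : P ≤ M := hPN.trans hNM
  have hUM : U ≤ M := hUP.trans hPM
  have hNU : N ≤ normalizerIn S U := hN.trans (norm_inf_le hT)
  have hMU : M ≤ normalizerIn S U := sup_le hNU (H802.centralizerIn_le_normalizerIn S U)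
  have hMS : M ≤ S := hMU.trans inf_le_left
  have hMf : Finite M := H802.finite_of_le hMS
  have hCN : N ≤ Subgroup.normalizer (C : Set Ω) := by
    intro y hy
    refine H802.mem_normalizer_of_conj_mem (inf_le_left : C ≤ S) fun c hc => ?_
    have hyS : y ∈ S := (hNU hy).1
    refine ⟨S.mul_mem (S.mul_mem hyS hc.1) (S.inv_mem hyS), Subgroup.mem_centralizer_iff.2 fun u hu => ?_⟩
    have h1 : y⁻¹ * u * y ∈ U := by
      have := (Subgroup.mem_normalizer_iff.1 (inv_mem (hNU hy).2) u).1 hu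
      simpa using this
    have h2 := Subgroup.mem_centralizer_iff.1 hc.2 _ h1
    calc u * (y * c * y⁻¹) = y * (y⁻¹ * u * y * c) * y⁻¹ := by group
      _ = y * (c * (y⁻¹ * u * y)) * y⁻¹ := by rw [h2]
      _ = y * c * y⁻¹ * u := by group
  -- the restriction to `U`
  obtain ⟨κ, hκ, hκe⟩ := hh.2.2.exists_aut fun x hx => tr_maps hh.2.1 hx
  have hκh : Ex κ h := (ex_iff hUP).2 fun x hx => by rw [hκe x hx, af_apply κ hx]
  have hκf : ∀ x ∈ U, af κ x = af h x := fun x hx => by rw [hκe x hx, af_apply κ hx]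
  have hκc : Nat.Coprime (orderOf κ) p :=
    Nat.Coprime.coprime_dvd_left (H757.Ex.orderOf_dvd hUP hκh) hc
  obtain ⟨β₀, hβ₀, hβ₀c, hβ₀x, hβ₀t⟩ := H757.exists_extension_aut hS hE hUT hD.2 hκ hκc hUM hCM hMU (by
    intro v hv
    obtain ⟨m, hm, hcj⟩ := H757.exists_cj_of_mem hv
    have hm' : m ∈ C ⊔ N := by rwa [sup_comm]
    obtain ⟨c, hc', y, hy, rfl⟩ := (H757.mem_sup_of_normalizes hCN).1 hm'
    obtain ⟨y', hy', h1⟩ := hcond y hy
    refine (cj_of_af (g := y') fun x hx => ?_ : Cj y' (κ * v * κ⁻¹)).mem (hNM hy')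
    have hx1 : af κ⁻¹ x ∈ U := af_mem _ hx
    have hx2 : y * af κ⁻¹ x * y⁻¹ ∈ U := (Subgroup.mem_normalizer_iff.1 (hNU hy).2 _).1 hx1
    rw [af_mul _ _ hx, af_mul _ _ hx1, af_cj hcj hx1]
    have h2 : c * y * af κ⁻¹ x * (c * y)⁻¹ = y * af κ⁻¹ x * y⁻¹ := by
      have h3 := Subgroup.mem_centralizer_iff.1 hc'.2 _ hx2
      calc c * y * af κ⁻¹ x * (c * y)⁻¹ = c * (y * af κ⁻¹ x * y⁻¹) * c⁻¹ := by group
        _ = y * af κ⁻¹ x * y⁻¹ := by rw [← h3]; group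
    rw [h2, hκf _ hx2, h1 _ (hUP hx1), ← hκf _ hx1, af_af_inv _ hx])
  have hβ₀f : ∀ x ∈ U, af β₀ x = af κ x := (ex_iff hUM).1 hβ₀x
  have hβ₀m := mp_af hMS hβ₀
  have hhm := mp_af hPS hh.1
  -- `β₀` preserves `P`
  have hdiff : ∀ x ∈ P, (af β₀ x)⁻¹ * af h x ∈ U := by
    intro x hx
    refine hTC.self hTS ?_ fun u hu => ?_
    · exact ((tr_iff.1 hβ₀t x (hPM hx)).symm.trans (tr_iff.1 hh.2.1 x hx) : Cg T _ _)
    · have hw : af κ⁻¹ u ∈ U := af_mem _ hu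
      have hxw : x * af κ⁻¹ u * x⁻¹ ∈ U :=
        (Subgroup.mem_normalizer_iff.1 (hNU (hPN hx)).2 _).1 hw
      have h1 : af β₀ (x * af κ⁻¹ u * x⁻¹) = af h (x * af κ⁻¹ u * x⁻¹) := by
        rw [hβ₀f _ hxw, hκf _ hxw]
      rw [hβ₀m.mul (mul_mem (hPM hx) (hUM hw)) (inv_mem (hPM hx)), hβ₀m.mul (hPM hx) (hUM hw),
        hβ₀m.inv (hPM hx), hhm.mul (mul_mem hx (hUP hw)) (inv_mem hx), hhm.mul hx (hUP hw),
        hhm.inv hx, hβ₀f _ hw, ← hκf _ hw, af_af_inv _ hu] at h1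
      -- `β₀ x * u * (β₀ x)⁻¹ = h x * u * (h x)⁻¹`
      calc u * ((af β₀ x)⁻¹ * af h x)
          = (af β₀ x)⁻¹ * (af β₀ x * u * (af β₀ x)⁻¹) * af h x := by group
        _ = (af β₀ x)⁻¹ * (af h x * u * (af h x)⁻¹) * af h x := by rw [h1]
        _ = (af β₀ x)⁻¹ * af h x * u := by group
  obtain ⟨α₁, hα₁, hα₁x⟩ := H757.exists_restrict hPM hMS hβ₀ fun x hx hM => by
    rw [← af_apply β₀ hM]
    have h1 : af β₀ x = af h x * ((af β₀ x)⁻¹ * af h x)⁻¹ := by group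
    rw [h1]
    exact mul_mem (af_mem h hx) (inv_mem (hUP (hdiff x hx)))
  have hα₁f : ∀ x ∈ P, af β₀ x = af α₁ x := (ex_iff hPM).1 hα₁x
  have hα₁t : Tr T α₁ := tr_iff.2 fun x hx => by
    rw [← hα₁f x hx]; exact tr_iff.1 hβ₀t x (hPM hx)
  have hα₁U : ∀ x ∈ U, af α₁ x = af h x := fun x hx => by
    rw [← hα₁f x (hUP hx), hβ₀f x hx, hκf x hx]
  have hα₁A : α₁ ∈ gA F E P := ⟨hα₁, hα₁t, hh.2.2.congr hα₁U⟩
  have hα₁c : Nat.Coprime (orderOf α₁) p :=
    Nat.Coprime.coprime_dvd_left (H757.Ex.orderOf_dvd hPM hα₁x) hβ₀c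
  obtain ⟨v, hv, hv1⟩ := H757.exists_conj_of_coset (isPGroup_gX (F := F) (T := T) hS hPS)
    (fun v hv => gX_conj_mem hT hPS hh.1 hv) hc hα₁c (mul_inv_mem_gX hα₁A hh hα₁U)
  have hvS : v ∈ autInducedBy S P :=
    H759.le_autInducedBy_of_normal (H802.isFullyAutomized_of_isFullyNormalized hS hF hD.1)
      (gX F T P) (fun _ h => h.1) (fun a ha k hk => gX_conj_mem hT hPS ha hk)
      (isPGroup_gX hS hPS) hv
  obtain ⟨s, hs, hsv⟩ := H757.exists_cj_of_mem hvS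
  have hsC : s ∈ C := by
    refine ⟨hs, Subgroup.mem_centralizer_iff.2 fun u hu => ?_⟩
    have h1 := hv.2.2 u hu
    rw [af_cj hsv (hUP hu)] at h1
    calc u * s = s * u * s⁻¹ * s := by rw [h1]
      _ = s * u := by group
  obtain ⟨βs, hβs⟩ := H757.exists_cj (Subgroup.le_normalizer (hCM hsC) :
    s ∈ Subgroup.normalizer (M : Set Ω))
  have hβsF : βs ∈ F.autGroup M := hβs.mem_autGroup hMS hs
  refine ⟨βs⁻¹ * β₀ * βs, mul_mem (mul_mem (inv_mem hβsF) hβ₀) hβsF, ?_, ?_, ?_⟩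
  · have h1 : βs⁻¹ * β₀ * βs = MulAut.conj βs⁻¹ β₀ := by simp
    rw [h1, MulEquiv.orderOf_eq]
    exact hβ₀c
  · have h1 : h = v⁻¹ * α₁ * v := by rw [hv1]; group
    rw [h1]
    have h2 : Ex v βs := hsv.ex hβs
    exact ((h2.inv hPM).mul hPM hα₁x).mul hPM h2
  · have h1 := H757.Tr.conj hT hMS (β := βs⁻¹) (inv_mem hβsF) hβ₀t
    simpa using h1

end Cfsg.Agent.H756
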