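import Cfsg.Agent.H756.LocB

/-!
# Local groups of a normal subsystem: commutators and Sylow subgroups (helper756)
-/

set_option autoImplicit false

namespace Cfsg.Agent.H756

open Cfsg Cfsg.FusionSystem Cfsg.Agent.H752
open Cfsg.Agent.H750 (Iso)
open Cfsg.Agent.H757 (Tr Ex Cj)
open Cfsg.Agent.H770 (Im)
open Cfsg.Agent.H802 (SylIn)

variable {Ω : Type*} [Group Ω] {S T P P' N U M : Subgroup Ω} {F : FusionSystem S}
  {E : FusionSystem T} {p : ℕ} {f : Ω → Ω}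

/-- Extension of `p'`-elements of `gA P` to `p'`-elements of `gA N`. -/
theorem exists_ext_gA [Finite S] [Fact p.Prime] (hS : IsPGroup p S) (hE : E.IsNormalIn F p)
    (hD : DFN F T P) (hTC : TC F T (P ⊓ T)) (hPN : P ≤ N) (hN : N ≤ normalizerIn S P)
    {h : MulAut P} (hh : h ∈ gA F E P) (hc : Nat.Coprime (orderOf h) p)
    (hcond : ∀ y ∈ N, ∃ y' ∈ N, Cg T y y' ∧
      ∀ x ∈ P, af h (y * x * y⁻¹) = y' * af h x * y'⁻¹) :
    ∃ k ∈ gA F E N, Nat.Coprime (orderOf k) p ∧ Ex h k := by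
  have hF : F.IsSaturated p := hE.1.2.1
  have hInv : E.IsInvariantIn F := hE.1.2.2
  have hT : F.StronglyClosed T := hInv.2.1
  have hTS : T ≤ S := hT.1
  have hPS : P ≤ S := hD.1.1
  have hNS : N ≤ S := hN.trans inf_le_left
  have hNf : Finite N := H802.finite_of_le hNS
  set C := centralizerIn S (P ⊓ T) with hCdef
  set M := N ⊔ C with hMdef
  obtain ⟨β, hβ, hβc, hβx, hβt⟩ : ∃ β ∈ F.autGroup M, Nat.Coprime (orderOf β) p ∧ Ex h β ∧
      Tr T β := exists_ext0 hS hE hD hTC hPN hN hh hc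
    (fun y hy => by
      obtain ⟨y', hy', -, h1⟩ := hcond y hy
      exact ⟨y', hy', h1⟩)
  have hNM : N ≤ M := le_sup_left
  have hMS : M ≤ S := sup_le hNS inf_le_left
  have hPM : P ≤ M := hPN.trans hNM
  have hβm := mp_af hMS hβ
  have hβf : ∀ x ∈ P, af β x = af h x := (ex_iff hPM).1 hβx
  obtain ⟨k, hk, hkx⟩ := H757.exists_restrict hNM hMS hβ fun y hy hM => by
    rw [← af_apply β hM]
    obtain ⟨y', hy', hcg, h1⟩ := hcond y hy
    have h2 : y'⁻¹ * af β y ∈ P ⊓ T := by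
      refine hTC.self hTS ?_ fun u hu => ?_
      · exact (hcg.symm.trans (tr_iff.1 hβt y (hNM hy)) : Cg T _ _)
      · obtain ⟨w, hw, hwu⟩ : ∃ w ∈ P, af h w = u := ⟨af h⁻¹ u, af_mem _ hu.1, af_af_inv _ hu.1⟩
        have hyw : y * w * y⁻¹ ∈ P := (Subgroup.mem_normalizer_iff.1 (hN hy).2 _).1 hw
        have h3 := h1 w hw
        rw [← hβf _ hyw, hβm.mul (mul_mem (hNM hy) (hPM hw)) (inv_mem (hNM hy)),
          hβm.mul (hNM hy) (hPM hw), hβm.inv (hNM hy), hβf _ hw, hwu] at h3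
        calc u * (y'⁻¹ * af β y) = y'⁻¹ * (y' * u * y'⁻¹) * af β y := by group
          _ = y'⁻¹ * (af β y * u * (af β y)⁻¹) * af β y := by rw [h3]
          _ = y'⁻¹ * af β y * u := by group
    have h3 : af β y = y' * (y'⁻¹ * af β y) := by group
    rw [h3]
    exact mul_mem hy' (hPN h2.1)
  have hkf : ∀ x ∈ N, af β x = af k x := (ex_iff hNM).1 hkx
  have hkc : Nat.Coprime (orderOf k) p :=
    Nat.Coprime.coprime_dvd_left (H757.Ex.orderOf_dvd hNM hkx) hβc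
  have hkt : Tr T k := tr_iff.2 fun x hx => by
    rw [← hkf x hx]; exact tr_iff.1 hβt x (hNM hx)
  have hkh : ∀ x ∈ P, af k x = af h x := fun x hx => by rw [← hkf x (hPN hx), hβf x hx]
  refine ⟨k, ⟨hk, hkt, ?_⟩, hkc, (ex_iff hPN).2 hkh⟩
  -- the restriction to `N ⊓ T`
  have hN₀f : Finite (N ⊓ T : Subgroup Ω) := H802.finite_of_le (inf_le_left.trans hNS)
  obtain ⟨η, hη, hηx⟩ := H757.exists_restrict (inf_le_left : N ⊓ T ≤ N) hNS hk fun x hx hN' => by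
    rw [← af_apply k hN']
    exact tr_maps hkt hx
  have hηf : ∀ x ∈ N ⊓ T, af k x = af η x := (ex_iff inf_le_left).1 hηx
  have hηE : η ∈ E.autGroup (N ⊓ T) := by
    refine mem_of_coprime_ext hS hInv hTC
      (H757.sylow_facts hS hE.1 inf_le_right hD.2).2.2.2 (inf_le_inf_right T hPN) ?_ hη
      (Nat.Coprime.coprime_dvd_left (H757.Ex.orderOf_dvd inf_le_left hηx) hkc) ?_ ?_
    · exact fun x hx => ⟨hx.2, (norm_inf_le hT (hN hx.1)).2⟩
    · intro x hx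
      rw [← hηf x ⟨hPN hx.1, hx.2⟩, hkh x hx.1]
      exact tr_maps hh.2.1 hx
    · refine hh.2.2.congr fun x hx => ?_
      rw [← hηf x ⟨hPN hx.1, hx.2⟩, hkh x hx.1]
  exact (mp_af inf_le_right hηE).congr hηf

/-! ### Commutators -/

/-- The automorphism `α` of `P` commutes with `gX` modulo conjugations by `Z(P ⊓ T)`. -/
def Cst (F : FusionSystem S) (T P : Subgroup Ω) (α : MulAut P) : Prop :=
  ∀ v ∈ gX F T P, α * v * α⁻¹ * v⁻¹ ∈ autInducedBy (ZT T P) P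

theorem af_mem_ZT (hT : F.StronglyClosed T) (h : Iso F P P' f) {z : Ω} (hz : z ∈ ZT T P) :
    f z ∈ ZT T P' := by
  refine ⟨(iso_inf hT h).mem hz.1, Subgroup.mem_centralizer_iff.2 fun u hu => ?_⟩
  obtain ⟨x, hx, rfl⟩ := (iso_inf hT h).surj hu
  have h1 := Subgroup.mem_centralizer_iff.1 hz.2 x hx
  rw [← h.map_mul hx.1 hz.1.1, ← h.map_mul hz.1.1 hx.1, h1]

theorem Eqv.mem_indZT (hT : F.StronglyClosed T) (h : Iso F P P' f) {e : P ≃* P'} (he : Eqv f e)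
    {α : MulAut P} (hα : α ∈ autInducedBy (ZT T P) P) :
    MulAut.congr e α ∈ autInducedBy (ZT T P') P' := by
  obtain ⟨z, hz, hc⟩ := H757.exists_cj_of_mem hα
  refine (cj_of_af (g := f z) fun y hy => ?_ : Cj (f z) _).mem (af_mem_ZT hT h hz)
  obtain ⟨x, hx, rfl⟩ := he.surj hy
  rw [he.af_congr α hx, af_cj hc hx, h.map_conj hz.1.1 hx]

theorem indZT_conj_mem (hT : F.StronglyClosed T) (hP : P ≤ S) {β α : MulAut P}
    (hβ : β ∈ F.autGroup P) (hα : α ∈ autInducedBy (ZT T P) P) :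
    β * α * β⁻¹ ∈ autInducedBy (ZT T P) P := by
  obtain ⟨h1, h2⟩ := exists_iso_af hP hβ
  exact h2.mem_indZT hT h1 hα

theorem Cst.mul (hT : F.StronglyClosed T) (hP : P ≤ S) {α β : MulAut P} (hα' : α ∈ F.autGroup P)
    (hα : Cst F T P α) (hβ : Cst F T P β) : Cst F T P (α * β) := by
  intro v hv
  have h1 := indZT_conj_mem hT hP hα' (hβ v hv)
  have h2 := hα v hv
  have h3 : α * β * v * (α * β)⁻¹ * v⁻¹ =
      (α * (β * v * β⁻¹ * v⁻¹) * α⁻¹) * (α * v * α⁻¹ * v⁻¹) := by group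
  rw [h3]
  exact mul_mem h1 h2

theorem Cst.conj (hT : F.StronglyClosed T) (hP : P ≤ S) {α β : MulAut P} (hα' : α ∈ F.autGroup P)
    (hβ : Cst F T P β) : Cst F T P (α * β * α⁻¹) := by
  intro v hv
  have h1 := gX_conj_mem hT hP (inv_mem hα') hv
  have h2 := indZT_conj_mem hT hP hα' (hβ _ h1)
  have h3 : α * β * α⁻¹ * v * (α * β * α⁻¹)⁻¹ * v⁻¹ =
      α * (β * (α⁻¹ * v * α⁻¹⁻¹) * β⁻¹ * (α⁻¹ * v * α⁻¹⁻¹)⁻¹) * α⁻¹ := by group
  rw [h3]
  exact h2

/-- The displacement of an element of `gX` lies in `Z(P ⊓ T)`. -/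
theorem gX_displ (hT : F.StronglyClosed T) (hP : P ≤ S) (hTC : TC F T (P ⊓ T)) {v : MulAut P}
    (hv : v ∈ gX F T P) {x : Ω} (hx : x ∈ P) : x⁻¹ * af v x ∈ ZT T P := by
  refine mem_ZT_of hT.1 hTC (tr_iff.1 hv.2.1 x hx) fun u hu => ?_
  have hm := mp_af hP hv.1
  have hn := (H759.StronglyClosed.le_normalizer hT (hP hx))
  have hxu : x * u * x⁻¹ ∈ P ⊓ T :=
    ⟨P.mul_mem (P.mul_mem hx hu.1) (P.inv_mem hx), (Subgroup.mem_normalizer_iff.1 hn u).1 hu.2⟩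
  have h1 := hv.2.2 _ hxu
  rw [hm.mul (mul_mem hx hu.1) (inv_mem hx), hm.mul hx hu.1, hm.inv hx, hv.2.2 u hu] at h1
  calc u * (x⁻¹ * af v x) = x⁻¹ * (x * u * x⁻¹) * af v x := by group
    _ = x⁻¹ * (af v x * u * (af v x)⁻¹) * af v x := by rw [h1]
    _ = x⁻¹ * af v x * u := by group

theorem gX_comm (hT : F.StronglyClosed T) (hP : P ≤ S) (hTC : TC F T (P ⊓ T)) {v w : MulAut P}
    (hv : v ∈ gX F T P) (hw : w ∈ gX F T P) : v * w = w * v := by
  refine af_ext fun x hx => ?_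
  have h1 := gX_displ hT hP hTC hv hx
  have h2 := gX_displ hT hP hTC hw hx
  have key : ∀ a b : MulAut P, a ∈ gX F T P → b ∈ gX F T P →
      af (a * b) x = x * (x⁻¹ * af a x) * (x⁻¹ * af b x) := by
    intro a b ha hb
    have h3 := gX_displ hT hP hTC hb hx
    have h4 : af b x = x * (x⁻¹ * af b x) := by group
    rw [af_mul _ _ hx]
    conv_lhs => rw [h4]
    rw [(mp_af hP ha.1).mul hx h3.1.1, ha.2.2 _ h3.1]
    group
  rw [key v w hv hw, key w v hw hv, mul_assoc x, mul_assoc x]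
  exact congrArg (x * ·) (Subgroup.mem_centralizer_iff.1 h2.2 _ h1.1)

/-- Commutators of `p'`-elements. -/
theorem cst_of_coprime [Finite S] [Fact p.Prime] (hS : IsPGroup p S) (hE : E.IsNormalIn F p)
    (hD : DFN F T P) (hTC : TC F T (P ⊓ T)) {a : MulAut P} (ha : a ∈ gA F E P)
    (hc : Nat.Coprime (orderOf a) p) : Cst F T P a := by
  intro v hv
  have hF : F.IsSaturated p := hE.1.2.1
  have hInv : E.IsInvariantIn F := hE.1.2.2
  have hT : F.StronglyClosed T := hInv.2.1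
  have hTS : T ≤ S := hT.1
  have hPS : P ≤ S := hD.1.1
  have hPf : Finite P := H802.finite_of_le hPS
  have ham := mp_af hPS ha.1
  set C := centralizerIn S (P ⊓ T) with hCdef
  obtain ⟨β, hβ, hβc, hβx, hβt⟩ : ∃ β ∈ F.autGroup (P ⊔ C), Nat.Coprime (orderOf β) p ∧ Ex a β ∧
      Tr T β := exists_ext0 hS hE hD hTC le_rfl
    (H802.le_normalizerIn hPS) ha hc (fun y hy => ⟨af a y, af_mem _ hy, fun x hx => by
      rw [ham.mul (mul_mem hy hx) (inv_mem hy), ham.mul hy hx, ham.inv hy]⟩)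
  have hPM : P ≤ P ⊔ C := le_sup_left
  have hCM : C ≤ P ⊔ C := le_sup_right
  have hMS : P ⊔ C ≤ S := sup_le hPS inf_le_left
  have hβm := mp_af hMS hβ
  have hβf : ∀ x ∈ P, af β x = af a x := (ex_iff hPM).1 hβx
  have hvS : v ∈ autInducedBy S P :=
    H759.le_autInducedBy_of_normal (H802.isFullyAutomized_of_isFullyNormalized hS hF hD.1)
      (gX F T P) (fun _ h => h.1) (fun a ha k hk => gX_conj_mem hT hPS ha hk)
      (isPGroup_gX hS hPS) hv
  obtain ⟨s, hs, hsv⟩ := H757.exists_cj_of_mem hvS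
  have hsU : ∀ u ∈ P ⊓ T, u * s = s * u := fun u hu => by
    have h1 := hv.2.2 u hu
    rw [af_cj hsv hu.1] at h1
    calc u * s = s * u * s⁻¹ * s := by rw [h1]
      _ = s * u := by group
  have hsC : s ∈ C := ⟨hs, Subgroup.mem_centralizer_iff.2 hsU⟩
  have hsM := hCM hsC
  have h1 := H757.Cj.conj_of_ex hPM hβx (n := ⟨s, hsM⟩) hsv
  rw [← af_apply β hsM] at h1
  have h2 : Cj (af β s * s⁻¹) (a * v * a⁻¹ * v⁻¹) := h1.mul hsv.inv
  refine h2.mem (mem_ZT_of hTS hTC ?_ fun u hu => ?_)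
  · have h3 := conj_mem_of_sc hT hs (tr_iff.1 hβt s hsM)
    have h4 : s * (s⁻¹ * af β s) * s⁻¹ = af β s * s⁻¹ := by group
    rwa [h4] at h3
  · -- both `β s` and `s` centralize `P ⊓ T`
    have h5 : u * af β s = af β s * u := by
      obtain ⟨w, hw, hwu⟩ : ∃ w ∈ P ⊓ T, af a w = u :=
        ⟨af a⁻¹ u, tr_maps ha.2.1.inv hu, af_af_inv _ hu.1⟩
      rw [← hwu, ← hβf w hw.1, ← hβm.mul (hPM hw.1) hsM, ← hβm.mul hsM (hPM hw.1), hsU w hw]
    have h6 : u * s⁻¹ = s⁻¹ * u := by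
      calc u * s⁻¹ = s⁻¹ * (s * u) * s⁻¹ := by group
        _ = s⁻¹ * (u * s) * s⁻¹ := by rw [hsU u hu]
        _ = s⁻¹ * u := by group
    rw [← mul_assoc, h5, mul_assoc, h6, mul_assoc]

end Cfsg.Agent.H756
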