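import Cfsg.Agent.H756.LocC

/-!
# Local groups of a normal subsystem: Sylow subgroups (helper756)
-/

set_option autoImplicit false

namespace Cfsg.Agent.H756

open Cfsg Cfsg.FusionSystem Cfsg.Agent.H752
open Cfsg.Agent.H750 (Iso)
open Cfsg.Agent.H757 (Tr Ex Cj)
open Cfsg.Agent.H770 (Im)
open Cfsg.Agent.H802 (SylIn)

variable {Ω : Type*} [Group Ω] {S T P P' N U M : Subgroup Ω} {F : FusionSystem S}
  {E : FusionSystem T} {p : ℕ} {f : Ω → Ω}

theorem gX_le_autS [Finite S] [Fact p.Prime] (hS : IsPGroup p S) (hF : F.IsSaturated p)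
    (hT : F.StronglyClosed T) (hP : F.IsFullyNormalized P) : gX F T P ≤ autInducedBy S P :=
  have _ : Finite P := H802.finite_of_le hP.1
  H759.le_autInducedBy_of_normal (H802.isFullyAutomized_of_isFullyNormalized hS hF hP)
      (gX F T P) (fun _ h => h.1) (fun _ ha _ hk => gX_conj_mem hT hP.1 ha hk)
      (isPGroup_gX hS hP.1)

theorem autInducedBy_mono {K L : Subgroup Ω} (h : K ≤ L) : autInducedBy K P ≤ autInducedBy L P := by
  intro α hα
  obtain ⟨g, hg, hc⟩ := H757.exists_cj_of_mem hα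
  exact hc.mem (h hg)

/-- Elements of `Aut_S(P) ⊓ gA P`. -/
theorem exists_mul_of_mem [Finite S] [Fact p.Prime] (hS : IsPGroup p S) (hE : E.IsNormalIn F p)
    (hD : DFN F T P) (hTC : TC F T (P ⊓ T)) {v : MulAut P} (hvS : v ∈ autInducedBy S P)
    (hv : v ∈ gA F E P) : ∃ u ∈ autInducedBy T P, ∃ x ∈ gX F T P, u * x = v := by
  have hF : F.IsSaturated p := hE.1.2.1
  have hInv : E.IsInvariantIn F := hE.1.2.2
  have hT : F.StronglyClosed T := hInv.2.1
  have hTS : T ≤ S := hT.1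
  have hPS : P ≤ S := hD.1.1
  have hUf : Finite (P ⊓ T : Subgroup Ω) := H802.finite_of_le (inf_le_left.trans hPS)
  have hPf : Finite P := H802.finite_of_le hPS
  obtain ⟨s, hs, hsv⟩ := H757.exists_cj_of_mem hvS
  obtain ⟨κ, hκ, hκe⟩ := hv.2.2.exists_aut fun x hx => tr_maps hv.2.1 hx
  have hκs : Cj s κ := cj_of_af fun x hx => by
    rw [af_apply κ hx, ← hκe x hx, af_cj hsv hx.1]
  have h1 : κ ∈ autInducedBy S (P ⊓ T) ⊓ E.autGroup (P ⊓ T) := ⟨hκs.mem hs, hκ⟩
  rw [(H757.sylow_facts hS hE.1 inf_le_right hD.2).2.2.1] at h1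
  obtain ⟨t, ht, hκt⟩ := H757.exists_cj_of_mem h1
  have hst : ∀ u ∈ P ⊓ T, s * u * s⁻¹ = t * u * t⁻¹ := fun u hu => by
    rw [← af_cj hκs hu, af_cj hκt hu]
  have htn := hκt.mem_normalizer
  have hsP := hsv.mem_normalizer
  have hmem : ∀ x ∈ P, t * x * t⁻¹ ∈ P := by
    intro x hx
    have hxs : s * x * s⁻¹ ∈ P := (Subgroup.mem_normalizer_iff.1 hsP x).1 hx
    have hq : (s * x * s⁻¹)⁻¹ * (t * x * t⁻¹) ∈ P ⊓ T := by
      refine hTC.self hTS ?_ fun u hu => ?_
      · have h2 : Cg T x (s * x * s⁻¹) := by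
          rw [← af_cj hsv hx]; exact tr_iff.1 hv.2.1 x hx
        have h3 : Cg T x (t * x * t⁻¹) := by
          show x⁻¹ * (t * x * t⁻¹) ∈ T
          have h4 := conj_mem_of_sc hT (inv_mem (hPS hx)) ht
          have h5 : x⁻¹ * (t * x * t⁻¹) = (x⁻¹ * t * x⁻¹⁻¹) * t⁻¹ := by group
          rw [h5]
          exact mul_mem h4 (inv_mem ht)
        exact h2.symm.trans h3
      · have hxn : x ∈ Subgroup.normalizer ((P ⊓ T : Subgroup Ω) : Set Ω) :=
          (norm_inf_le hT (H802.le_normalizerIn hPS hx)).2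
        have h6 : t⁻¹ * u * t ∈ P ⊓ T := by
          have := (Subgroup.mem_normalizer_iff.1 (inv_mem htn) u).1 hu
          simpa using this
        have h7 : s⁻¹ * u * s = t⁻¹ * u * t := by
          have h8 := hst _ h6
          have h9 : t * (t⁻¹ * u * t) * t⁻¹ = u := by group
          rw [h9] at h8
          generalize t⁻¹ * u * t = w at h8 ⊢
          rw [← h8]; group
        have h10 : x * (t⁻¹ * u * t) * x⁻¹ ∈ P ⊓ T := (Subgroup.mem_normalizer_iff.1 hxn _).1 h6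
        have h11 : (s * x * s⁻¹) * u * (s * x * s⁻¹)⁻¹ = (t * x * t⁻¹) * u * (t * x * t⁻¹)⁻¹ := by
          have h12 : (s * x * s⁻¹) * u * (s * x * s⁻¹)⁻¹ =
            s * (x * (s⁻¹ * u * s) * x⁻¹) * s⁻¹ := by group
          rw [h12, h7, hst _ h10]
          group
        calc u * ((s * x * s⁻¹)⁻¹ * (t * x * t⁻¹))
            = (s * x * s⁻¹)⁻¹ * ((s * x * s⁻¹) * u * (s * x * s⁻¹)⁻¹) * (t * x * t⁻¹) := by group
          _ = (s * x * s⁻¹)⁻¹ * ((t * x * t⁻¹) * u * (t * x * t⁻¹)⁻¹) * (t * x * t⁻¹) := by rw [h11]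
          _ = (s * x * s⁻¹)⁻¹ * (t * x * t⁻¹) * u := by group
    have h13 : t * x * t⁻¹ = (s * x * s⁻¹) * ((s * x * s⁻¹)⁻¹ * (t * x * t⁻¹)) := by group
    rw [h13]
    exact mul_mem hxs hq.1
  obtain ⟨w, hw⟩ := H757.exists_cj (H802.mem_normalizer_of_conj_mem hPS hmem)
  have hwA : w ∈ gA F E P := cj_mem_gA hT hPS ht hw
  refine ⟨w, hw.mem ht, w⁻¹ * v, ⟨mul_mem (inv_mem hwA.1) hv.1, hwA.2.1.inv.mul hv.2.1,
    fun x hx => ?_⟩, by group⟩
  have h14 : Cj (t⁻¹ * s) (w⁻¹ * v) := hw.inv.mul hsv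
  rw [af_cj h14 hx.1]
  have h15 := hst x hx
  calc t⁻¹ * s * x * (t⁻¹ * s)⁻¹ = t⁻¹ * (s * x * s⁻¹) * t := by group
    _ = x := by rw [h15]; group

/-- All elements of `gA` commute with `gX` modulo conjugations by `Z(P ⊓ T)`, for `DFN` subgroups. -/
theorem cst_of_dfn [Finite S] [Fact p.Prime] (hS : IsPGroup p S) (hE : E.IsNormalIn F p)
    (hD : DFN F T P) (hTC : TC F T (P ⊓ T)) {a : MulAut P} (ha : a ∈ gA F E P) : Cst F T P a := by
  have hF : F.IsSaturated p := hE.1.2.1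
  have hInv : E.IsInvariantIn F := hE.1.2.2
  have hT : F.StronglyClosed T := hInv.2.1
  have hTS : T ≤ S := hT.1
  have hPS : P ≤ S := hD.1.1
  have hPf : Finite P := H802.finite_of_le hPS
  have hTf : Finite T := H802.finite_of_le hTS
  have hPA : Finite (MulAut P) := H750.finite_mulAut
  have hXS := gX_le_autS hS hF hT hD.1
  have hSyl : SylIn p (autInducedBy S P ⊓ gA F E P) (gA F E P) :=
    (H750.sylIn_of_isFullyAutomized
      (H802.isFullyAutomized_of_isFullyNormalized hS hF hD.1)).inf_normal gA_le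
      fun k hk m hm => gA_conj_mem hInv hPS hk hm
  -- the elements of `V`
  have hV : ∀ v ∈ autInducedBy S P ⊓ gA F E P, Cst F T P v := by
    rintro v ⟨hvS, hvA⟩
    obtain ⟨u, hu, x, hx, rfl⟩ := exists_mul_of_mem hS hE hD hTC hvS hvA
    obtain ⟨t, ht, hut⟩ := H757.exists_cj_of_mem hu
    have huA : u ∈ gA F E P := cj_mem_gA hT hPS ht hut
    refine Cst.mul hT hPS huA.1 ?_ ?_
    · intro w hw
      obtain ⟨s, hs, hsw⟩ := H757.exists_cj_of_mem (hXS hw)
      have h1 : Cj (t * s * t⁻¹ * s⁻¹) (u * w * u⁻¹ * w⁻¹) :=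
        ((hut.mul hsw).mul hut.inv).mul hsw.inv
      have h2 : u * w * u⁻¹ * w⁻¹ ∈ gX F T P := mul_mem (gX_conj_mem hT hPS huA.1 hw) (inv_mem hw)
      refine h1.mem (mem_ZT_of hTS hTC ?_ fun y hy => ?_)
      · have h3 : t * s * t⁻¹ * s⁻¹ = t * (s * t⁻¹ * s⁻¹) := by group
        rw [h3]
        exact mul_mem ht (conj_mem_of_sc hT hs (inv_mem ht))
      · have h4 := h2.2.2 y hy
        rw [af_cj h1 hy.1] at h4
        generalize t * s * t⁻¹ * s⁻¹ = k at h4 ⊢
        calc y * k = k * y * k⁻¹ * k := by rw [h4]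
          _ = k * y := by group
    · intro w hw
      have h1 : x * w * x⁻¹ * w⁻¹ = 1 := by
        rw [gX_comm hT hPS hTC hx hw]; group
      rw [h1]
      exact one_mem _
  obtain ⟨i, j, hij, ⟨k, hk⟩, hj⟩ := TwoFusion.PResidual.exists_pPart_mul_pPrimePart p a
  rw [hij]
  refine Cst.mul hT hPS (gA_le (zpow_mem ha i)) ?_ (cst_of_coprime hS hE hD hTC (zpow_mem ha j) hj)
  have hzp : IsPGroup p (Subgroup.zpowers (a ^ i)) :=
    IsPGroup.of_card (n := k) (by rw [Nat.card_zpowers, hk])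
  obtain ⟨g, hg, hgV⟩ := hSyl.exists_conj
    (B := Subgroup.zpowers (a ^ i)) (by rw [Subgroup.zpowers_le]; exact zpow_mem ha i) hzp
  have h5 := hV _ (hgV _ (Subgroup.mem_zpowers _))
  have h6 := Cst.conj hT hPS (inv_mem hg.1) h5
  have h7 : g⁻¹ * (g * a ^ i * g⁻¹) * g⁻¹⁻¹ = a ^ i := by group
  rwa [h7] at h6

/-- All elements of `gA` commute with `gX` modulo conjugations by `Z(P ⊓ T)`. -/
theorem cst_of_mem [Finite S] [Fact p.Prime] (hS : IsPGroup p S) (hE : E.IsNormalIn F p)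
    (hPS : P ≤ S) (hTC : TC F T (P ⊓ T)) {a : MulAut P} (ha : a ∈ gA F E P) : Cst F T P a := by
  have hF : F.IsSaturated p := hE.1.2.1
  have hInv : E.IsInvariantIn F := hE.1.2.2
  have hT : F.StronglyClosed T := hInv.2.1
  have hTf : Finite T := H802.finite_of_le hT.1
  obtain ⟨P', f, hf, hI, hD⟩ := exists_dfn hS hF hT hPS
  have hiso : Iso F P P' f := iso_of_mp (hf.res (H802.le_normalizerIn hPS)) hI
  obtain ⟨e, he⟩ := exists_eqv hiso
  obtain ⟨g, hg, hge, -, -⟩ := eqv_symm hiso he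
  have hTC' : TC F T (P' ⊓ T) := hTC.image hT (mp_of_iso (iso_inf hT hiso))
    fun y => (iso_inf hT hiso).mem_iff
  intro v hv
  have h1 := cst_of_dfn hS hE hD hTC' (he.mem_gA hInv hiso ha) _ (he.mem_gX hT hiso hv)
  have h2 := hge.mem_indZT hT hg h1
  simpa only [map_mul, map_inv, congr_symm_congr] using h2

/-! ### Strong closure -/

/-- `T`-conjugation up to `F`-conjugacy inside `Aut_S(P)` is `T`-conjugation, for receptive `P`. -/
theorem tconj_mem_autT [Finite S] (hT : F.StronglyClosed T) (hP : F.IsReceptive P)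
    {v : MulAut P} (hv : v ∈ autInducedBy S P) (h : TConj F T P v) : v ∈ autInducedBy T P := by
  have hPS : P ≤ S := hP.1
  obtain ⟨s, hs, hsv⟩ := H757.exists_cj_of_mem hv
  obtain ⟨φ, hφ, t, ht, h1⟩ := h
  obtain ⟨Q, hQ⟩ := exists_iso_of_mp hφ
  obtain ⟨g, hg, hgφ, hφg⟩ := hQ.exists_inv
  have hgI : Im g Q P := fun y => hg.mem_iff
  obtain ⟨X, k, hk, hkg, hQX, -, -, hX⟩ := H770.mp_receptive hP (mp_of_iso hg) hgI
  have htQ : ∀ y ∈ Q, t * y * t⁻¹ ∈ Q := by
    intro y hy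
    obtain ⟨x, hx, rfl⟩ := hQ.surj hy
    rw [← h1 x hx]
    exact hQ.mem (af_mem v hx)
  have htX : t ∈ X := by
    refine hX t (hT.1 ht) (H802.mem_normalizer_of_conj_mem hQ.le_right htQ) ⟨s, hs, fun y hy => ?_⟩
    obtain ⟨x, hx, rfl⟩ := hQ.surj hy
    rw [← h1 x hx, hgφ _ (af_mem v hx), hgφ x hx, af_cj hsv hx]
  have hkT : k t ∈ T := mp_mem_of_stronglyClosed hT hk htX ht
  refine (cj_of_af (g := k t) fun x hx => ?_ : Cj (k t) v).mem hkT
  have hφx : φ x ∈ Q := hQ.mem hx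
  have h2 := h1 x hx
  have h3 : k (φ x) = x := by rw [hkg _ hφx, hgφ x hx]
  rw [← hgφ _ (af_mem v hx), h2, ← hkg _ (htQ _ hφx), hk.mul (mul_mem htX (hQX hφx)) (inv_mem htX),
    hk.mul htX (hQX hφx), hk.inv htX, h3]

theorem TConj.pow_eq_one [Fact p.Prime] (hT : F.StronglyClosed T) (hS : IsPGroup p S)
    {α : MulAut P} (h : TConj F T P α) : ∃ k : ℕ, α ^ p ^ k = 1 := by
  obtain ⟨φ, hφ, t, ht, h1⟩ := h
  obtain ⟨k, hk⟩ := hS ⟨t, hT.1 ht⟩
  have hk' : t ^ p ^ k = 1 := congrArg Subtype.val hk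
  refine ⟨k, af_ext fun x hx => ?_⟩
  have key : ∀ n : ℕ, φ (af (α ^ n) x) = t ^ n * φ x * (t ^ n)⁻¹ := by
    intro n
    induction n with
    | zero => rw [pow_zero, pow_zero, af_one hx]; group
    | succ n ih =>
      rw [pow_succ', af_mul _ _ hx, h1 _ (af_mem _ hx), ih, pow_succ']
      group
  have h2 := key (p ^ k)
  rw [hk'] at h2
  rw [af_one hx]
  refine hφ.inj (af_mem _ hx) hx ?_
  rw [h2]; group

/-- **Sylow subgroups of `gN`.** -/
theorem gN_sylow [Finite S] [Fact p.Prime] (hS : IsPGroup p S) (hE : E.IsNormalIn F p)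
    (hD : DFN F T P) (hTC : TC F T (P ⊓ T)) :
    autInducedBy S P ⊓ gN F E p P = autInducedBy T P ∧ SylIn p (autInducedBy T P) (gN F E p P) := by
  have hF : F.IsSaturated p := hE.1.2.1
  have hInv : E.IsInvariantIn F := hE.1.2.2
  have hT : F.StronglyClosed T := hInv.2.1
  have hTS : T ≤ S := hT.1
  have hPS : P ≤ S := hD.1.1
  have hPf : Finite P := H802.finite_of_le hPS
  have hTf : Finite T := H802.finite_of_le hTS
  have hPA : Finite (MulAut P) := H750.finite_mulAut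
  have hXS := gX_le_autS hS hF hT hD.1
  have hrec := H802.isReceptive_of_isFullyNormalized hS hF hD.1
  have hSyl : SylIn p (autInducedBy S P ⊓ gA F E P) (gA F E P) :=
    (H750.sylIn_of_isFullyAutomized
      (H802.isFullyAutomized_of_isFullyNormalized hS hF hD.1)).inf_normal gA_le
      fun k hk m hm => gA_conj_mem hInv hPS hk hm
  have hTN : autInducedBy T P ≤ gN F E p P := autInducedBy_le_gN hT hPS
  have hTV : autInducedBy T P ≤ autInducedBy S P ⊓ gA F E P :=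
    le_inf (autInducedBy_mono hTS) (hTN.trans gN_le_gA)
  have htc : ∀ a ∈ gA F E P, ∀ α : MulAut P, TConj F T P α → TConj F T P (a * α * a⁻¹) := by
    intro a ha α hα
    obtain ⟨h1, h2⟩ := exists_iso_af hPS ha.1
    exact h2.tconj h1 hα
  have hTt : ∀ u ∈ autInducedBy T P, TConj F T P u := fun u hu => by
    obtain ⟨t, ht, hc⟩ := H757.exists_cj_of_mem hu
    exact tconj_of_cj hPS ht hc
  obtain ⟨K, hKA, hKn, hKc, hTK, hKV⟩ := exists_normal_transfer hSyl hTV
    (X := gX F T P) (le_inf hXS gX_le_gA)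
    (fun v hv => exists_mul_of_mem hS hE hD hTC hv.1 hv.2)
    (fun a ha x hx => autInducedBy_mono (inf_le_left.trans inf_le_right)
      (cst_of_dfn hS hE hD hTC ha x hx))
    (fun a ha u hu h => tconj_mem_autT hT hrec h.1 (htc a ha u (hTt u hu)))
  have hNK : gN F E p P ≤ K := by
    refine (Subgroup.closure_le _).2 ?_
    rintro α ⟨hα, h1⟩
    rcases h1 with h1 | h1
    · exact hKc α hα h1
    · obtain ⟨k, hk⟩ := TConj.pow_eq_one (p := p) hT hS h1
      have hzp : IsPGroup p (Subgroup.zpowers α) := by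
        rintro ⟨β, n, rfl⟩
        refine ⟨k, Subtype.ext ?_⟩
        show (α ^ n) ^ p ^ k = 1
        rw [← zpow_natCast, ← zpow_mul, mul_comm, zpow_mul, zpow_natCast, hk, one_zpow]
      obtain ⟨g, hg, hgV⟩ := hSyl.exists_conj
        (B := Subgroup.zpowers α) (by rw [Subgroup.zpowers_le]; exact hα) hzp
      have h5 := hgV α (Subgroup.mem_zpowers _)
      have h6 := tconj_mem_autT hT hrec h5.1 (htc g hg α h1)
      have h7 := hKn g⁻¹ (inv_mem hg) _ (hTK h6)
      have h8 : g⁻¹ * (g * α * g⁻¹) * g⁻¹⁻¹ = α := by group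
      rwa [h8] at h7
  have heq : autInducedBy S P ⊓ gN F E p P = autInducedBy T P := by
    apply le_antisymm
    · rintro v ⟨hvS, hvN⟩
      exact hKV ⟨hNK hvN, hvS, gN_le_gA hvN⟩
    · exact le_inf (autInducedBy_mono hTS) hTN
  refine ⟨heq, ?_⟩
  have h9 := hSyl.inf_normal (M := gN F E p P) gN_le_gA
    fun k hk m hm => gN_conj_mem hInv hPS hk.1 hm
  have h10 : (autInducedBy S P ⊓ gA F E P) ⊓ gN F E p P = autInducedBy T P := by
    rw [inf_assoc, inf_eq_right.2 (gN_le_gA : gN F E p P ≤ gA F E P), heq]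
  rwa [h10] at h9

/-- **`p`-elements of `gN`** are `F`-conjugate to `T`-conjugations. -/
theorem tconj_of_mem_gN [Finite S] [Fact p.Prime] (hS : IsPGroup p S) (hE : E.IsNormalIn F p)
    (hPS : P ≤ S) (hTC : TC F T (P ⊓ T)) {α : MulAut P} (hα : α ∈ gN F E p P) {k : ℕ}
    (hk : α ^ p ^ k = 1) : TConj F T P α := by
  have hF : F.IsSaturated p := hE.1.2.1
  have hInv : E.IsInvariantIn F := hE.1.2.2
  have hT : F.StronglyClosed T := hInv.2.1
  have hTf : Finite T := H802.finite_of_le hT.1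
  obtain ⟨P', f, hf, hI, hD⟩ := exists_dfn hS hF hT hPS
  have hiso : Iso F P P' f := iso_of_mp (hf.res (H802.le_normalizerIn hPS)) hI
  obtain ⟨e, he⟩ := exists_eqv hiso
  obtain ⟨g, hg, hge, -, -⟩ := eqv_symm hiso he
  have hTC' : TC F T (P' ⊓ T) := hTC.image hT (mp_of_iso (iso_inf hT hiso))
    fun y => (iso_inf hT hiso).mem_iff
  have hP'S : P' ≤ S := hD.1.1
  have hPf' : Finite P' := H802.finite_of_le hP'S
  have hPA' : Finite (MulAut P') := H750.finite_mulAut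
  have h1 := he.mem_gN hInv hiso hα
  set α' := MulAut.congr e α with hα'
  have hk' : α' ^ p ^ k = 1 := by rw [hα', ← map_pow, hk, map_one]
  have hzp : IsPGroup p (Subgroup.zpowers α') := by
    rintro ⟨β, n, rfl⟩
    refine ⟨k, Subtype.ext ?_⟩
    show (α' ^ n) ^ p ^ k = 1
    rw [← zpow_natCast, ← zpow_mul, mul_comm, zpow_mul, zpow_natCast, hk', one_zpow]
  obtain ⟨b, hb, hbT⟩ := (gN_sylow hS hE hD hTC').2.exists_conj
    (B := Subgroup.zpowers α') (by rw [Subgroup.zpowers_le]; exact h1) hzp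
  obtain ⟨t, ht, hc⟩ := H757.exists_cj_of_mem (hbT α' (Subgroup.mem_zpowers _))
  have h2 : TConj F T P' (b * α' * b⁻¹) := tconj_of_cj hP'S ht hc
  have hbF : b ∈ F.autGroup P' := gA_le (gN_le_gA hb)
  have h3 : TConj F T P' α' := by
    obtain ⟨h4, h5⟩ := exists_iso_af hP'S (inv_mem hbF)
    have h6 := h5.tconj h4 h2
    have h7 : MulAut.congr b⁻¹ (b * α' * b⁻¹) = α' := by rw [congr_self]; group
    rwa [h7] at h6
  have h8 := hge.tconj hg h3
  rwa [hα', congr_symm_congr] at h8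

end Cfsg.Agent.H756
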