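import Cfsg.Agent.H756.LocD

/-!
# Local groups of a normal subsystem: restriction, good subgroups (helper756)
-/

set_option autoImplicit false

namespace Cfsg.Agent.H756

open Cfsg Cfsg.FusionSystem Cfsg.Agent.H752
open Cfsg.Agent.H750 (Iso)
open Cfsg.Agent.H757 (Tr Ex Cj)
open Cfsg.Agent.H770 (Im)
open Cfsg.Agent.H802 (SylIn)

variable {Ω : Type*} [Group Ω] {S T P P' Q N U M : Subgroup Ω} {F : FusionSystem S}
  {E : FusionSystem T} {p : ℕ} {f : Ω → Ω}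

/-- The automorphisms of `Q` that leave `P` invariant. -/
def Stb (P Q : Subgroup Ω) (hPQ : P ≤ Q) : Subgroup (MulAut Q) where
  carrier := {α | ∀ x ∈ P, af α x ∈ P ∧ af α⁻¹ x ∈ P}
  one_mem' := fun x hx => by
    rw [inv_one, af_one (hPQ hx)]; exact ⟨hx, hx⟩
  mul_mem' := by
    intro a b ha hb x hx
    rw [mul_inv_rev, af_mul _ _ (hPQ hx), af_mul _ _ (hPQ hx)]
    exact ⟨(ha _ (hb x hx).1).1, (hb _ (ha x hx).2).2⟩
  inv_mem' := by
    intro a ha x hx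
    rw [inv_inv]
    exact ⟨(ha x hx).2, (ha x hx).1⟩

theorem mem_stb (hPQ : P ≤ Q) [Finite P] {α : MulAut Q} (h : ∀ x ∈ P, af α x ∈ P) :
    α ∈ Stb P Q hPQ := by
  intro x hx
  refine ⟨h x hx, ?_⟩
  have hinj : Function.Injective (fun y : P => (⟨af α y, h y y.2⟩ : P)) := by
    intro a b hab
    have h1 : af α a = af α b := congrArg Subtype.val hab
    have h2 := congrArg (af α⁻¹) h1
    rw [af_inv_af _ (hPQ a.2), af_inv_af _ (hPQ b.2)] at h2
    exact Subtype.ext h2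
  obtain ⟨y, hy⟩ := (Finite.injective_iff_surjective.1 hinj) ⟨x, hx⟩
  have h1 : af α y = x := congrArg Subtype.val hy
  rw [← h1, af_inv_af _ (hPQ y.2)]
  exact y.2

theorem gA_restrict [Finite S] (hPQ : P ≤ Q) (hQS : Q ≤ S) {a : MulAut Q} (ha : a ∈ gA F E Q)
    (hm : ∀ x ∈ P, af a x ∈ P) : ∃ b ∈ gA F E P, Ex b a := by
  have hPf : Finite P := H802.finite_of_le (hPQ.trans hQS)
  obtain ⟨b, hb, hba⟩ := H757.exists_restrict hPQ hQS ha.1 fun x hx hQ => by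
    rw [← af_apply a hQ]; exact hm x hx
  have hbf := (ex_iff hPQ).1 hba
  refine ⟨b, ⟨hb, tr_iff.2 fun x hx => ?_, ?_⟩, hba⟩
  · rw [← hbf x hx]; exact tr_iff.1 ha.2.1 x (hPQ hx)
  · exact (ha.2.2.res (inf_le_inf_right T hPQ)).congr fun x hx => (hbf x hx.1).symm

/-- **Restriction of `gN`.** -/
theorem gN_restrict [Finite S] [Fact p.Prime] (hS : IsPGroup p S) (hE : E.IsNormalIn F p)
    (hPQ : P ≤ Q) (hQS : Q ≤ S) (hTC : TC F T (P ⊓ T)) {a : MulAut Q} (ha : a ∈ gN F E p Q)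
    (hm : ∀ x ∈ P, af a x ∈ P) : ∃ b ∈ gN F E p P, Ex b a := by
  have hPf : Finite P := H802.finite_of_le (hPQ.trans hQS)
  have hQf : Finite Q := H802.finite_of_le hQS
  have hPA : Finite (MulAut Q) := H750.finite_mulAut
  have hQTC : TC F T (Q ⊓ T) := hTC.mono (inf_le_inf_right T hPQ) inf_le_right
  have hst := mem_stb hPQ hm
  obtain ⟨i, j, hij, ⟨k, hk⟩, hj⟩ := TwoFusion.PResidual.exists_pPart_mul_pPrimePart p a
  have hi' : a ^ i ∈ Stb P Q hPQ := zpow_mem hst i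
  have hj' : a ^ j ∈ Stb P Q hPQ := zpow_mem hst j
  obtain ⟨b₁, hb₁, hb₁x⟩ := gA_restrict hPQ hQS (gN_le_gA (zpow_mem ha i)) fun x hx => (hi' x hx).1
  obtain ⟨b₂, hb₂, hb₂x⟩ := gA_restrict hPQ hQS (gN_le_gA (zpow_mem ha j)) fun x hx => (hj' x hx).1
  refine ⟨b₁ * b₂, mul_mem ?_ ?_, ?_⟩
  · obtain ⟨φ, hφ, t, ht, h1⟩ := tconj_of_mem_gN hS hE hQS hQTC (zpow_mem ha i)
      (k := k) (by rw [← hk, pow_orderOf_eq_one])
    refine mem_gN_of_tconj hb₁ ⟨φ, hφ.res hPQ, t, ht, fun x hx => ?_⟩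
    rw [← (ex_iff hPQ).1 hb₁x x hx, h1 x (hPQ hx)]
  · exact mem_gN_of_coprime hb₂
      (Nat.Coprime.coprime_dvd_left (H757.Ex.orderOf_dvd hPQ hb₂x) hj)
  · rw [hij]
    exact hb₁x.mul hPQ hb₂x

/-- **Elements of `gN Q` trivial on `P`**, `P ⊴ Q` with `P ⊓ T` centric, are conjugations by elements of `P ⊓ T`. -/
theorem exists_cj_of_fix [Finite S] [Fact p.Prime] (hS : IsPGroup p S) (hE : E.IsNormalIn F p)
    (hPQ : P ≤ Q) (hQS : Q ≤ S) (hQn : Q ≤ Subgroup.normalizer (P : Set Ω))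
    (hTC : TC F T (P ⊓ T)) {ρ : MulAut Q} (hρ : ρ ∈ gN F E p Q) (hfix : ∀ x ∈ P, af ρ x = x) :
    ∃ z ∈ P ⊓ T, Cj z ρ := by
  have hT : F.StronglyClosed T := hE.1.2.2.2.1
  have hQTC : TC F T (Q ⊓ T) := hTC.mono (inf_le_inf_right T hPQ) inf_le_right
  have hρA := gN_le_gA hρ
  have hm := mp_af hQS hρA.1
  have hQf : Finite Q := H802.finite_of_le hQS
  obtain ⟨k, hk⟩ := H759.exists_pow_eq_one_of_chain (hS.to_le hQS) ρ 2
    (fun i => if i = 0 then ⊤ else if i = 1 then P.subgroupOf Q else ⊥) (by simp) (by simp)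
    (by
      intro i hi x hx
      rcases i with _ | _ | _ | i
      · simp
      · have hx' : (x : Ω) ∈ P := by simpa [Subgroup.mem_subgroupOf] using hx
        have h1 := hfix x hx'
        rw [af_apply ρ x.2] at h1
        have h2 : ρ x = x := Subtype.ext h1
        simpa [Subgroup.mem_subgroupOf, h2] using hx'
      · have hx' : x = 1 := by simpa using hx
        simp [hx']
      · omega)
    (by
      intro i hi x hx
      rcases i with _ | _ | i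
      · have h1 : (x : Ω)⁻¹ * ((ρ x : Q) : Ω) ∈ P ⊓ T := by
          refine hTC.self hT.1 (hρA.2.1 x) fun u hu => ?_
          have hxu : (x : Ω) * u * (x : Ω)⁻¹ ∈ P :=
            (Subgroup.mem_normalizer_iff.1 (hQn x.2) u).1 hu.1
          have h2 := hfix _ hxu
          rw [hm.mul (mul_mem x.2 (hPQ hu.1)) (inv_mem x.2), hm.mul x.2 (hPQ hu.1), hm.inv x.2,
            hfix u hu.1, af_apply ρ x.2] at h2
          have h3 : (⟨(x : Ω), x.2⟩ : Q) = x := rfl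
          rw [h3] at h2
          calc u * ((x : Ω)⁻¹ * ((ρ x : Q) : Ω))
              = (x : Ω)⁻¹ * ((x : Ω) * u * (x : Ω)⁻¹) * ((ρ x : Q) : Ω) := by group
            _ = (x : Ω)⁻¹ * (((ρ x : Q) : Ω) * u * ((ρ x : Q) : Ω)⁻¹) * ((ρ x : Q) : Ω) := by rw [h2]
            _ = (x : Ω)⁻¹ * ((ρ x : Q) : Ω) * u := by group
        simpa [Subgroup.mem_subgroupOf] using h1.1
      · have hx' : (x : Ω) ∈ P := by simpa [Subgroup.mem_subgroupOf] using hx
        have h1 := hfix x hx'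
        rw [af_apply ρ x.2] at h1
        have h2 : ρ x = x := Subtype.ext h1
        simp [h2]
      · omega)
  obtain ⟨φ, hφ, t, ht, h1⟩ := tconj_of_mem_gN hS hE hQS hQTC hρ hk
  obtain ⟨z, hz, rfl⟩ := hTC.2 φ (hφ.res (inf_le_left.trans hPQ)) t ht fun x hx => by
    have h2 := h1 x (hPQ hx.1)
    rw [hfix x hx.1] at h2
    calc φ x * t = t * φ x * t⁻¹ * t := by rw [← h2]
      _ = t * φ x := by group
  have hzQ : z ∈ Q := hPQ hz.1
  refine ⟨z, hz, cj_of_af fun x hx => hφ.inj (af_mem _ hx)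
    (mul_mem (mul_mem hzQ hx) (inv_mem hzQ)) ?_⟩
  rw [h1 x hx, hφ.mul (mul_mem hzQ hx) (inv_mem hzQ), hφ.mul hzQ hx, hφ.inv hzQ]

/-! ### Good subgroups -/

/-- `P` is carried to a `DFN` subgroup by a map defined on `P T`. -/
def Good (F : FusionSystem S) (T P : Subgroup Ω) : Prop :=
  ∃ (ψ : Ω → Ω) (P' : Subgroup Ω), Mp F (P ⊔ T) ψ ∧ Im ψ P P' ∧ DFN F T P'

theorem image_tc (hT : F.StronglyClosed T) (h : Iso F P P' f) (hTC : TC F T (P ⊓ T)) :
    TC F T (P' ⊓ T) :=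
  hTC.image hT (mp_of_iso (iso_inf hT h)) fun _ => (iso_inf hT h).mem_iff

/-- Transport of the Sylow property of `Aut_T(P)` in `gN P`. -/
theorem sylT_of_iso [Finite S] [Fact p.Prime] (hS : IsPGroup p S) (hE : E.IsNormalIn F p)
    {ψ : Ω → Ω} (hψ : Mp F M ψ) (hPM : P ≤ M) (hI : Im ψ P P')
    (hsurj : ∀ t ∈ T, t ∈ Subgroup.normalizer (P' : Set Ω) → ∃ s ∈ M, ψ s = t)
    (hSyl : SylIn p (autInducedBy T P') (gN F E p P')) :
    SylIn p (autInducedBy T P) (gN F E p P) := by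
  have hInv : E.IsInvariantIn F := hE.1.2.2
  have hT : F.StronglyClosed T := hInv.2.1
  have hTf : Finite T := H802.finite_of_le hT.1
  have hPS : P ≤ S := hPM.trans hψ.le
  have hPf : Finite P := H802.finite_of_le hPS
  have hPA : Finite (MulAut P) := H750.finite_mulAut
  have hiso : Iso F P P' ψ := iso_of_mp (hψ.res hPM) hI
  obtain ⟨e, he⟩ := exists_eqv hiso
  obtain ⟨g, hg, hge, hgψ, hψg⟩ := eqv_symm hiso he
  have hmap : (gN F E p P).map (MulAut.congr e).toMonoidHom = gN F E p P' := by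
    ext β
    constructor
    · rintro ⟨α, hα, rfl⟩
      exact he.mem_gN hInv hiso hα
    · intro hβ
      exact ⟨MulAut.congr e.symm β, hge.mem_gN hInv hg hβ, congr_congr_symm e β⟩
  have hcard : Nat.card (gN F E p P') = Nat.card (gN F E p P) := by
    rw [← hmap]
    exact (Nat.card_congr ((gN F E p P).equivMapOfInjective _ (MulAut.congr e).injective).toEquiv).symm
  have hTp : IsPGroup p (autInducedBy T P) :=
    H802.isPGroup_autInducedBy (hS.to_le hT.1) P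
  refine H802.sylIn_of_card_ge (autInducedBy_le_gN hT hPS) hTp ?_
  rw [← hcard, ← hSyl.2]
  -- `Aut_T(P')` injects into `Aut_T(P)`
  have hsub : autInducedBy T P' ≤ (autInducedBy T P).map (MulAut.congr e).toMonoidHom := by
    intro β hβ
    obtain ⟨t, ht, hc⟩ := H757.exists_cj_of_mem hβ
    obtain ⟨s, hs, rfl⟩ := hsurj t ht hc.mem_normalizer
    have hsT : s ∈ T := mp_mem_of_stronglyClosed' hT hψ hs ht
    refine ⟨MulAut.congr e.symm β, (cj_of_af (g := s) fun x hx => ?_ : Cj s _).mem hsT,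
      congr_congr_symm e β⟩
    have h1 : af (MulAut.congr e.symm β) (g (ψ x)) = g (af β (ψ x)) := hge.af_congr β (hI.apply hx)
    rw [hgψ x hx] at h1
    rw [h1, af_cj hc (hI.apply hx)]
    have h2 : ψ s * ψ x * (ψ s)⁻¹ = ψ (s * x * s⁻¹) := by
      rw [hψ.mul (mul_mem hs (hPM hx)) (inv_mem hs), hψ.mul hs (hPM hx), hψ.inv hs]
    have h3 : s * x * s⁻¹ ∈ P := by
      have h4 : ψ (s * x * s⁻¹) ∈ P' := by
        rw [← h2, ← af_cj hc (hI.apply hx)]; exact af_mem _ (hI.apply hx)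
      obtain ⟨y, hy, hyx⟩ := (hI _).1 h4
      have h5 := hψ.inj (hPM hy) (mul_mem (mul_mem hs (hPM hx)) (inv_mem hs)) hyx
      rwa [← h5]
    rw [h2, hgψ _ h3]
  have h6 : Nat.card ((autInducedBy T P).map (MulAut.congr e).toMonoidHom) =
      Nat.card (autInducedBy T P) :=
    (Nat.card_congr ((autInducedBy T P).equivMapOfInjective _
      (MulAut.congr e).injective).toEquiv).symm
  rw [← h6]
  have hP'f : Finite P' := H802.finite_of_le hiso.le_right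
  have hPA' : Finite (MulAut P') := H750.finite_mulAut
  exact Subgroup.card_le_of_le hsub

theorem mp_surj_T [Finite S] (hT : F.StronglyClosed T) {ψ : Ω → Ω} (hψ : Mp F M ψ) (hTM : T ≤ M)
    {t : Ω} (ht : t ∈ T) : ∃ s ∈ T, ψ s = t := by
  have hTf : Finite T := H802.finite_of_le hT.1
  exact (hψ.res hTM).surj (fun x hx => mp_mem_of_stronglyClosed hT (hψ.res hTM) hx hx) ht

theorem Good.sylow [Finite S] [Fact p.Prime] (hS : IsPGroup p S) (hE : E.IsNormalIn F p)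
    (hg : Good F T P) (hTC : TC F T (P ⊓ T)) : SylIn p (autInducedBy T P) (gN F E p P) := by
  have hT : F.StronglyClosed T := hE.1.2.2.2.1
  obtain ⟨ψ, P', hψ, hI, hD⟩ := hg
  have hPM : P ≤ P ⊔ T := le_sup_left
  have hTC' : TC F T (P' ⊓ T) := image_tc hT (iso_of_mp (hψ.res hPM) hI) hTC
  refine sylT_of_iso hS hE hψ hPM hI (fun t ht _ => ?_) (gN_sylow hS hE hD hTC').2
  obtain ⟨s, hs, h1⟩ := mp_surj_T hT hψ le_sup_right ht
  exact ⟨s, (le_sup_right : T ≤ P ⊔ T) hs, h1⟩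

/-- The Sylow property for fully normalized subgroups. -/
theorem sylow_of_fn [Finite S] [Fact p.Prime] (hS : IsPGroup p S) (hE : E.IsNormalIn F p)
    (hP : F.IsFullyNormalized P) (hTC : TC F T (P ⊓ T)) :
    SylIn p (autInducedBy T P) (gN F E p P) := by
  have hF : F.IsSaturated p := hE.1.2.1
  have hT : F.StronglyClosed T := hE.1.2.2.2.1
  obtain ⟨P', ψ, hψ, hI, hD⟩ := exists_dfn hS hF hT hP.1
  have hPM : P ≤ normalizerIn S P := H802.le_normalizerIn hP.1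
  have hiso := iso_of_mp (hψ.res hPM) hI
  have hTC' : TC F T (P' ⊓ T) := image_tc hT hiso hTC
  refine sylT_of_iso hS hE hψ hPM hI (fun t ht htn => ?_) (gN_sylow hS hE hD hTC').2
  obtain ⟨φ, hφ, hφe⟩ := id hψ
  have hfin : Finite (normalizerIn S P') := H802.finite_of_le inf_le_left
  obtain ⟨x, hx, h1⟩ := H802.exists_preimage_of_card (F.injective_of_mem hφ) le_rfl
    (B := normalizerIn S P') (fun x hx => by
      rw [hφe]
      exact ⟨hψ.mem hx, H770.Mp.mem_normalizer hψ hPM hI hx hx.2⟩) (hP.2 P' hiso.isConj) t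
    ⟨hT.1 ht, htn⟩
  exact ⟨x, hx, by rw [← h1, hφe]⟩

/-- Extension of `p'`-elements of `gA P` to `p'`-elements of `gA N`, transported. -/
theorem exists_ext_gA' [Finite S] [Fact p.Prime] (hS : IsPGroup p S) (hE : E.IsNormalIn F p)
    {ψ : Ω → Ω} (hψ : Mp F N ψ) (hI : Im ψ P P') (hD : DFN F T P') (hTC : TC F T (P ⊓ T))
    (hPN : P ≤ N) (hN : N ≤ Subgroup.normalizer (P : Set Ω))
    {h : MulAut P} (hh : h ∈ gA F E P) (hc : Nat.Coprime (orderOf h) p)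
    (hcond : ∀ y ∈ N, ∃ y' ∈ N, Cg T y y' ∧
      ∀ x ∈ P, af h (y * x * y⁻¹) = y' * af h x * y'⁻¹) :
    ∃ k ∈ gA F E N, Nat.Coprime (orderOf k) p ∧ Ex h k := by
  have hInv : E.IsInvariantIn F := hE.1.2.2
  have hT : F.StronglyClosed T := hInv.2.1
  have hTf : Finite T := H802.finite_of_le hT.1
  have hiso : Iso F P P' ψ := iso_of_mp (hψ.res hPN) hI
  obtain ⟨e, he⟩ := exists_eqv hiso
  obtain ⟨N', hN'⟩ := exists_iso_of_mp hψ
  obtain ⟨eN, heN⟩ := exists_eqv hN'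
  obtain ⟨g, hg, hge, hgψ, hψg⟩ := eqv_symm hN' heN
  have hTC' : TC F T (P' ⊓ T) := image_tc hT hiso hTC
  have hPN' : P' ≤ N' := fun y hy => by
    obtain ⟨x, hx, rfl⟩ := (hI y).1 hy
    exact hN'.mem (hPN hx)
  obtain ⟨k', hk', hk'c, hk'x⟩ := exists_ext_gA hS hE hD hTC' hPN' (fun y hy => by
      obtain ⟨x, hx, rfl⟩ := hN'.surj hy
      exact ⟨hψ.mem hx, H770.Mp.mem_normalizer hψ hPN hI hx (hN hx)⟩)
    (he.mem_gA hInv hiso hh) (by rwa [MulEquiv.orderOf_eq]) (fun y hy => by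
      obtain ⟨y₀, hy₀, rfl⟩ := hN'.surj hy
      obtain ⟨y₁, hy₁, hcg, h1⟩ := hcond y₀ hy₀
      refine ⟨ψ y₁, hN'.mem hy₁, hcg.map hT hψ hy₀ hy₁, fun x hx => ?_⟩
      obtain ⟨x₀, hx₀, rfl⟩ := hiso.surj hx
      have h2 : ψ y₀ * ψ x₀ * (ψ y₀)⁻¹ = ψ (y₀ * x₀ * y₀⁻¹) := by
        rw [hψ.mul (mul_mem hy₀ (hPN hx₀)) (inv_mem hy₀), hψ.mul hy₀ (hPN hx₀), hψ.inv hy₀]
      have h3 : y₀ * x₀ * y₀⁻¹ ∈ P := (Subgroup.mem_normalizer_iff.1 (hN hy₀) _).1 hx₀
      have h4 := hPN (af_mem h hx₀)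
      rw [h2, he.af_congr h h3, he.af_congr h hx₀, h1 x₀ hx₀,
        hψ.mul (mul_mem hy₁ h4) (inv_mem hy₁), hψ.mul hy₁ h4, hψ.inv hy₁])
  refine ⟨MulAut.congr eN.symm k', hge.mem_gA hInv hg hk', by rwa [MulEquiv.orderOf_eq],
    (ex_iff hPN).2 fun x hx => ?_⟩
  have h5 : af (MulAut.congr eN.symm k') (g (ψ x)) = g (af k' (ψ x)) :=
    hge.af_congr k' (hN'.mem (hPN hx))
  rw [hgψ x (hPN hx)] at h5
  rw [h5, (ex_iff hPN').1 hk'x _ (hI.apply hx), he.af_congr h hx, hgψ _ (hPN (af_mem h hx))]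

end Cfsg.Agent.H756
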