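import Cfsg.Agent.H756.LocE

/-!
# Compositions of restrictions of elements of the groups `gN` (helper756)
-/

set_option autoImplicit false

namespace Cfsg.Agent.H756

open Cfsg Cfsg.FusionSystem Cfsg.Agent.H752
open Cfsg.Agent.H750 (Iso)
open Cfsg.Agent.H757 (Tr Ex Cj)
open Cfsg.Agent.H770 (Im)
open Cfsg.Agent.H802 (SylIn)

variable {Ω : Type*} [Group Ω] {S T L L' P P' Q R N U M : Subgroup Ω} {F : FusionSystem S}
  {E : FusionSystem T} {p : ℕ} {f g : Ω → Ω}

/-- Compositions of restrictions of elements of `gN Q`, `Q ≤ L`, `Q ⊓ T` centric. -/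
inductive NM (F : FusionSystem S) (E : FusionSystem T) (p : ℕ) (L : Subgroup Ω) :
    Subgroup Ω → (Ω → Ω) → Prop
  | id {P : Subgroup Ω} {f : Ω → Ω} (hPL : P ≤ L) (hf : ∀ x ∈ P, f x = x) : NM F E p L P f
  | step {P Q : Subgroup Ω} {f g : Ω → Ω} {a : MulAut Q} (hf : NM F E p L P f) (hQL : Q ≤ L)
      (hTC : TC F T (Q ⊓ T)) (ha : a ∈ gN F E p Q) (hfQ : ∀ x ∈ P, f x ∈ Q)
      (hg : ∀ x ∈ P, g x = af a (f x)) : NM F E p L P g

theorem NM.congr (h : NM F E p L P f) (he : ∀ x ∈ P, g x = f x) : NM F E p L P g := by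
  cases h with
  | id hPL hf => exact NM.id hPL fun x hx => by rw [he x hx, hf x hx]
  | step hf hQL hTC ha hfQ hg => exact NM.step hf hQL hTC ha hfQ fun x hx => by rw [he x hx, hg x hx]

theorem NM.le (h : NM F E p L P f) : P ≤ L := by
  induction h with
  | id hPL _ => exact hPL
  | step _ _ _ _ _ _ ih => exact ih

theorem NM.mp (hLS : L ≤ S) (h : NM F E p L P f) : Mp F P f := by
  induction h with
  | id hPL hf => exact (mp_id F (hPL.trans hLS)).congr hf
  | step hf hQL hTC ha hfQ hg ih =>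
    exact (ih.comp (mp_af (hQL.trans hLS) (gA_le (gN_le_gA ha))) hfQ).congr hg

theorem NM.cg (h : NM F E p L P f) : ∀ x ∈ P, Cg T x (f x) := by
  induction h with
  | id hPL hf => exact fun x hx => Cg.of_eq (hf x hx).symm
  | step hf hQL hTC ha hfQ hg ih =>
    intro x hx
    rw [hg x hx]
    exact (ih x hx).trans (tr_iff.1 (gN_le_gA ha).2.1 _ (hfQ x hx))

theorem NM.mem_inf (h : NM F E p L P f) {x : Ω} (hx : x ∈ P) (hxT : x ∈ T) : f x ∈ T :=
  mem_of_cg (h.cg x hx) hxT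

theorem NM.mapsL (h : NM F E p L P f) : ∀ x ∈ P, f x ∈ L := by
  induction h with
  | id hPL hf => exact fun x hx => by rw [hf x hx]; exact hPL hx
  | step hf hQL hTC ha hfQ hg ih =>
    intro x hx
    rw [hg x hx]
    exact hQL (af_mem _ (hfQ x hx))

theorem NM.res (h : NM F E p L P f) (hR : R ≤ P) : NM F E p L R f := by
  induction h with
  | id hPL hf => exact NM.id (hR.trans hPL) fun x hx => hf x (hR hx)
  | step hf hQL hTC ha hfQ hg ih =>
    exact NM.step ih hQL hTC ha (fun x hx => hfQ x (hR hx)) fun x hx => hg x (hR hx)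

theorem NM.comp (hf : NM F E p L P f) (hg : NM F E p L Q g) (h : ∀ x ∈ P, f x ∈ Q) :
    NM F E p L P (fun x => g (f x)) := by
  induction hg with
  | id hPL hg => exact hf.congr fun x hx => hg _ (h x hx)
  | step hg' hQL hTC ha hfQ hg ih =>
    exact NM.step ih hQL hTC ha (fun x hx => hfQ _ (h x hx)) fun x hx => hg _ (h x hx)

theorem NM.mono (h : NM F E p L P f) (hL : L ≤ L') : NM F E p L' P f := by
  induction h with
  | id hPL hf => exact NM.id (hPL.trans hL) hf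
  | step hf hQL hTC ha hfQ hg ih => exact NM.step ih (hQL.trans hL) hTC ha hfQ hg

theorem nm_af (hQL : Q ≤ L) (hTC : TC F T (Q ⊓ T)) {a : MulAut Q} (ha : a ∈ gN F E p Q)
    (hP : P ≤ Q) : NM F E p L P (af a) :=
  NM.step (NM.id (f := fun x => x) (hP.trans hQL) fun _ _ => rfl) hQL hTC ha (fun _ hx => hP hx)
    fun _ _ => rfl

theorem NM.symm (hLS : L ≤ S) (h : NM F E p L P f) (hg : ∀ y ∈ R, ∃ x ∈ P, f x = y ∧ g y = x) :
    NM F E p L R g := by
  induction h generalizing R g with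
  | id hPL hf =>
    refine NM.id (fun y hy => ?_) fun y hy => ?_
    · obtain ⟨x, hx, h1, -⟩ := hg y hy
      rw [hf x hx] at h1; rw [← h1]; exact hPL hx
    · obtain ⟨x, hx, h1, h2⟩ := hg y hy
      rw [h2, ← h1, hf x hx]
  | @step Q f f' a hf hQL hTC ha hfQ hf' ih =>
    have hm := hf.mp hLS
    have hRQ : R ≤ Q := by
      intro y hy
      obtain ⟨x, hx, h1, -⟩ := hg y hy
      rw [← h1, hf' x hx]
      exact af_mem _ (hfQ x hx)
    obtain ⟨P₁, hP₁, -, -⟩ := hm.exists_image le_rfl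
    obtain ⟨k, hk, hk1, hk2⟩ := hm.exists_symm le_rfl hP₁
    have h1 : NM F E p L P₁ k := ih fun y hy => ⟨k y, (hk2 y hy).1, (hk2 y hy).2, rfl⟩
    have h2 : NM F E p L R (af a⁻¹) := nm_af hQL hTC (inv_mem ha) hRQ
    have h3 : ∀ y ∈ R, af a⁻¹ y ∈ P₁ := by
      intro y hy
      obtain ⟨x, hx, h4, -⟩ := hg y hy
      rw [← h4, hf' x hx, af_inv_af _ (hfQ x hx)]
      exact (hP₁ _).2 ⟨x, hx, rfl⟩
    refine (h2.comp h1 h3).congr fun y hy => ?_
    obtain ⟨x, hx, h4, h5⟩ := hg y hy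
    rw [h5, ← h4, hf' x hx, af_inv_af _ (hfQ x hx), hk1 x hx]

/-- The restriction to `P ⊓ T` lies in `E`. -/
theorem NM.mpE (h : NM F E p L P f) : Mp E (P ⊓ T) f := by
  induction h with
  | id hPL hf => exact (mp_id E inf_le_right).congr fun x hx => hf x hx.1
  | step hf hQL hTC ha hfQ hg ih =>
    refine (ih.comp (gN_le_gA ha).2.2 fun x hx => ⟨hfQ x hx.1, hf.mem_inf hx.1 hx.2⟩).congr
      fun x hx => hg x hx.1

/-- Invariance under maps of `F` defined on `L`. -/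
theorem NM.conj [Finite S] (hE : E.IsInvariantIn F) (h : NM F E p L P f) {ψ : Ω → Ω}
    (hψ : Mp F L ψ) (hL' : Im ψ L L') {k : Ω → Ω} (hk : ∀ y ∈ R, ∃ x ∈ P, ψ x = y ∧ k y = ψ (f x)) :
    NM F E p L' R k := by
  have hT : F.StronglyClosed T := hE.2.1
  have hTf : Finite T := H802.finite_of_le hT.1
  induction h generalizing R k with
  | id hPL hf =>
    refine NM.id (fun y hy => ?_) fun y hy => ?_
    · obtain ⟨x, hx, rfl, -⟩ := hk y hy
      exact hL'.apply (hPL hx)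
    · obtain ⟨x, hx, h1, h2⟩ := hk y hy
      rw [h2, hf x hx, h1]
  | @step Q f f' a hf hQL hTC ha hfQ hf' ih =>
    have hPL := hf.le
    -- the inverse of `ψ`
    obtain ⟨χ, hχ, hχψ, hψχ⟩ := hψ.exists_symm le_rfl hL'
    obtain ⟨Q', hQ'⟩ := exists_iso_of_mp (hψ.res hQL)
    obtain ⟨e, he⟩ := exists_eqv hQ'
    have h1 : NM F E p L' R (fun y => ψ (f (χ y))) := ih fun y hy => by
      obtain ⟨x, hx, rfl, -⟩ := hk y hy
      exact ⟨x, hx, rfl, by rw [hχψ x (hPL hx)]⟩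
    refine NM.step h1 (Q := Q') (a := MulAut.congr e a) ?_ (image_tc hT hQ' hTC)
      (he.mem_gN hE hQ' ha) ?_ ?_
    · intro y hy
      obtain ⟨x, hx, rfl⟩ := hQ'.surj hy
      exact hL'.apply (hQL hx)
    · intro y hy
      obtain ⟨x, hx, rfl, -⟩ := hk y hy
      rw [hχψ x (hPL hx)]
      exact hQ'.mem (hfQ x hx)
    · intro y hy
      obtain ⟨x, hx, rfl, h2⟩ := hk y hy
      rw [h2, hχψ x (hPL hx), hf' x hx]
      exact (he.af_congr a (hfQ x hx)).symm

/-- Elements of `P T` when `P ≤ S`. -/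
theorem mem_sup_T (hT : F.StronglyClosed T) (hP : P ≤ S) {y : Ω} :
    y ∈ P ⊔ T ↔ ∃ x ∈ P, Cg T x y := by
  have hn : P ≤ Subgroup.normalizer (T : Set Ω) := hP.trans (H759.StronglyClosed.le_normalizer hT)
  constructor
  · intro hy
    have hy' : y ∈ T ⊔ P := by rwa [sup_comm]
    obtain ⟨t, ht, x, hx, rfl⟩ := (H757.mem_sup_of_normalizes hn).1 hy'
    refine ⟨x, hx, ?_⟩
    have h1 := conj_mem_of_sc hT (inv_mem (hP hx)) ht
    have h2 : x⁻¹ * (t * x) = x⁻¹ * t * x⁻¹⁻¹ := by group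
    show x⁻¹ * (t * x) ∈ T
    rwa [h2]
  · rintro ⟨x, hx, h⟩
    have h1 : y = x * (x⁻¹ * y) := by group
    rw [h1]
    exact mul_mem ((le_sup_left : P ≤ P ⊔ T) hx) ((le_sup_right : T ≤ P ⊔ T) h)

/-- **Layers**: a map in `NM` with source `P` only needs subgroups of `P T`. -/
theorem NM.layer [Finite S] [Fact p.Prime] (hS : IsPGroup p S) (hE : E.IsNormalIn F p)
    (hLS : L ≤ S) (h : NM F E p L P f) : NM F E p (P ⊔ T) P f := by
  have hT : F.StronglyClosed T := hE.1.2.2.2.1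
  induction h with
  | id hPL hf => exact NM.id le_sup_left hf
  | @step Q f f' a hf hQL hTC ha hfQ hf' ih =>
    have hPS : P ≤ S := hf.le.trans hLS
    set Q' := Q ⊓ (P ⊔ T) with hQ'
    have hQQ : Q' ⊓ T = Q ⊓ T := by
      rw [hQ', inf_assoc, inf_eq_right.2 (le_sup_right : T ≤ P ⊔ T)]
    have hTC' : TC F T (Q' ⊓ T) := by rw [hQQ]; exact hTC
    obtain ⟨b, hb, hba⟩ := gN_restrict hS hE (inf_le_left : Q' ≤ Q) (hQL.trans hLS) hTC' ha
      fun x hx => ⟨af_mem _ hx.1, by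
        obtain ⟨y, hy, h1⟩ := (mem_sup_T hT hPS).1 hx.2
        exact (mem_sup_T hT hPS).2 ⟨y, hy, h1.trans (tr_iff.1 (gN_le_gA ha).2.1 x hx.1)⟩⟩
    have hfQ' : ∀ x ∈ P, f x ∈ Q' := fun x hx =>
      ⟨hfQ x hx, (mem_sup_T hT hPS).2 ⟨x, hx, hf.cg x hx⟩⟩
    exact NM.step ih inf_le_right hTC' hb hfQ' fun x hx => by
      rw [hf' x hx, (ex_iff (inf_le_left : Q' ≤ Q)).1 hba _ (hfQ' x hx)]

theorem tc_top [Finite S] (hT : F.StronglyClosed T) : TC F T T := by
  have hTf : Finite T := H802.finite_of_le hT.1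
  exact ⟨le_rfl, fun f hf z hz _ => hf.surj (fun x hx => mp_mem_of_stronglyClosed hT hf hx hx) hz⟩

theorem tc_of_le [Finite S] (hT : F.StronglyClosed T) (h : T ≤ P) : TC F T (P ⊓ T) := by
  rw [inf_eq_right.2 h]
  exact tc_top hT

/-- Conjugations by elements of `T`. -/
theorem nm_conj [Finite S] (hT : F.StronglyClosed T) (hP : P ≤ S) (hPL : P ⊔ T ≤ L)
    {t : Ω} (ht : t ∈ T) : NM F E p L P (fun x => t * x * t⁻¹) := by
  have hQS : P ⊔ T ≤ S := sup_le hP hT.1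
  have htQ : t ∈ P ⊔ T := (le_sup_right : T ≤ P ⊔ T) ht
  obtain ⟨α, hα⟩ := H757.exists_cj (Subgroup.le_normalizer htQ :
    t ∈ Subgroup.normalizer ((P ⊔ T : Subgroup Ω) : Set Ω))
  refine (nm_af hPL (tc_of_le hT le_sup_right)
    (mem_gN_of_tconj (cj_mem_gA hT hQS ht hα) (tconj_of_cj hQS ht hα)) le_sup_left).congr
    fun x hx => (af_cj hα ((le_sup_left : P ≤ P ⊔ T) hx)).symm

/-- The image of `P` under a map in `NM` generates with `T` the same subgroup. -/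
theorem NM.sup_eq (hT : F.StronglyClosed T) (hLS : L ≤ S) (h : NM F E p L P f) (hI : Im f P P') :
    P' ⊔ T = P ⊔ T := by
  have hPS : P ≤ S := h.le.trans hLS
  have hP'S : P' ≤ S := H770.Mp.im_le (h.mp hLS) hI
  apply le_antisymm
  · refine sup_le (fun y hy => ?_) le_sup_right
    obtain ⟨x, hx, rfl⟩ := (hI y).1 hy
    exact (mem_sup_T hT hPS).2 ⟨x, hx, h.cg x hx⟩
  · refine sup_le (fun x hx => ?_) le_sup_right
    exact (mem_sup_T hT hP'S).2 ⟨f x, hI.apply hx, (h.cg x hx).symm⟩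

end Cfsg.Agent.H756
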