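import Cfsg.Agent.H756.DF
import Cfsg.Agent.H756.Alp

/-!
# Extension of maps in `NM`: elements of `gN P`, `P` good (helper756)
-/

set_option autoImplicit false

namespace Cfsg.Agent.H756

open Cfsg Cfsg.FusionSystem Cfsg.Agent.H752
open Cfsg.Agent.H750 (Iso)
open Cfsg.Agent.H757 (Tr Ex Cj)
open Cfsg.Agent.H770 (Im)
open Cfsg.Agent.H802 (SylIn)

variable {Ω : Type*} [Group Ω] {S T L L' P P' Q R N U M : Subgroup Ω} {F : FusionSystem S}
  {E : FusionSystem T} {p : ℕ} {f g : Ω → Ω}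

/-- The elements of `T` inducing on `P` an automorphism in `K`. -/
def MK (T P : Subgroup Ω) (K : Subgroup (MulAut P)) : Subgroup Ω where
  carrier := {t | t ∈ T ∧ ∃ α ∈ K, Cj t α}
  one_mem' := ⟨one_mem _, 1, one_mem _, H757.Cj.one⟩
  mul_mem' := by
    rintro a b ⟨ha, α, hα, h1⟩ ⟨hb, β, hβ, h2⟩
    exact ⟨mul_mem ha hb, α * β, mul_mem hα hβ, h1.mul h2⟩
  inv_mem' := by
    rintro a ⟨ha, α, hα, h1⟩
    exact ⟨inv_mem ha, α⁻¹, inv_mem hα, h1.inv⟩

theorem MK_mono {K K' : Subgroup (MulAut P)} (h : K ≤ K') : MK T P K ≤ MK T P K' := by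
  rintro t ⟨ht, α, hα, h1⟩
  exact ⟨ht, α, h hα, h1⟩

theorem MK_le_T {K : Subgroup (MulAut P)} : MK T P K ≤ T := fun _ h => h.1

theorem MK_le_normalizer {K : Subgroup (MulAut P)} :
    MK T P K ≤ Subgroup.normalizer (P : Set Ω) := by
  rintro t ⟨ht, α, hα, h1⟩
  exact h1.mem_normalizer

/-- `z⁻¹ w ∈ C_T(P) ≤ P ⊓ T` when `w, z ∈ T` act in the same way on `P`. -/
theorem inv_mul_mem_of_cj (hTS : T ≤ S) (hTC : TC F T (P ⊓ T)) {z w : Ω} {α : MulAut P}
    (hz : z ∈ T) (hw : w ∈ T) (h1 : Cj z α) (h2 : Cj w α) : z⁻¹ * w ∈ P ⊓ T := by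
  refine hTC.self hTS (mul_mem (inv_mem hz) hw) fun u hu => ?_
  have h3 := (h1 ⟨u, hu.1⟩).symm.trans (h2 ⟨u, hu.1⟩)
  have h4 : z * u * z⁻¹ = w * u * w⁻¹ := h3
  calc u * (z⁻¹ * w) = z⁻¹ * (z * u * z⁻¹) * w := by group
    _ = z⁻¹ * (w * u * w⁻¹) * w := by rw [h4]
    _ = z⁻¹ * w * u := by group

/-- The conjugate by `a` of conjugation by `m` is conjugation by the image of `m`. -/
theorem cj_conj {f : Ω → Ω} {a α : MulAut P} (hf : Mp F N f) (hPN : P ≤ N)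
    (hfa : ∀ x ∈ P, f x = af a x) {m : Ω} (hm : m ∈ N) (hα : Cj m α) :
    Cj (f m) (a * α * a⁻¹) := by
  refine cj_of_af fun x hx => ?_
  have h1 := af_mem a⁻¹ hx
  rw [af_mul _ _ hx, af_mul _ _ h1, af_cj hα h1]
  have h2 : m * af a⁻¹ x * m⁻¹ ∈ P := by rw [← af_cj hα h1]; exact af_mem _ h1
  rw [← hfa _ h2, hf.mul (mul_mem hm (hPN h1)) (inv_mem hm), hf.mul hm (hPN h1), hf.inv hm,
    hfa _ h1, af_af_inv a hx]

/-- `g` extends to a map in `NM` on `P M_K`. -/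
def DK (F : FusionSystem S) (E : FusionSystem T) (p : ℕ) (P : Subgroup Ω)
    (K : Subgroup (MulAut P)) (a : MulAut P) : Prop :=
  ∃ f : Ω → Ω, NM F E p S (P ⊔ MK T P K) f ∧ ∀ x ∈ P, f x = af a x

theorem mk_sup_le (hT : T ≤ S) (hP : P ≤ S) {K : Subgroup (MulAut P)} : P ⊔ MK T P K ≤ S :=
  sup_le hP (MK_le_T.trans hT)

theorem dk_of_good [Finite S] [Fact p.Prime] (hS : IsPGroup p S) (hE : E.IsNormalIn F p)
    (hg : Good F T P) (hTC : TC F T (P ⊓ T)) :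
    ∀ (K : Subgroup (MulAut P)) (a : MulAut P), K ≤ autInducedBy T P → a ∈ gN F E p P →
      (∀ k ∈ K, a * k * a⁻¹ ∈ autInducedBy T P) → DK F E p P K a := by
  have hInv : E.IsInvariantIn F := hE.1.2.2
  have hT : F.StronglyClosed T := hInv.2.1
  have hTS := hT.1
  obtain ⟨ψ, P'', hψ, hI, hD⟩ := id hg
  have hPS : P ≤ S := le_sup_left.trans hψ.le
  have hPf : Finite P := H802.finite_of_le hPS
  have hPA : Finite (MulAut P) := H750.finite_mulAut
  refine alp_induction (hg.sylow hS hE hTC) (fun K a => DK F E p P K a) ?_ ?_ ?_ ?_ ?_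
  · rintro K K' a hK ⟨f, hf, h1⟩
    exact ⟨f, hf.res (sup_le_sup_left (MK_mono hK) P), h1⟩
  · rintro K K' a b hK hK' ha hb hKK ⟨f, hf, hfa⟩ ⟨g, hg', hgb⟩
    have hPN : P ≤ P ⊔ MK T P K := le_sup_left
    have hfm := hf.mp le_rfl
    have hmap : ∀ x ∈ P ⊔ MK T P K, f x ∈ P ⊔ MK T P K' := by
      refine hfm.mem_sup (fun x hx => ?_) fun m hm => ?_
      · rw [hfa x hx]
        exact (le_sup_left : P ≤ P ⊔ MK T P K') (af_mem a hx)
      · refine (le_sup_right : MK T P K' ≤ P ⊔ MK T P K') ?_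
        have hmN := (le_sup_right : MK T P K ≤ P ⊔ MK T P K) hm
        obtain ⟨hmT, α, hα, hc⟩ := hm
        exact ⟨hf.mem_inf hmN hmT, _, hKK α hα, cj_conj hfm hPN hfa hmN hc⟩
    refine ⟨fun x => g (f x), hf.comp hg' hmap, fun x hx => ?_⟩
    show g (f x) = _
    rw [hfa x hx, hgb _ (af_mem a hx), af_mul _ _ hx]
  · rintro K K' a hK hK' ha hKK ⟨f, hf, hfa⟩
    have hPN : P ≤ P ⊔ MK T P K := le_sup_left
    have hfm := hf.mp le_rfl
    obtain ⟨I, hI'⟩ := hf.exists_image le_rfl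
    obtain ⟨k, hk, hkf, hfk⟩ := hfm.exists_symm le_rfl hI'
    have hkN : NM F E p S I k := hf.symm le_rfl fun y hy => ⟨k y, (hfk y hy).1, (hfk y hy).2, rfl⟩
    have hPI : P ≤ I := fun y hy => (hI' y).2 ⟨af a⁻¹ y, hPN (af_mem _ hy), by
      rw [hfa _ (af_mem _ hy), af_af_inv a hy]⟩
    have hle : P ⊔ MK T P K' ≤ I := by
      refine sup_le hPI ?_
      rintro t ⟨ht, α', hα', hc⟩
      obtain ⟨m, hm, hmc⟩ := H757.exists_cj_of_mem (hK (hKK α' hα'))
      have hmK : m ∈ MK T P K := ⟨hm, _, hKK α' hα', hmc⟩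
      have hmN := (le_sup_right : MK T P K ≤ P ⊔ MK T P K) hmK
      have h1 := cj_conj hfm hPN hfa hmN hmc
      have h2 : a * (a⁻¹ * α' * a) * a⁻¹ = α' := by group
      rw [h2] at h1
      have h3 := inv_mul_mem_of_cj hTS hTC (hf.mem_inf hmN hm) ht h1 hc
      have h4 : t = f m * ((f m)⁻¹ * t) := by group
      rw [h4]
      exact mul_mem (hI'.apply hmN) (hPI h3.1)
    refine ⟨k, hkN.res hle, fun x hx => ?_⟩
    have h1 := hkf _ (hPN (af_mem a⁻¹ hx))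
    rwa [hfa _ (af_mem a⁻¹ hx), af_af_inv a hx] at h1
  · intro K a hK ha hKa hco
    have hPN : P ≤ P ⊔ MK T P K := le_sup_left
    have hMN : MK T P K ≤ P ⊔ MK T P K := le_sup_right
    have haA := gN_le_gA ha
    have ham := mp_af hPS haA.1
    have hNS := mk_sup_le (K := K) hTS hPS
    obtain ⟨b, hb, hbc, hbx⟩ := exists_ext_gA' hS hE (N := P ⊔ MK T P K)
      (hψ.res (sup_le_sup_left MK_le_T P)) hI hD hTC hPN
      (sup_le Subgroup.le_normalizer MK_le_normalizer) haA hco (fun y hy => by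
        obtain ⟨x₀, hx₀, m, hm, rfl⟩ := (H757.mem_sup_of_normalizes MK_le_normalizer).1 hy
        obtain ⟨hmT, α, hα, hc⟩ := id hm
        obtain ⟨m', hm', hc'⟩ := H757.exists_cj_of_mem (hK (hKa α hα))
        have hm'K : m' ∈ MK T P K := ⟨hm', _, hKa α hα, hc'⟩
        refine ⟨af a x₀ * m', mul_mem (hPN (af_mem a hx₀)) (hMN hm'K), ?_, fun x hx => ?_⟩
        · have h1 : Cg T (x₀ * m) x₀ := by
            show (x₀ * m)⁻¹ * x₀ ∈ T
            have h2 : (x₀ * m)⁻¹ * x₀ = m⁻¹ := by group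
            rw [h2]; exact inv_mem hmT
          have h2 : Cg T (af a x₀) (af a x₀ * m') := by
            show (af a x₀)⁻¹ * (af a x₀ * m') ∈ T
            rw [inv_mul_cancel_left]; exact hm'
          exact (h1.trans (tr_iff.1 haA.2.1 x₀ hx₀)).trans h2
        · have hmx : m * x * m⁻¹ ∈ P := by rw [← af_cj hc hx]; exact af_mem _ hx
          have h1 : x₀ * m * x * (x₀ * m)⁻¹ = x₀ * (m * x * m⁻¹) * x₀⁻¹ := by group
          rw [h1, ham.mul (mul_mem hx₀ hmx) (inv_mem hx₀), ham.mul hx₀ hmx, ham.inv hx₀]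
          have h2 : af a (m * x * m⁻¹) = m' * af a x * m'⁻¹ := by
            have h3 := af_cj hc' (af_mem a hx)
            rw [af_mul _ _ (af_mem a hx), af_mul _ _ (af_mem _ (af_mem a hx)), af_inv_af a hx,
              af_cj hc hx] at h3
            exact h3
          rw [h2]; group)
    refine ⟨af b, nm_af hNS (hTC.mono (inf_le_inf_right T hPN) inf_le_right)
      (mem_gN_of_coprime hb hbc) le_rfl, (ex_iff hPN).1 hbx⟩
  · intro v hv
    obtain ⟨t, ht, hc⟩ := H757.exists_cj_of_mem hv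
    have hNS := mk_sup_le (K := autInducedBy T P) hTS hPS
    exact ⟨fun x => t * x * t⁻¹, nm_conj hT hNS (sup_le hNS hTS) ht,
      fun x hx => (af_cj hc hx).symm⟩

end Cfsg.Agent.H756
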