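import Cfsg.Agent.H756.Rec1

/-!
# Extension of maps in `NM` that extend a little (helper756)
-/

set_option autoImplicit false

namespace Cfsg.Agent.H756

open Cfsg Cfsg.FusionSystem Cfsg.Agent.H752
open Cfsg.Agent.H750 (Iso)
open Cfsg.Agent.H757 (Tr Ex Cj)
open Cfsg.Agent.H770 (Im)
open Cfsg.Agent.H802 (SylIn)

variable {Ω : Type*} [Group Ω] {S T L L' P P' Q R N U M : Subgroup Ω} {F : FusionSystem S}
  {E : FusionSystem T} {p : ℕ} {f g : Ω → Ω}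

/-- Extension property of the maps in `NM` with source `P`. -/
def REC (F : FusionSystem S) (E : FusionSystem T) (p : ℕ) (P : Subgroup Ω) : Prop :=
  ∀ (e : Ω → Ω) (M : Subgroup Ω), NM F E p S P e → M ≤ T →
    M ≤ Subgroup.normalizer (P : Set Ω) →
    (∀ m ∈ M, ∃ t ∈ T, ∀ x ∈ P, e (m * x * m⁻¹) = t * e x * t⁻¹) →
    ∃ f : Ω → Ω, NM F E p S (P ⊔ M) f ∧ ∀ x ∈ P, f x = e x

theorem mem_normalizer_sup {A B : Subgroup Ω} {t : Ω} (hA : t ∈ Subgroup.normalizer (A : Set Ω))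
    (hB : t ∈ Subgroup.normalizer (B : Set Ω)) :
    t ∈ Subgroup.normalizer ((A ⊔ B : Subgroup Ω) : Set Ω) := by
  rw [Subgroup.mem_normalizer_iff_map_conj_eq] at hA hB ⊢
  rw [Subgroup.map_sup, hA, hB]

theorem ext_up [Finite S] [Fact p.Prime] (hS : IsPGroup p S) (hE : E.IsNormalIn F p)
    (hTC : TC F T (P ⊓ T)) (hMT : M ≤ T) (hMn : M ≤ Subgroup.normalizer (P : Set Ω))
    (IH : ∀ Q : Subgroup Ω, Q ≤ S → TC F T (Q ⊓ T) → Nat.card P < Nat.card Q → REC F E p Q) :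
    ∀ (n : ℕ) (B : Subgroup Ω) (e : Ω → Ω), Nat.card M - Nat.card B = n → P ⊓ T ≤ B → B ≤ M →
      Nat.card P < Nat.card (P ⊔ B : Subgroup Ω) → NM F E p S (P ⊔ B) e →
      (∀ m ∈ M, ∃ t ∈ T, ∀ x ∈ P, e (m * x * m⁻¹) = t * e x * t⁻¹) →
      ∃ f : Ω → Ω, NM F E p S (P ⊔ M) f ∧ ∀ x ∈ P, f x = e x := by
  have hInv : E.IsInvariantIn F := hE.1.2.2
  have hT : F.StronglyClosed T := hInv.2.1
  have hTS := hT.1
  have hTf : Finite T := H802.finite_of_le hTS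
  have hMf : Finite M := H802.finite_of_le (hMT.trans hTS)
  intro n
  induction n using Nat.strong_induction_on with
  | _ n IHn =>
  intro B e hn hPB hBM hlt he hcond
  by_cases hBeq : B = M
  · subst hBeq
    exact ⟨e, he, fun _ _ => rfl⟩
  set B' := M ⊓ Subgroup.normalizer (B : Set Ω) with hB'
  have hBB' : B ≤ B' := le_inf hBM Subgroup.le_normalizer
  have hB'M : B' ≤ M := inf_le_left
  have hcard : Nat.card B < Nat.card B' := by
    obtain ⟨u, hu, huB, hun⟩ := H757.exists_normalizes_of_not_le (hS.to_le (hMT.trans hTS))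
      (U := M) (V := B) le_rfl hBM (fun r hr u hu => mul_mem (mul_mem hr hu) (inv_mem hr))
      fun h => hBeq (le_antisymm hBM h)
    exact card_lt_of_mem ((hB'M.trans hMT).trans hTS) hBB' ⟨hu, hun⟩ huB
  have hB'c : Nat.card B' ≤ Nat.card M := Subgroup.card_le_of_le hB'M
  set M₁ := P ⊔ B with hM₁
  have hPM₁ : P ≤ M₁ := le_sup_left
  have hBM₁ : B ≤ M₁ := le_sup_right
  have hM₁S : M₁ ≤ S := he.le
  have hM₁n : M₁ ≤ Subgroup.normalizer (P : Set Ω) :=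
    sup_le Subgroup.le_normalizer (hBM.trans hMn)
  have hM₁TC : TC F T (M₁ ⊓ T) := hTC.mono (inf_le_inf_right T hPM₁) inf_le_right
  have hem := he.mp le_rfl
  -- images
  obtain ⟨P₂, hP₂⟩ := exists_iso_of_mp (hem.res hPM₁)
  obtain ⟨M₂, hM₂⟩ := exists_iso_of_mp hem
  obtain ⟨eM, heM⟩ := exists_eqv hM₂
  have hTC₂ : TC F T (P₂ ⊓ T) := image_tc hT hP₂ hTC
  have hP₂M₂ : P₂ ≤ M₂ := fun y hy => by
    obtain ⟨x, hx, rfl⟩ := hP₂.surj hy
    exact hM₂.mem (hPM₁ hx)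
  have hM₂S : M₂ ≤ S := hM₂.le_right
  have hP₂f : Finite P₂ := H802.finite_of_le hP₂.le_right
  have hM₂n : M₂ ≤ Subgroup.normalizer (P₂ : Set Ω) := fun y hy => by
    obtain ⟨x, hx, rfl⟩ := hM₂.surj hy
    exact H770.Mp.mem_normalizer hem hPM₁ (fun y => hP₂.mem_iff) hx (hM₁n hx)
  have hkey : ∀ t ∈ B', ∃ s ∈ T, ∀ y ∈ M₁, e (t * y * t⁻¹) = s * e y * s⁻¹ := by
    intro t ht
    have htT : t ∈ T := hMT (hB'M ht)
    have htP := hMn (hB'M ht)
    have htB : t ∈ Subgroup.normalizer (B : Set Ω) := ht.2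
    have htM₁ := mem_normalizer_sup htP htB
    obtain ⟨t', ht', h1⟩ := hcond t (hB'M ht)
    have htP₂ : ∀ y ∈ P₂, t' * y * t'⁻¹ ∈ P₂ := by
      intro y hy
      obtain ⟨x, hx, rfl⟩ := hP₂.surj hy
      rw [← h1 x hx]
      exact hP₂.mem ((Subgroup.mem_normalizer_iff.1 htP x).1 hx)
    -- `t'` normalizes `M₂`
    have htM₂ : ∀ y ∈ M₂, t' * y * t'⁻¹ ∈ M₂ := by
      intro y hy
      obtain ⟨z, hz, rfl⟩ := hM₂.surj hy
      obtain ⟨x, hx, b, hb, rfl⟩ := (H757.mem_sup_of_normalizes (hBM.trans hMn)).1 hz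
      rw [hem.mul (hPM₁ hx) (hBM₁ hb)]
      have h2 : t' * (e x * e b) * t'⁻¹ = (t' * e x * t'⁻¹) * (t' * e b * t'⁻¹) := by group
      rw [h2]
      refine mul_mem (hP₂M₂ (htP₂ _ (hP₂.mem hx))) ?_
      have htb : t * b * t⁻¹ ∈ B := (Subgroup.mem_normalizer_iff.1 htB b).1 hb
      have hbT : b ∈ T := hMT (hBM hb)
      have h3 : (e (t * b * t⁻¹))⁻¹ * (t' * e b * t'⁻¹) ∈ P₂ ⊓ T := by
        refine hTC₂.self hTS (mul_mem (inv_mem (he.mem_inf (hBM₁ htb) (hMT (hBM htb))))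
          (mul_mem (mul_mem ht' (he.mem_inf (hBM₁ hb) hbT)) (inv_mem ht'))) fun u hu => ?_
        obtain ⟨x', hx', rfl⟩ := hP₂.surj hu.1
        -- both sides act on `e x'` in the same way
        have ht'' : t⁻¹ * x' * t ∈ P := by
          have := (Subgroup.mem_normalizer_iff.1 (inv_mem htP) x').1 hx'
          simpa using this
        have hbx : b * (t⁻¹ * x' * t) * b⁻¹ ∈ P :=
          (Subgroup.mem_normalizer_iff.1 (hMn (hBM hb)) _).1 ht''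
        have h4 : e x' = t' * e (t⁻¹ * x' * t) * t'⁻¹ := by
          rw [← h1 _ ht'']
          congr 1
          group
        have h5 : e b * e (t⁻¹ * x' * t) * (e b)⁻¹ = e (b * (t⁻¹ * x' * t) * b⁻¹) := by
          rw [hem.mul (mul_mem (hBM₁ hb) (hPM₁ ht'')) (inv_mem (hBM₁ hb)),
            hem.mul (hBM₁ hb) (hPM₁ ht''), hem.inv (hBM₁ hb)]
        have h6 : e (t * b * t⁻¹) * e x' * (e (t * b * t⁻¹))⁻¹ =
            e (t * (b * (t⁻¹ * x' * t) * b⁻¹) * t⁻¹) := by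
          rw [← hem.inv (hBM₁ htb), ← hem.mul (hBM₁ htb) (hPM₁ hx'),
            ← hem.mul (mul_mem (hBM₁ htb) (hPM₁ hx')) (inv_mem (hBM₁ htb))]
          congr 1
          group
        have h7 : (t' * e b * t'⁻¹) * e x' * (t' * e b * t'⁻¹)⁻¹ =
            e (t * b * t⁻¹) * e x' * (e (t * b * t⁻¹))⁻¹ := by
          rw [h6, h1 _ hbx, ← h5]
          conv_lhs => rw [h4]
          group
        generalize e (t * b * t⁻¹) = r at h7 ⊢
        generalize t' * e b * t'⁻¹ = s at h7 ⊢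
        calc e x' * (r⁻¹ * s) = r⁻¹ * (r * e x' * r⁻¹) * s := by group
          _ = r⁻¹ * (s * e x' * s⁻¹) * s := by rw [h7]
          _ = r⁻¹ * s * e x' := by group
      have h8 : t' * e b * t'⁻¹ = e (t * b * t⁻¹) * ((e (t * b * t⁻¹))⁻¹ * (t' * e b * t'⁻¹)) := by
        group
      rw [h8]
      exact mul_mem (hM₂.mem (hBM₁ htb)) (hP₂M₂ h3.1)
    obtain ⟨τ, hτ⟩ := H757.exists_cj htM₁
    obtain ⟨σ, hσ⟩ := H757.exists_cj (H802.mem_normalizer_of_conj_mem hM₂S htM₂)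
    have hτN : τ ∈ gN F E p M₁ :=
      mem_gN_of_tconj (cj_mem_gA hT hM₁S htT hτ) (tconj_of_cj hM₁S htT hτ)
    have hσN : σ ∈ gN F E p M₂ :=
      mem_gN_of_tconj (cj_mem_gA hT hM₂S ht' hσ) (tconj_of_cj hM₂S ht' hσ)
    have hτ₂ := heM.mem_gN hInv hM₂ hτN
    obtain ⟨z, hz, hρ⟩ := exists_cj_of_fix hS hE hP₂M₂ hM₂S hM₂n hTC₂
      (mul_mem (inv_mem hσN) hτ₂) fun y hy => by
        obtain ⟨x, hx, rfl⟩ := hP₂.surj hy
        rw [af_mul _ _ (hP₂M₂ hy), heM.af_congr τ (hPM₁ hx), af_cj hτ (hPM₁ hx), h1 x hx]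
        have h9 : af σ (e x) = t' * e x * t'⁻¹ := af_cj hσ (hP₂M₂ hy)
        rw [← h9, af_inv_af σ (hP₂M₂ hy)]
    refine ⟨t' * z, mul_mem ht' hz.2, fun y hy => ?_⟩
    have h10 : Cj (t' * z) (σ * (σ⁻¹ * MulAut.congr eM τ)) := hσ.mul hρ
    rw [mul_inv_cancel_left] at h10
    rw [← af_cj h10 (hM₂.mem hy), heM.af_congr τ hy, af_cj hτ hy]
  obtain ⟨f, hf, hfe⟩ := IH M₁ hM₁S hM₁TC hlt e B' he (hB'M.trans hMT)
    (fun t ht => mem_normalizer_sup (hMn (hB'M ht)) ht.2) hkey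
  have hsup : M₁ ⊔ B' = P ⊔ B' := by
    rw [hM₁, sup_assoc, sup_eq_right.2 hBB']
  rw [hsup] at hf
  obtain ⟨k, hk, hkf⟩ := IHn (Nat.card M - Nat.card B') (by omega) B' f rfl (hPB.trans hBB') hB'M
    (hlt.trans_le (by
      have : Finite (P ⊔ B' : Subgroup Ω) := H802.finite_of_le hf.le
      exact Subgroup.card_le_of_le (sup_le_sup_left hBB' P))) hf (fun m hm => by
      obtain ⟨t, ht, h1⟩ := hcond m hm
      refine ⟨t, ht, fun x hx => ?_⟩
      rw [hfe x (hPM₁ hx), hfe _ (hPM₁ ((Subgroup.mem_normalizer_iff.1 (hMn hm) x).1 hx)), h1 x hx])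
  exact ⟨k, hk, fun x hx => by rw [hkf x hx, hfe x (hPM₁ hx)]⟩

end Cfsg.Agent.H756
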