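import Cfsg.Agent.H756.Rec2

/-!
# Extension of maps in `NM` (helper756)
-/

set_option autoImplicit false

namespace Cfsg.Agent.H756

open Cfsg Cfsg.FusionSystem Cfsg.Agent.H752
open Cfsg.Agent.H750 (Iso)
open Cfsg.Agent.H757 (Tr Ex Cj)
open Cfsg.Agent.H770 (Im)
open Cfsg.Agent.H802 (SylIn)

variable {Ω : Type*} [Group Ω] {S T L L' P P' P₁ P₂ P₀ Q R N U M B : Subgroup Ω}
  {F : FusionSystem S} {E : FusionSystem T} {p : ℕ} {f g e : Ω → Ω}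

theorem Eqv.cj {f : Ω → Ω} (hf : Mp F N f) (hPN : P ≤ N) {e : P ≃* P'} (he : Eqv f e) {m : Ω}
    (hm : m ∈ N) {α : MulAut P} (hα : Cj m α) : Cj (f m) (MulAut.congr e α) := by
  refine cj_of_af fun y hy => ?_
  obtain ⟨x, hx, rfl⟩ := he.surj hy
  have h2 : m * x * m⁻¹ ∈ P := by rw [← af_cj hα hx]; exact af_mem _ hx
  rw [he.af_congr α hx, af_cj hα hx, hf.mul (mul_mem hm (hPN hx)) (inv_mem hm),
    hf.mul hm (hPN hx), hf.inv hm]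

theorem cj_of_mem_NT (h : M ≤ normalizerIn T P) {m : Ω} (hm : m ∈ M) :
    ∃ α ∈ autInducedBy T P, Cj m α := by
  obtain ⟨α, hα⟩ := H757.exists_cj (h hm).2
  exact ⟨α, hα.mem (h hm).1, hα⟩

/-- An NM-isomorphism between good subgroups that extends a little is an element of `gN` followed by a map defined on
`P N_T(P)`. -/
theorem step2 [Finite S] [Fact p.Prime] (hS : IsPGroup p S) (hE : E.IsNormalIn F p)
    (hg₂ : Good F T P₂) (hTC : TC F T (P₁ ⊓ T))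
    (IH : ∀ Q : Subgroup Ω, Q ≤ S → TC F T (Q ⊓ T) → Nat.card P₁ < Nat.card Q → REC F E p Q)
    (hPB : P₁ ⊓ T ≤ B) (hB : B ≤ normalizerIn T P₁)
    (hlt : Nat.card P₁ < Nat.card (P₁ ⊔ B : Subgroup Ω))
    (he : NM F E p S (P₁ ⊔ B) e) (hI : Im e P₁ P₂) :
    ∃ a ∈ gN F E p P₁, ∃ f, NM F E p S (P₁ ⊔ normalizerIn T P₁) f ∧
      ∀ x ∈ P₁, e x = f (af a x) := by
  have hInv : E.IsInvariantIn F := hE.1.2.2
  have hT : F.StronglyClosed T := hInv.2.1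
  have hTS := hT.1
  have hTf : Finite T := H802.finite_of_le hTS
  have hPM : P₁ ≤ P₁ ⊔ B := le_sup_left
  have hBM : B ≤ P₁ ⊔ B := le_sup_right
  have hP₁S : P₁ ≤ S := hPM.trans he.le
  have hem := he.mp le_rfl
  have hiso : Iso F P₁ P₂ e := iso_of_mp (hem.res hPM) hI
  have hP₂S : P₂ ≤ S := hiso.le_right
  have hP₂f : Finite P₂ := H802.finite_of_le hP₂S
  have hPA₂ : Finite (MulAut P₂) := H750.finite_mulAut
  have hTC₂ : TC F T (P₂ ⊓ T) := image_tc hT hiso hTC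
  obtain ⟨e₁, he₁⟩ := exists_eqv hiso
  have hSyl₂ := hg₂.sylow hS hE hTC₂
  set W := (autInducedBy T P₁).map (MulAut.congr e₁).toMonoidHom with hW
  have hWN : W ≤ gN F E p P₂ := by
    rintro _ ⟨v, hv, rfl⟩
    exact he₁.mem_gN hInv hiso (autInducedBy_le_gN hT hP₁S hv)
  obtain ⟨g, hg, hgW⟩ := hSyl₂.exists_conj hWN
    ((H802.isPGroup_autInducedBy (hS.to_le hTS) P₁).map _)
  obtain ⟨k, hk, hkg⟩ := dk_of_good hS hE hg₂ hTC₂ (W ⊓ autInducedBy T P₂) g inf_le_right hg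
    fun w hw => hgW w hw.1
  have hP₂N : P₂ ≤ P₂ ⊔ MK T P₂ (W ⊓ autInducedBy T P₂) := le_sup_left
  have hmap : ∀ x ∈ P₁ ⊔ B, e x ∈ P₂ ⊔ MK T P₂ (W ⊓ autInducedBy T P₂) := by
    refine hem.mem_sup (fun x hx => hP₂N (hI.apply hx)) fun b hb => ?_
    obtain ⟨β, hβ, hc⟩ := cj_of_mem_NT hB hb
    have hbT := he.mem_inf (hBM hb) (hB hb).1
    have hc' := he₁.cj hem hPM (hBM hb) hc
    exact (le_sup_right : MK T P₂ _ ≤ P₂ ⊔ MK T P₂ _) ⟨hbT, _, ⟨⟨β, hβ, rfl⟩, hc'.mem hbT⟩, hc'⟩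
  have he' : NM F E p S (P₁ ⊔ B) (fun x => k (e x)) := he.comp hk hmap
  obtain ⟨f, hf, hfe⟩ := ext_up hS hE hTC (M := normalizerIn T P₁) inf_le_left inf_le_right IH _ B
    _ rfl hPB hB hlt he' (fun m hm => by
      obtain ⟨α, hα, hc⟩ := cj_of_mem_NT le_rfl hm
      obtain ⟨t, ht, hct⟩ := H757.exists_cj_of_mem (hgW _ ⟨α, hα, rfl⟩)
      refine ⟨t, ht, fun x hx => ?_⟩
      have hmx : m * x * m⁻¹ ∈ P₁ := by rw [← af_cj hc hx]; exact af_mem _ hx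
      show k (e (m * x * m⁻¹)) = t * k (e x) * t⁻¹
      have h1 := af_cj hct (af_mem g (hI.apply hx))
      rw [af_mul _ _ (af_mem g (hI.apply hx)), af_mul _ _ (af_mem _ (af_mem g (hI.apply hx))),
        af_inv_af g (hI.apply hx)] at h1
      have h2 : af ((MulAut.congr e₁).toMonoidHom α) (e x) = e (m * x * m⁻¹) := by
        rw [← af_cj hc hx]; exact he₁.af_congr α hx
      rw [h2] at h1
      rw [hkg _ (hI.apply hmx), hkg _ (hI.apply hx), h1])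
  have hPN : P₁ ≤ P₁ ⊔ normalizerIn T P₁ := le_sup_left
  have hfI : Im f P₁ P₂ := by
    intro y
    constructor
    · intro hy
      have h1 := af_mem g⁻¹ hy
      obtain ⟨x, hx, hxy⟩ := (hI _).1 h1
      refine ⟨x, hx, ?_⟩
      rw [hfe x hx, hxy, hkg _ h1, af_af_inv g hy]
    · rintro ⟨x, hx, rfl⟩
      rw [hfe x hx, hkg _ (hI.apply hx)]
      exact af_mem g (hI.apply hx)
  have hfiso : Iso F P₁ P₂ f := iso_of_mp ((hf.mp le_rfl).res hPN) hfI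
  obtain ⟨f₁, hf₁⟩ := exists_eqv hfiso
  obtain ⟨h, hh, hhe, -, -⟩ := eqv_symm hfiso hf₁
  refine ⟨MulAut.congr f₁.symm g⁻¹, hhe.mem_gN hInv hh (inv_mem hg), f, hf, fun x hx => ?_⟩
  rw [← hf₁.af_congr _ hx, congr_congr_symm, hfe x hx, hkg _ (hI.apply hx),
    af_inv_af g (hI.apply hx)]

/-- `P'` is a good subgroup reached from `P` by a map in `NM` defined on `P N_T(P)`. -/
def GApp (F : FusionSystem S) (E : FusionSystem T) (p : ℕ) (P : Subgroup Ω) (χ : Ω → Ω)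
    (P' : Subgroup Ω) : Prop :=
  NM F E p S (P ⊔ normalizerIn T P) χ ∧ Im χ P P' ∧ Good F T P'

theorem exists_gapp [Finite S] [Fact p.Prime] (hS : IsPGroup p S) (hE : E.IsNormalIn F p)
    (hP : P ≤ S) : ∃ χ P', GApp F E p P χ P' := by
  have hT : F.StronglyClosed T := hE.1.2.2.2.1
  obtain ⟨d, P', N', ψ, P'', hd, hP', hN', hψ, hI, hD⟩ := exists_good hS hE hP
  have hPN : P ≤ normalizerIn S P := H802.le_normalizerIn hP
  have hle : P ⊔ normalizerIn T P ≤ normalizerIn S P :=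
    sup_le hPN (inf_le_inf_right _ hT.1)
  refine ⟨d, P', hd.res hle, hP', ψ, P'', hψ.res (sup_le_sup_right ?_ T), hI, hD⟩
  intro y hy
  obtain ⟨x, hx, rfl⟩ := (hP' y).1 hy
  exact hN'.apply (hPN hx)

/-- The maps in `NM` between good subgroups. -/
def Phi (F : FusionSystem S) (E : FusionSystem T) (p : ℕ) (P₀ P₁ : Subgroup Ω) (e : Ω → Ω) : Prop :=
  ∀ (χ₀ : Ω → Ω) (P₀' : Subgroup Ω) (χ₁ : Ω → Ω) (P₁' : Subgroup Ω),
    GApp F E p P₀ χ₀ P₀' → GApp F E p P₁ χ₁ P₁' →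
    ∃ a ∈ gN F E p P₀', ∃ f, NM F E p S (P₀' ⊔ normalizerIn T P₀') f ∧
      ∀ x ∈ P₀, χ₁ (e x) = f (af a (χ₀ x))

theorem Phi.congr (h : Phi F E p P₀ P₁ e) (he : ∀ x ∈ P₀, g x = e x) : Phi F E p P₀ P₁ g := by
  intro χ₀ P₀' χ₁ P₁' h₀ h₁
  obtain ⟨a, ha, f, hf, h2⟩ := h χ₀ P₀' χ₁ P₁' h₀ h₁
  exact ⟨a, ha, f, hf, fun x hx => by rw [he x hx, h2 x hx]⟩

/-- A map on `P N_T(P)` in `NM` carries it into `P' N_T(P')`. -/
theorem nm_maps_NT [Finite S] (hf : NM F E p S M f) (hPM : P ≤ M) (hI : Im f P P') (hMP : ∀ x ∈ M, ∃ y ∈ P, ∃ t ∈ M ⊓ normalizerIn T P, y * t = x) :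
    ∀ x ∈ M, f x ∈ P' ⊔ normalizerIn T P' := by
  intro x hx
  obtain ⟨y, hy, t, ht, rfl⟩ := hMP x hx
  have hfm := hf.mp le_rfl
  rw [hfm.mul (hPM hy) ht.1]
  refine mul_mem ((le_sup_left : P' ≤ _) (hI.apply hy))
    ((le_sup_right : normalizerIn T P' ≤ _) ⟨hf.mem_inf ht.1 ht.2.1, ?_⟩)
  exact H770.Mp.mem_normalizer hfm hPM hI ht.1 ht.2.2

theorem sup_NT_decomp (hB : B ≤ normalizerIn T P) : ∀ x ∈ P ⊔ B, ∃ y ∈ P,
    ∃ t ∈ (P ⊔ B) ⊓ normalizerIn T P, y * t = x := by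
  intro x hx
  obtain ⟨y, hy, t, ht, h⟩ := (H757.mem_sup_of_normalizes (V := P) (W := B)
    (hB.trans inf_le_right)).1 hx
  exact ⟨y, hy, t, ⟨(le_sup_right : B ≤ P ⊔ B) ht, hB ht⟩, h⟩

/-- The single step. -/
theorem phi_single [Finite S] [Fact p.Prime] (hS : IsPGroup p S) (hE : E.IsNormalIn F p)
    (hTC : TC F T (P₀ ⊓ T))
    (IH : ∀ Q : Subgroup Ω, Q ≤ S → TC F T (Q ⊓ T) → Nat.card P₀ < Nat.card Q → REC F E p Q)
    (hPB : P₀ ⊓ T ≤ B) (hB : B ≤ normalizerIn T P₀)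
    (hlt : Nat.card P₀ < Nat.card (P₀ ⊔ B : Subgroup Ω))
    (he : NM F E p S (P₀ ⊔ B) e) (hI : Im e P₀ P₁) : Phi F E p P₀ P₁ e := by
  intro χ₀ P₀' χ₁ P₁' h₀ h₁
  have hT : F.StronglyClosed T := hE.1.2.2.2.1
  obtain ⟨hχ₀, hI₀, hg₀⟩ := h₀
  obtain ⟨hχ₁, hI₁, hg₁⟩ := h₁
  have hPM : P₀ ≤ P₀ ⊔ B := le_sup_left
  have hBM : B ≤ P₀ ⊔ B := le_sup_right
  have hMN : P₀ ⊔ B ≤ P₀ ⊔ normalizerIn T P₀ := sup_le_sup_left hB P₀
  have hχm := hχ₀.mp le_rfl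
  have hχM := hχ₀.res hMN
  -- the inverse of `χ₀` on the image of `P₀ B`
  obtain ⟨I, hII⟩ := hχM.exists_image le_rfl
  obtain ⟨κ, hκ, hκχ, hχκ⟩ := (hχM.mp le_rfl).exists_symm le_rfl hII
  have hκN : NM F E p S I κ := hχM.symm le_rfl fun y hy => ⟨κ y, (hχκ y hy).1, (hχκ y hy).2, rfl⟩
  obtain ⟨B', hB'⟩ := (hχM.res hBM).exists_image le_rfl
  have hP₀'I : P₀' ≤ I := fun y hy => by
    obtain ⟨x, hx, rfl⟩ := (hI₀ y).1 hy
    exact hII.apply (hPM hx)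
  have hB'I : B' ≤ I := fun y hy => by
    obtain ⟨x, hx, rfl⟩ := (hB' y).1 hy
    exact hII.apply (hBM hx)
  have hsup : P₀' ⊔ B' = I := by
    apply le_antisymm (sup_le hP₀'I hB'I)
    intro y hy
    obtain ⟨x, hx, rfl⟩ := (hII y).1 hy
    obtain ⟨z, hz, t, ht, rfl⟩ := (H757.mem_sup_of_normalizes (hB.trans inf_le_right)).1 hx
    rw [hχm.mul (hMN (hPM hz)) (hMN (hBM ht))]
    exact mul_mem ((le_sup_left : P₀' ≤ _) (hI₀.apply hz))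
      ((le_sup_right : B' ≤ _) (hB'.apply ht))
  have hIs : Iso F P₀ P₀' χ₀ := iso_of_mp (hχm.res (hMN.trans' hPM)) hI₀
  have hTC' : TC F T (P₀' ⊓ T) := image_tc hT hIs hTC
  have hem := he.mp le_rfl
  have hmap : ∀ x ∈ P₀ ⊔ B, e x ∈ P₁ ⊔ normalizerIn T P₁ :=
    nm_maps_NT he hPM hI (sup_NT_decomp hB)
  have he' : NM F E p S (P₀' ⊔ B') (fun y => χ₁ (e (κ y))) := by
    rw [hsup]
    exact (hκN.comp he fun y hy => (hχκ y hy).1).comp hχ₁ fun y hy => hmap _ (hχκ y hy).1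
  obtain ⟨a, ha, f, hf, h1⟩ := step2 hS hE hg₁ hTC' (fun Q hQ hQT hlt' =>
      IH Q hQ hQT (by rw [hIs.card_eq]; exact hlt')) (B := B') (e := fun y => χ₁ (e (κ y)))
    (fun y hy => by
      obtain ⟨x, hx, rfl⟩ := (iso_inf hT hIs).surj hy
      exact hB'.apply (hPB hx))
    (fun y hy => by
      obtain ⟨x, hx, rfl⟩ := (hB' y).1 hy
      exact ⟨hχ₀.mem_inf (hMN (hBM hx)) (hB hx).1,
        H770.Mp.mem_normalizer hχm (hMN.trans' hPM) hI₀ (hMN (hBM hx)) (hB hx).2⟩)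
    (by
      rw [hsup, H770.Mp.im_card (hχM.mp le_rfl) hII, ← hIs.card_eq]
      exact hlt) he' (by
      intro y
      rw [hI₁ y]
      constructor
      · rintro ⟨z, hz, rfl⟩
        obtain ⟨x, hx, rfl⟩ := (hI z).1 hz
        exact ⟨χ₀ x, hI₀.apply hx, by show χ₁ (e (κ (χ₀ x))) = _; rw [hκχ x (hPM hx)]⟩
      · rintro ⟨z, hz, rfl⟩
        obtain ⟨x, hx, rfl⟩ := (hI₀ z).1 hz
        exact ⟨e x, hI.apply hx, by show _ = χ₁ (e (κ (χ₀ x))); rw [hκχ x (hPM hx)]⟩)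
  refine ⟨a, ha, f, hf, fun x hx => ?_⟩
  rw [← h1 _ (hI₀.apply hx), hκχ x (hPM hx)]

theorem Phi.comp [Finite S] [Fact p.Prime] (hS : IsPGroup p S) (hE : E.IsNormalIn F p)
    (hP₁ : P₁ ≤ S) {e' : Ω → Ω} (he : Phi F E p P₀ P₁ e) (he' : Phi F E p P₁ P₂ e')
    (hI : Im e P₀ P₁) : Phi F E p P₀ P₂ (fun x => e' (e x)) := by
  intro χ₀ P₀' χ₂ P₂' h₀ h₂
  have hInv : E.IsInvariantIn F := hE.1.2.2
  have hT : F.StronglyClosed T := hInv.2.1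
  have hTf : Finite T := H802.finite_of_le hT.1
  obtain ⟨χ₁, P₁', h₁⟩ := exists_gapp hS hE hP₁
  obtain ⟨a, ha, f, hf, h3⟩ := he χ₀ P₀' χ₁ P₁' h₀ h₁
  obtain ⟨a', ha', f', hf', h4⟩ := he' χ₁ P₁' χ₂ P₂' h₁ h₂
  have hfm := hf.mp le_rfl
  have hPN : P₀' ≤ P₀' ⊔ normalizerIn T P₀' := le_sup_left
  have hfI : Im f P₀' P₁' := by
    intro y
    constructor
    · intro hy
      obtain ⟨z, hz, rfl⟩ := (h₁.2.1 y).1 hy
      obtain ⟨x, hx, rfl⟩ := (hI z).1 hz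
      exact ⟨_, af_mem a (h₀.2.1.apply hx), (h3 x hx).symm⟩
    · rintro ⟨z, hz, rfl⟩
      obtain ⟨x, hx, hxz⟩ := (h₀.2.1 _).1 (af_mem a⁻¹ hz)
      have h5 := h3 x hx
      rw [hxz, af_af_inv a hz] at h5
      rw [← h5]
      exact h₁.2.1.apply (hI.apply hx)
  have hfiso : Iso F P₀' P₁' f := iso_of_mp (hfm.res hPN) hfI
  obtain ⟨f₁, hf₁⟩ := exists_eqv hfiso
  obtain ⟨h, hh, hhe, -, -⟩ := eqv_symm hfiso hf₁
  refine ⟨MulAut.congr f₁.symm a' * a, mul_mem (hhe.mem_gN hInv hh ha') ha, fun x => f' (f x),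
    hf.comp hf' (nm_maps_NT hf hPN hfI (sup_NT_decomp le_rfl)), fun x hx => ?_⟩
  have hx' := h₀.2.1.apply hx
  have h6 := hf₁.af_congr (MulAut.congr f₁.symm a') (af_mem a hx')
  rw [congr_congr_symm] at h6
  rw [h4 _ (hI.apply hx), h3 x hx, af_mul _ _ hx', h6]

end Cfsg.Agent.H756
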