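import Cfsg.Agent.H756.Rec3

/-!
# The extension theorem for maps in `NM` (helper756)
-/

set_option autoImplicit false

namespace Cfsg.Agent.H756

open Cfsg Cfsg.FusionSystem Cfsg.Agent.H752
open Cfsg.Agent.H750 (Iso)
open Cfsg.Agent.H757 (Tr Ex Cj)
open Cfsg.Agent.H770 (Im)
open Cfsg.Agent.H802 (SylIn)

variable {Ω : Type*} [Group Ω] {S T L L' P P' P₁ P₂ P₀ Q R N U M B : Subgroup Ω}
  {F : FusionSystem S} {E : FusionSystem T} {p : ℕ} {f g e : Ω → Ω}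

theorem card_lt_NT [Finite S] [Fact p.Prime] (hS : IsPGroup p S) (hPQ : P ≤ Q) (hQS : Q ≤ S)
    (hQT : Q ≤ P ⊔ T) (hTn : P ≤ Subgroup.normalizer (T : Set Ω)) (hne : ¬ Q ≤ P) :
    Nat.card P < Nat.card (P ⊔ (Q ⊓ normalizerIn T P) : Subgroup Ω) := by
  have hQf : Finite Q := H802.finite_of_le hQS
  obtain ⟨u, hu, huP, hun⟩ := H757.exists_normalizes_of_not_le (hS.to_le hQS)
    (U := Q) (V := P) le_rfl hPQ (fun r hr u hu => mul_mem (mul_mem hr hu) (inv_mem hr)) hne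
  have huT : u ∈ T ⊔ P := by rw [sup_comm]; exact hQT hu
  obtain ⟨t, ht, x, hx, rfl⟩ := (H757.mem_sup_of_normalizes hTn).1 huT
  have htn : t ∈ Subgroup.normalizer (P : Set Ω) := by
    have := mul_mem hun (inv_mem (Subgroup.le_normalizer hx))
    rwa [mul_inv_cancel_right] at this
  have htQ : t ∈ Q := by
    have := mul_mem hu (inv_mem (hPQ hx))
    rwa [mul_inv_cancel_right] at this
  have hle : P ⊔ (Q ⊓ normalizerIn T P) ≤ S := (sup_le hPQ inf_le_left).trans hQS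
  exact card_lt_of_mem hle le_sup_left
    ((le_sup_right : Q ⊓ normalizerIn T P ≤ P ⊔ (Q ⊓ normalizerIn T P)) ⟨htQ, ht, htn⟩)
    fun h => huP (mul_mem h hx)

theorem phi_id [Finite S] [Fact p.Prime] (hS : IsPGroup p S) (hE : E.IsNormalIn F p)
    (hP : P₀ ≤ S) (hTC : TC F T (P₀ ⊓ T)) (hTP : ¬ T ≤ P₀)
    (IH : ∀ Q : Subgroup Ω, Q ≤ S → TC F T (Q ⊓ T) → Nat.card P₀ < Nat.card Q → REC F E p Q) :
    Phi F E p P₀ P₀ (fun x => x) := by
  have hT : F.StronglyClosed T := hE.1.2.2.2.1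
  have hQS : P₀ ⊔ T ≤ S := sup_le hP hT.1
  refine phi_single hS hE hTC IH (B := (P₀ ⊔ T) ⊓ normalizerIn T P₀)
    (fun x hx => ⟨(le_sup_left : P₀ ≤ P₀ ⊔ T) hx.1, hx.2, Subgroup.le_normalizer hx.1⟩)
    inf_le_right (card_lt_NT hS le_sup_left hQS le_rfl
      (hP.trans (H759.StronglyClosed.le_normalizer hT)) fun h => hTP (le_sup_right.trans h))
    (NM.id (sup_le hP (inf_le_left.trans hQS)) fun _ _ => rfl) fun y => ⟨fun hy => ⟨y, hy, rfl⟩, ?_⟩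
  rintro ⟨x, hx, rfl⟩
  exact hx

theorem phi_of_nm [Finite S] [Fact p.Prime] (hS : IsPGroup p S) (hE : E.IsNormalIn F p)
    (hP : P₀ ≤ S) (hTC : TC F T (P₀ ⊓ T)) (hTP : ¬ T ≤ P₀)
    (IH : ∀ Q : Subgroup Ω, Q ≤ S → TC F T (Q ⊓ T) → Nat.card P₀ < Nat.card Q → REC F E p Q)
    (he : NM F E p (P₀ ⊔ T) P₀ e) : ∀ P₁ : Subgroup Ω, Im e P₀ P₁ → Phi F E p P₀ P₁ e := by
  have hInv : E.IsInvariantIn F := hE.1.2.2
  have hT : F.StronglyClosed T := hInv.2.1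
  have hTf : Finite T := H802.finite_of_le hT.1
  have hLS : P₀ ⊔ T ≤ S := sup_le hP hT.1
  generalize hL : P₀ ⊔ T = L at he hLS
  induction he with
  | @id f hPL hf =>
    intro P₁ hI
    have h1 : P₁ = P₀ := by
      ext y
      rw [hI y]
      constructor
      · rintro ⟨x, hx, rfl⟩; rwa [hf x hx]
      · intro hy; exact ⟨y, hy, hf y hy⟩
    subst h1
    exact (phi_id hS hE hP hTC hTP IH).congr fun x hx => hf x hx
  | @step Q f g a hf hQL hTCQ ha hfQ hg ih =>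
    intro P₂ hI₂
    obtain ⟨P₁, hI₁⟩ := hf.exists_image hLS
    have hfm := hf.mp hLS
    have hP₁S : P₁ ≤ S := H770.Mp.im_le hfm hI₁
    have hiso : Iso F P₀ P₁ f := iso_of_mp hfm hI₁
    have hP₁Q : P₁ ≤ Q := fun y hy => by
      obtain ⟨x, hx, rfl⟩ := (hI₁ y).1 hy
      exact hfQ x hx
    have hTC₁ : TC F T (P₁ ⊓ T) := image_tc hT hiso hTC
    have hsup : P₁ ⊔ T = P₀ ⊔ T := hf.sup_eq hT hLS hI₁
    have hcard : Nat.card P₁ = Nat.card P₀ := hiso.card_eq.symm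
    have hTP₁ : ¬ T ≤ P₁ := by
      intro h
      have h1 : P₁ = P₀ ⊔ T := by rw [← hsup]; exact (sup_eq_left.2 h).symm
      have hf' : Finite (P₀ ⊔ T : Subgroup Ω) := H802.finite_of_le (hL ▸ hLS)
      have h2 : P₀ = P₀ ⊔ T := Subgroup.eq_of_le_of_card_ge le_sup_left (by rw [← h1, hcard])
      exact hTP (by rw [h2]; exact le_sup_right)
    have IH₁ : ∀ Q : Subgroup Ω, Q ≤ S → TC F T (Q ⊓ T) → Nat.card P₁ < Nat.card Q →
        REC F E p Q := fun Q h1 h2 h3 => IH Q h1 h2 (by rwa [hcard] at h3)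
    have hI₁₂ : Im (af a) P₁ P₂ := by
      intro y
      rw [hI₂ y]
      constructor
      · rintro ⟨x, hx, rfl⟩
        exact ⟨f x, hI₁.apply hx, (hg x hx).symm⟩
      · rintro ⟨z, hz, rfl⟩
        obtain ⟨x, hx, rfl⟩ := (hI₁ z).1 hz
        exact ⟨x, hx, hg x hx⟩
    suffices h : Phi F E p P₁ P₂ (af a) from
      (Phi.comp hS hE hP₁S (ih P₁ hI₁) h hI₁).congr fun x hx => hg x hx
    by_cases hQP : Q ≤ P₁
    · have h1 : Q = P₁ := le_antisymm hQP hP₁Q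
      subst h1
      have h2 : P₂ = Q := by
        ext y
        rw [hI₁₂ y]
        constructor
        · rintro ⟨x, hx, rfl⟩; exact af_mem _ hx
        · intro hy; exact ⟨_, af_mem a⁻¹ hy, af_af_inv a hy⟩
      subst h2
      intro χ₀ P₀' χ₁ P₁' h₀ h₁
      obtain ⟨b, hb, k, hk, hbk⟩ := phi_id hS hE hP₁S hTC₁ hTP₁ IH₁ χ₀ P₀' χ₁ P₁' h₀ h₁
      have hχ : Iso F P₂ P₀' χ₀ := iso_of_mp ((h₀.1.mp le_rfl).res le_sup_left) h₀.2.1
      obtain ⟨ε, hε⟩ := exists_eqv hχ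
      refine ⟨b * MulAut.congr ε a, mul_mem hb (hε.mem_gN hInv hχ ha), k, hk, fun x hx => ?_⟩
      rw [hbk _ (af_mem a hx), af_mul _ _ (h₀.2.1.apply hx), hε.af_congr a hx]
    · have hQS : Q ≤ S := hQL.trans hLS
      have hB1 : P₁ ⊔ (Q ⊓ normalizerIn T P₁) ≤ Q := sup_le hP₁Q inf_le_left
      exact phi_single hS hE hTC₁ IH₁ (B := Q ⊓ normalizerIn T P₁)
        (fun x hx => ⟨hP₁Q hx.1, hx.2, Subgroup.le_normalizer hx.1⟩) inf_le_right
        (card_lt_NT hS hP₁Q hQS (by rw [hsup, hL]; exact hQL)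
          (hP₁S.trans (H759.StronglyClosed.le_normalizer hT)) hQP)
        (nm_af hQS hTCQ ha hB1) hI₁₂

/-- **The extension theorem.** -/
theorem rec_all [Finite S] [Fact p.Prime] (hS : IsPGroup p S) (hE : E.IsNormalIn F p) :
    ∀ (n : ℕ) (P : Subgroup Ω), Nat.card S - Nat.card P = n → P ≤ S → TC F T (P ⊓ T) →
      REC F E p P := by
  have hInv : E.IsInvariantIn F := hE.1.2.2
  have hT : F.StronglyClosed T := hInv.2.1
  have hTS := hT.1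
  have hTf : Finite T := H802.finite_of_le hTS
  intro n
  induction n using Nat.strong_induction_on with
  | _ n IHn =>
  intro P hn hPS hTC e M he hMT hMn hcond
  have IH : ∀ Q : Subgroup Ω, Q ≤ S → TC F T (Q ⊓ T) → Nat.card P < Nat.card Q →
      REC F E p Q := by
    intro Q hQ hQT hlt
    have h1 : Nat.card Q ≤ Nat.card S := Subgroup.card_le_of_le hQ
    exact IHn _ (by omega) Q rfl hQ hQT
  by_cases hTP : T ≤ P
  · refine ⟨e, ?_, fun _ _ => rfl⟩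
    rw [sup_eq_left.2 (hMT.trans hTP)]
    exact he
  have hem := he.mp le_rfl
  obtain ⟨P₁, hI⟩ := he.exists_image le_rfl
  have hiso : Iso F P P₁ e := iso_of_mp hem hI
  have hP₁S : P₁ ≤ S := hiso.le_right
  obtain ⟨χ₀, P₀', h₀⟩ := exists_gapp hS hE hPS
  obtain ⟨χ₁, P₁', h₁⟩ := exists_gapp hS hE hP₁S
  obtain ⟨a, ha, f, hf, haf⟩ := phi_of_nm hS hE hPS hTC hTP IH (he.layer hS hE le_rfl) P₁ hI
    χ₀ P₀' χ₁ P₁' h₀ h₁
  obtain ⟨hχ₀, hI₀, hg₀⟩ := h₀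
  obtain ⟨hχ₁, hI₁, hg₁⟩ := h₁
  have hPN : P ≤ P ⊔ normalizerIn T P := le_sup_left
  have hP₁N : P₁ ≤ P₁ ⊔ normalizerIn T P₁ := le_sup_left
  have hP₀'N : P₀' ≤ P₀' ⊔ normalizerIn T P₀' := le_sup_left
  have hMN : M ≤ P ⊔ normalizerIn T P := le_sup_of_le_right (le_inf hMT hMn)
  have hχ₀m := hχ₀.mp le_rfl
  have hχ₁m := hχ₁.mp le_rfl
  have hfm := hf.mp le_rfl
  have hiso₀ : Iso F P P₀' χ₀ := iso_of_mp (hχ₀m.res hPN) hI₀
  have hiso₁ : Iso F P₁ P₁' χ₁ := iso_of_mp (hχ₁m.res hP₁N) hI₁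
  obtain ⟨ε₀, hε₀⟩ := exists_eqv hiso₀
  have hTC₀ : TC F T (P₀' ⊓ T) := image_tc hT hiso₀ hTC
  have hTC₁' : TC F T (P₁' ⊓ T) := image_tc hT hiso₁ (image_tc hT hiso hTC)
  have hfI : Im f P₀' P₁' := by
    intro y
    constructor
    · intro hy
      obtain ⟨z, hz, rfl⟩ := (hI₁ y).1 hy
      obtain ⟨x, hx, rfl⟩ := (hI z).1 hz
      exact ⟨_, af_mem a (hI₀.apply hx), (haf x hx).symm⟩
    · rintro ⟨z, hz, rfl⟩
      obtain ⟨x, hx, hxz⟩ := (hI₀ _).1 (af_mem a⁻¹ hz)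
      have h5 := haf x hx
      rw [hxz, af_af_inv a hz] at h5
      rw [← h5]
      exact hI₁.apply (hI.apply hx)
  have hfiso : Iso F P₀' P₁' f := iso_of_mp (hfm.res hP₀'N) hfI
  have hP₀'f : Finite P₀' := H802.finite_of_le hfiso.le_left
  have hP₁'f : Finite P₁' := H802.finite_of_le hfiso.le_right
  have hPA₀ : Finite (MulAut P₀') := H750.finite_mulAut
  have hPA₁ : Finite (MulAut P₁') := H750.finite_mulAut
  obtain ⟨φ, hφ⟩ := exists_eqv hfiso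
  obtain ⟨φ', hφ'i, hφ', hφφ, hφφ'⟩ := eqv_symm hfiso hφ
  have hSyl₀ := hg₀.sylow hS hE hTC₀
  have hSyl₁ := hg₁.sylow hS hE hTC₁'
  -- `φ` maps `Aut_T(P₀')` onto `Aut_T(P₁')`
  have hmapT : (autInducedBy T P₀').map (MulAut.congr φ).toMonoidHom = autInducedBy T P₁' := by
    have hle : (autInducedBy T P₀').map (MulAut.congr φ).toMonoidHom ≤ autInducedBy T P₁' := by
      rintro _ ⟨β, hβ, rfl⟩
      obtain ⟨t, ht, hc⟩ := H757.exists_cj_of_mem hβ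
      have htN := (le_sup_right : normalizerIn T P₀' ≤ P₀' ⊔ normalizerIn T P₀')
        ⟨ht, hc.mem_normalizer⟩
      exact (hφ.cj hfm hP₀'N htN hc).mem (hf.mem_inf htN ht)
    have hNmap : (gN F E p P₀').map (MulAut.congr φ).toMonoidHom = gN F E p P₁' := by
      ext β
      constructor
      · rintro ⟨α, hα, rfl⟩
        exact hφ.mem_gN hInv hfiso hα
      · intro hβ
        exact ⟨MulAut.congr φ.symm β, hφ'.mem_gN hInv hφ'i hβ, congr_congr_symm φ β⟩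
    have hc1 : Nat.card (gN F E p P₁') = Nat.card (gN F E p P₀') := by
      rw [← hNmap]
      exact (Nat.card_congr
        ((gN F E p P₀').equivMapOfInjective _ (MulAut.congr φ).injective).toEquiv).symm
    have hc2 : Nat.card ((autInducedBy T P₀').map (MulAut.congr φ).toMonoidHom) =
        Nat.card (autInducedBy T P₀') :=
      (Nat.card_congr ((autInducedBy T P₀').equivMapOfInjective _
        (MulAut.congr φ).injective).toEquiv).symm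
    exact Subgroup.eq_of_le_of_card_ge hle (by rw [hc2, hSyl₀.2, hSyl₁.2, hc1])
  -- the subgroup `K`
  set K := (autInducedBy M P).map (MulAut.congr ε₀).toMonoidHom with hK
  have hKT : K ≤ autInducedBy T P₀' := by
    rintro _ ⟨β, hβ, rfl⟩
    obtain ⟨m, hm, hc⟩ := H757.exists_cj_of_mem hβ
    exact (hε₀.cj hχ₀m hPN (hMN hm) hc).mem (hχ₀.mem_inf (hMN hm) (hMT hm))
  have hcj : ∀ m ∈ M, ∀ β : MulAut P, Cj m β → ∃ t ∈ normalizerIn T P₁,
      (∀ x ∈ P, e (m * x * m⁻¹) = t * e x * t⁻¹) ∧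
      Cj (χ₁ t) (MulAut.congr φ (a * MulAut.congr ε₀ β * a⁻¹)) := by
    intro m hm β hc
    obtain ⟨t, ht, h1⟩ := hcond m hm
    have htn : t ∈ normalizerIn T P₁ := by
      refine ⟨ht, H802.mem_normalizer_of_conj_mem hP₁S fun y hy => ?_⟩
      obtain ⟨x, hx, rfl⟩ := (hI y).1 hy
      rw [← h1 x hx]
      exact hI.apply ((Subgroup.mem_normalizer_iff.1 (hMn hm) x).1 hx)
    refine ⟨t, htn, h1, cj_of_af fun y hy => ?_⟩
    obtain ⟨z, hz, rfl⟩ := (hI₁ y).1 hy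
    obtain ⟨x, hx, rfl⟩ := (hI z).1 hz
    have hx' := hI₀.apply hx
    have htN := (le_sup_right : normalizerIn T P₁ ≤ P₁ ⊔ normalizerIn T P₁) htn
    have hmx : m * x * m⁻¹ ∈ P := (Subgroup.mem_normalizer_iff.1 (hMn hm) x).1 hx
    have hexN := hP₁N (hI.apply hx)
    have h2 : χ₁ t * χ₁ (e x) * (χ₁ t)⁻¹ = χ₁ (e (m * x * m⁻¹)) := by
      rw [h1 x hx, hχ₁m.mul (mul_mem htN hexN) (inv_mem htN), hχ₁m.mul htN hexN, hχ₁m.inv htN]
    rw [h2, haf x hx, haf _ hmx, hφ.af_congr _ (af_mem a hx'), af_mul _ _ (af_mem a hx'),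
      af_inv_af a hx', af_mul _ _ hx', hε₀.af_congr β hx, af_cj hc hx]
  have hKa : ∀ k ∈ K, a * k * a⁻¹ ∈ autInducedBy T P₀' := by
    rintro _ ⟨β, hβ, rfl⟩
    obtain ⟨m, hm, hc⟩ := H757.exists_cj_of_mem hβ
    obtain ⟨t, ht, -, h2⟩ := hcj m hm β hc
    have h3 := h2.mem (hχ₁.mem_inf
      ((le_sup_right : normalizerIn T P₁ ≤ P₁ ⊔ normalizerIn T P₁) ht) ht.1)
    rw [← hmapT] at h3
    obtain ⟨γ, hγ, h4⟩ := h3
    have h5 : γ = a * MulAut.congr ε₀ β * a⁻¹ := (MulAut.congr φ).injective h4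
    exact h5 ▸ hγ
  obtain ⟨k, hk, hka⟩ := dk_of_good hS hE hg₀ hTC₀ K a hKT ha hKa
  have hkm := hk.mp le_rfl
  have hP₀K : P₀' ≤ P₀' ⊔ MK T P₀' K := le_sup_left
  have hkI : Im k P₀' P₀' := by
    intro y
    constructor
    · intro hy
      exact ⟨_, af_mem a⁻¹ hy, by rw [hka _ (af_mem a⁻¹ hy), af_af_inv a hy]⟩
    · rintro ⟨x, hx, rfl⟩
      rw [hka x hx]
      exact af_mem a hx
  have hPM : P ≤ P ⊔ M := le_sup_left
  have hMM : M ≤ P ⊔ M := le_sup_right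
  have hsub : P ⊔ M ≤ P ⊔ normalizerIn T P := sup_le hPN hMN
  -- the composition
  have hmap1 : ∀ x ∈ P ⊔ M, χ₀ x ∈ P₀' ⊔ MK T P₀' K := by
    refine (hχ₀m.res hsub).mem_sup (fun x hx => hP₀K (hI₀.apply hx)) fun m hm => ?_
    obtain ⟨β, hc⟩ := H757.exists_cj (hMn hm)
    exact (le_sup_right : MK T P₀' K ≤ P₀' ⊔ MK T P₀' K)
      ⟨hχ₀.mem_inf (hMN hm) (hMT hm), _, ⟨β, hc.mem hm, rfl⟩, hε₀.cj hχ₀m hPN (hMN hm) hc⟩
  have hmap2 : ∀ x ∈ P₀' ⊔ MK T P₀' K, k x ∈ P₀' ⊔ normalizerIn T P₀' :=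
    nm_maps_NT hk hP₀K hkI (sup_NT_decomp (le_inf MK_le_T MK_le_normalizer))
  have hG : NM F E p S (P ⊔ M) (fun x => f (k (χ₀ x))) :=
    ((hχ₀.res hsub).comp hk hmap1).comp hf fun x hx => hmap2 _ (hmap1 x hx)
  obtain ⟨I, hII⟩ := hχ₁.exists_image le_rfl
  obtain ⟨κ, hκ, hκχ, hχκ⟩ := hχ₁m.exists_symm le_rfl hII
  have hκN : NM F E p S I κ := hχ₁.symm le_rfl fun y hy => ⟨κ y, (hχκ y hy).1, (hχκ y hy).2, rfl⟩
  have hP₁'I : P₁' ≤ I := fun y hy => by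
    obtain ⟨x, hx, rfl⟩ := (hI₁ y).1 hy
    exact hII.apply (hP₁N hx)
  have hGP : ∀ x ∈ P, f (k (χ₀ x)) = χ₁ (e x) := fun x hx => by
    rw [hka _ (hI₀.apply hx), haf x hx]
  have hmap3 : ∀ x ∈ P ⊔ M, f (k (χ₀ x)) ∈ I := by
    have hGm : Mp F (P ⊔ M) (fun x => f (k (χ₀ x))) := hG.mp le_rfl
    refine hGm.mem_sup (fun x hx => ?_) fun m hm => ?_
    · show f (k (χ₀ x)) ∈ I
      rw [hGP x hx]
      exact hII.apply (hP₁N (hI.apply hx))
    · show f (k (χ₀ m)) ∈ I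
      obtain ⟨β, hc⟩ := H757.exists_cj (hMn hm)
      obtain ⟨t, ht, h1, h2⟩ := hcj m hm β hc
      have htN := (le_sup_right : normalizerIn T P₁ ≤ P₁ ⊔ normalizerIn T P₁) ht
      have hGmT : f (k (χ₀ m)) ∈ T := hG.mem_inf (hMM hm) (hMT hm)
      -- `G m` acts on `P₁'` as `χ₁ t`
      have h3 : Cj (f (k (χ₀ m))) (MulAut.congr φ (a * MulAut.congr ε₀ β * a⁻¹)) := by
        refine cj_of_af fun y hy => ?_
        rw [af_cj h2 hy]
        obtain ⟨z, hz, rfl⟩ := (hI₁ y).1 hy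
        obtain ⟨x, hx, rfl⟩ := (hI z).1 hz
        have hmx : m * x * m⁻¹ ∈ P := (Subgroup.mem_normalizer_iff.1 (hMn hm) x).1 hx
        have hexN := hP₁N (hI.apply hx)
        have h4 : χ₁ t * χ₁ (e x) * (χ₁ t)⁻¹ = χ₁ (e (m * x * m⁻¹)) := by
          rw [h1 x hx, hχ₁m.mul (mul_mem htN hexN) (inv_mem htN), hχ₁m.mul htN hexN, hχ₁m.inv htN]
        have h5 : f (k (χ₀ (m * x * m⁻¹))) =
            f (k (χ₀ m)) * f (k (χ₀ x)) * (f (k (χ₀ m)))⁻¹ := by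
          have h6 := hGm.mul (mul_mem (hMM hm) (hPM hx)) (inv_mem (hMM hm))
          have h7 := hGm.mul (hMM hm) (hPM hx)
          have h8 := hGm.inv (hMM hm)
          rw [h6, h7, h8]
        rw [h4, ← hGP _ hmx, ← hGP x hx, h5]
      have h9 := inv_mul_mem_of_cj hTS hTC₁' (hχ₁.mem_inf htN ht.1) hGmT h2 h3
      have h10 : f (k (χ₀ m)) = χ₁ t * ((χ₁ t)⁻¹ * f (k (χ₀ m))) := by group
      rw [h10]
      exact mul_mem (hII.apply htN) (hP₁'I h9.1)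
  refine ⟨fun x => κ (f (k (χ₀ x))), hG.comp hκN hmap3, fun x hx => ?_⟩
  show κ (f (k (χ₀ x))) = e x
  rw [hGP x hx, hκχ _ (hP₁N (hI.apply hx))]

end Cfsg.Agent.H756
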