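import Cfsg.Agent.H756.TCen

/-!
# Weakly normal subsystems: automorphisms of `T` that restrict to maps of the subsystem (helper756)

`pow_mem_of_restrict`: `D` weakly normal in `F` over `T`, `P ≤ T` `T`-centric, `α ∈ Aut_F(T)` with `α|_P` in `D`:
then some `p`-power of `α` lies in `Aut_D(T)`.
-/

set_option autoImplicit false

namespace Cfsg.Agent.H756

open Cfsg Cfsg.FusionSystem Cfsg.Agent.H752

/-- A finite group that is the product of two `p`-subgroups is a `p`-group. -/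
theorem isPGroup_of_mul {H : Type*} [Group H] [Finite H] {p : ℕ} [Fact p.Prime] {K B : Subgroup H}
    (hK : IsPGroup p K) (hB : IsPGroup p B) (h : ∀ x : H, ∃ k ∈ K, ∃ b ∈ B, x = k * b) :
    IsPGroup p H := by
  obtain ⟨n, hn⟩ := IsPGroup.iff_card.1 hK
  obtain ⟨m, hm⟩ := IsPGroup.iff_card.1 hB
  have h1 : MulAction.orbit B ((1 : H) : H ⧸ K) = Set.univ := by
    ext x
    simp only [Set.mem_univ, iff_true]
    induction x using QuotientGroup.induction_on with
    | H x =>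
      obtain ⟨k, hk, b, hb, hx⟩ := h x⁻¹
      refine ⟨⟨b⁻¹, inv_mem hb⟩, ?_⟩
      show ((b⁻¹ * 1 : H) : H ⧸ K) = (x : H ⧸ K)
      rw [QuotientGroup.eq]
      have h2 : x = b⁻¹ * k⁻¹ := by rw [← inv_inv x, hx]; group
      rw [h2]
      have h3 : (b⁻¹ * 1)⁻¹ * (b⁻¹ * k⁻¹) = k⁻¹ := by group
      rw [h3]
      exact inv_mem hk
  have h2 : K.index ∣ p ^ m := by
    rw [← hm]
    have h3 := MulAction.index_stabilizer B ((1 : H) : H ⧸ K)
    rw [h1, Set.ncard_univ] at h3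
    have h4 : K.index = (MulAction.stabilizer B ((1 : H) : H ⧸ K)).index := h3.symm
    rw [h4]
    exact Subgroup.index_dvd_card _
  obtain ⟨j, -, hj⟩ := (Nat.dvd_prime_pow Fact.out).1 h2
  refine IsPGroup.of_card (n := n + j) ?_
  rw [← Subgroup.card_mul_index K, hn, hj, pow_add]

variable {Ω : Type*} [Group Ω] {S T : Subgroup Ω} {F : FusionSystem S} {D : FusionSystem T} {p : ℕ}

/-- The key step for fully normalized `T`-centric subgroups. -/
theorem exists_conj_ext [Finite S] [Fact p.Prime] (hS : IsPGroup p S) (hD : D.IsWeaklyNormalIn F p)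
    {P : Subgroup Ω} (hP : TC F T P) (hPn : F.IsFullyNormalized P) {a : Ω → Ω} (ha : Mp F T a)
    (hDa : Mp D P a) :
    ∃ s ∈ S, (∀ x ∈ P, s * x * s⁻¹ = x) ∧
      Mp D (normalizerIn T P) (fun y => a (s⁻¹ * y * s)) := by
  obtain ⟨hDs, hF, hDI⟩ := hD
  have hTc : F.StronglyClosed T := hDI.2.1
  have hDF : D.IsSubsystemOf F := hDI.1
  have hTS : T ≤ S := hTc.1
  have hfT : Finite T := H802.finite_of_le hTS
  have hTp : IsPGroup p T := hS.to_le hTS
  have hPT := hP.le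
  have ham : ∀ x ∈ T, a x ∈ T := fun x hx => mp_mem_of_stronglyClosed hTc ha hx hx
  set N := normalizerIn T P with hNdef
  have hPN : P ≤ N := H802.le_normalizerIn hPT
  have hNT : N ≤ T := inf_le_left
  obtain ⟨P', hP', hP'T, -⟩ := hDa.exists_image le_rfl
  obtain ⟨φ, hφ, hφe⟩ := id hDa
  have hr : φ.range = P' := by
    ext y
    rw [hP' y]
    constructor
    · rintro ⟨x, rfl⟩; exact ⟨x, x.2, (hφe x x.2).symm⟩
    · rintro ⟨x, hx, rfl⟩; exact ⟨⟨x, hx⟩, hφe x hx⟩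
  have hPD : D.IsFullyNormalized P := H755.isFullyNormalized_sub hS hF hDF hTc hPT hPn
  have haN : ∀ x ∈ N, a x ∈ normalizerIn T P' := by
    intro x hx
    refine ⟨ham x (hNT hx), H802.mem_normalizer_of_conj_mem hP'T fun y hy => ?_⟩
    obtain ⟨u, hu, rfl⟩ := (hP' y).1 hy
    refine (hP' _).2 ⟨x * u * x⁻¹, (Subgroup.mem_normalizer_iff.1 hx.2 u).1 hu, ?_⟩
    rw [ha.mul (mul_mem (hNT hx) (hPT hu)) (inv_mem (hNT hx)), ha.mul (hNT hx) (hPT hu),
      ha.inv (hNT hx)]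
  have hfN' : Finite (normalizerIn T P') := H802.finite_of_le inf_le_left
  have hfN : Finite N := H802.finite_of_le hNT
  have hcard : Nat.card N ≤ Nat.card (normalizerIn T P') := by
    obtain ⟨ψ, hψ, hψe⟩ := id ha
    refine H802.card_le_of_maps (F.injective_of_mem hψ) hNT fun x hx => ?_
    rw [hψe]
    exact haN x hx
  have hconjPP' : D.IsConj P P' := ⟨φ, hφ, hr⟩
  have hP'D : D.IsFullyNormalized P' := by
    refine ⟨hP'T, fun Q hQ => ?_⟩
    exact (hPD.2 Q (H802.isConj_trans hconjPP' hQ)).trans hcard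
  have hcard2 : Nat.card (normalizerIn T P') ≤ Nat.card N := hPD.2 P' hconjPP'
  have hrec := (H802.isReceptive_of_isFullyNormalized hTp hDs hP'D).2 P φ hφ hr
  have hNM : N ≤ extender T P φ := by
    obtain ⟨ψ, hψ, hψe⟩ := ha.res hNT
    refine H802.le_extender_of_extends (ψ := ψ) hPN hNT inf_le_right (fun x => ?_) fun x hx => ?_
    · rw [show ψ x = a x from hψe x x.2]
      exact ham _ (hNT x.2)
    · rw [hψe, hφe]
  set M := extender T P φ with hMdef
  obtain ⟨ψ, hψ, hψe⟩ := hrec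
  have hg : Mp D N (ex ψ) := (mp_ex hψ).res hNM
  have hga : ∀ x ∈ P, ex ψ x = a x := fun x hx => by
    rw [ex_apply _ (hNM (hPN hx))]
    exact (hψe x hx _).trans (hφe x hx)
  -- the image of `N` under `ψ` is `N_T(P')`
  obtain ⟨N₁, hN₁, hN₁T, hN₁c⟩ := hg.exists_image le_rfl
  have hN₁eq : N₁ = normalizerIn T P' := by
    apply Subgroup.eq_of_le_of_card_ge
    · intro y hy
      obtain ⟨x, hx, rfl⟩ := (hN₁ y).1 hy
      refine ⟨hg.mem hx, H802.mem_normalizer_of_conj_mem hP'T fun z hz => ?_⟩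
      obtain ⟨u, hu, rfl⟩ := (hP' z).1 hz
      refine (hP' _).2 ⟨x * u * x⁻¹, (Subgroup.mem_normalizer_iff.1 hx.2 u).1 hu, ?_⟩
      rw [← hga _ ((Subgroup.mem_normalizer_iff.1 hx.2 u).1 hu), ← hga u hu,
        hg.mul (mul_mem hx (hPN hu)) (inv_mem hx), hg.mul hx (hPN hu), hg.inv hx]
    · rw [hN₁c]; exact hcard2
  obtain ⟨g', hg', h1, h2⟩ := hg.exists_symm le_rfl hN₁
  have haN₁ : ∀ x ∈ N, a x ∈ N₁ := fun x hx => by rw [hN₁eq]; exact haN x hx
  have hγ : Mp F N (fun x => g' (a x)) := (ha.res hNT).comp (mp_mono hDF hg') haN₁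
  have hγfix : ∀ x ∈ P, g' (a x) = x := fun x hx => by rw [← hga x hx, h1 x (hPN hx)]
  obtain ⟨s, hs, hs1⟩ := exists_conj_of_fix hS hF hTc hP hPn hγ hγfix
  have hsfix : ∀ x ∈ P, s * x * s⁻¹ = x := fun x hx => by rw [← hs1 x (hPN hx), hγfix x hx]
  have hmaps : ∀ x ∈ N, s * x * s⁻¹ ∈ N := fun x hx => by
    rw [← hs1 x hx]; exact maps_of_fix hTc hPT hγ hγfix x hx
  have hsn : s ∈ Subgroup.normalizer (N : Set Ω) :=
    H802.mem_normalizer_of_conj_mem hNT hmaps
  refine ⟨s, hs, hsfix, hg.congr fun y hy => ?_⟩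
  have hy' : s⁻¹ * y * s ∈ N := by
    have := (Subgroup.mem_normalizer_iff.1 (inv_mem hsn) y).1 hy
    rwa [inv_inv] at this
  have h3 := hs1 _ hy'
  have h4 : s * (s⁻¹ * y * s) * s⁻¹ = y := by group
  rw [h4] at h3
  have h5 := (h2 _ (haN₁ _ hy')).2
  have h6 : g' (a (s⁻¹ * y * s)) = y := h3
  rw [h6] at h5
  exact h5.symm

/-- The automorphisms of `T` in `F` whose restriction to `P` lies in `D`. -/
noncomputable def gam (hTS : T ≤ S) (_hT : F.StronglyClosed T) (hI : InvC D F) [Finite T]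
    (P : Subgroup Ω) (hPT : P ≤ T) : Subgroup (MulAut T) where
  carrier := {α | α ∈ F.autGroup T ∧ Mp D P (ex fun x => ((α x : T) : Ω))}
  one_mem' := ⟨one_mem _, (mp_id D hPT).congr fun x hx => by
    rw [ex_apply _ (hPT hx)]; rfl⟩
  mul_mem' := by
    rintro α β ⟨hα, hα'⟩ ⟨hβ, hβ'⟩
    refine ⟨mul_mem hα hβ, ?_⟩
    have hαm := (mp_iff_autGroup hTS α).1 hα
    obtain ⟨R, hR, -, -⟩ := hα'.exists_image le_rfl
    have h1 : Mp D R (ex fun x => (((α * β * α⁻¹) x : T) : Ω)) := by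
      refine hI P R _ _ _ hβ' hαm fun y hy => ?_
      obtain ⟨x, hx, rfl⟩ := (hR y).1 hy
      refine ⟨x, hx, rfl, ?_⟩
      rw [ex_apply (fun x => ((α x : T) : Ω)) (hPT hx), ex_apply _ (α _).2,
        ex_apply (fun x => ((β x : T) : Ω)) (hPT hx), ex_apply _ (β _).2]
      simp [MulAut.mul_apply]
    refine (hα'.comp h1 fun x hx => (hR _).2 ⟨x, hx, rfl⟩).congr fun x hx => ?_
    rw [ex_apply _ (hPT hx), ex_apply (fun x => ((α x : T) : Ω)) (hPT hx), ex_apply _ (α _).2]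
    simp [MulAut.mul_apply]
  inv_mem' := by
    rintro α ⟨hα, hα'⟩
    refine ⟨inv_mem hα, ?_⟩
    have hαm := (mp_iff_autGroup hTS α⁻¹).1 (inv_mem hα)
    obtain ⟨R, hR, -, -⟩ := hα'.exists_image le_rfl
    have h0 : Mp D R (ex fun x => ((α⁻¹ x : T) : Ω)) := by
      refine hα'.symm fun y hy => ?_
      obtain ⟨x, hx, rfl⟩ := (hR y).1 hy
      refine ⟨x, hx, rfl, ?_⟩
      rw [ex_apply (fun x => ((α x : T) : Ω)) (hPT hx), ex_apply _ (α _).2]
      simp
    refine hI R P _ _ _ h0 hαm fun y hy => ?_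
    refine ⟨_, (hR _).2 ⟨y, hy, rfl⟩, ?_, ?_⟩
    · rw [ex_apply (fun x => ((α x : T) : Ω)) (hPT hy), ex_apply _ (α _).2]
      simp
    · rw [ex_apply (fun x => ((α x : T) : Ω)) (hPT hy), ex_apply (fun x => ((α⁻¹ x : T) : Ω)) (α _).2,
        ex_apply (fun x => ((α⁻¹ x : T) : Ω)) (hPT hy), ex_apply _ (α⁻¹ _).2]
      simp

/-- **Automorphisms of `T` in `F` restricting to maps of a weakly normal subsystem**: a `p`-power of them lies in the
subsystem. -/
theorem pow_mem_of_restrict [Finite S] [Fact p.Prime] (hS : IsPGroup p S)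
    (hD : D.IsWeaklyNormalIn F p) :
    ∀ (P : Subgroup Ω), TC F T P → ∀ α ∈ F.autGroup T, Mp D P (ex fun x => ((α x : T) : Ω)) →
      ∃ k : ℕ, α ^ p ^ k ∈ D.autGroup T := by
  have hD' := hD
  obtain ⟨hDs, hF, hDI⟩ := hD
  have hTc : F.StronglyClosed T := hDI.2.1
  have hDF : D.IsSubsystemOf F := hDI.1
  have hTS : T ≤ S := hTc.1
  have hfT : Finite T := H802.finite_of_le hTS
  have hTp : IsPGroup p T := hS.to_le hTS
  obtain ⟨-, -, hI, hFr⟩ := isInvariantIn_iff.1 hDI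
  -- normality of `Aut_D(T)`
  have hnorm : ∀ β ∈ F.autGroup T, ∀ δ ∈ D.autGroup T, β * δ * β⁻¹ ∈ D.autGroup T := by
    intro β hβ δ hδ
    have h1 : Mp D T (ex fun x => (((β * δ * β⁻¹) x : T) : Ω)) := by
      refine hI T T _ _ _ ((mp_iff_autGroup le_rfl δ).1 hδ) ((mp_iff_autGroup hTS β).1 hβ)
        fun y hy => ⟨((β⁻¹ ⟨y, hy⟩ : T) : Ω), (β⁻¹ _).2, ?_, ?_⟩
      · rw [ex_apply _ (β⁻¹ _).2]; simp
      · rw [ex_apply (fun x => (((β * δ * β⁻¹) x : T) : Ω)) hy,
          ex_apply (fun x => ((δ x : T) : Ω)) (β⁻¹ _).2, ex_apply _ (δ _).2]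
        simp [MulAut.mul_apply]
    exact (mp_iff_autGroup le_rfl _).2 h1
  have main : ∀ n : ℕ, ∀ (P : Subgroup Ω), TC F T P → Nat.card T - Nat.card P = n →
      ∀ α ∈ F.autGroup T, Mp D P (ex fun x => ((α x : T) : Ω)) →
      ∃ k : ℕ, α ^ p ^ k ∈ D.autGroup T := by
    intro n
    induction n using Nat.strong_induction_on with
    | _ n ih =>
    intro P hP hn
    -- the case of a fully normalized subgroup
    have step : ∀ Q : Subgroup Ω, TC F T Q → Nat.card Q = Nat.card P → F.IsFullyNormalized Q →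
        ∀ α ∈ F.autGroup T, Mp D Q (ex fun x => ((α x : T) : Ω)) →
        ∃ k : ℕ, α ^ p ^ k ∈ D.autGroup T := by
      intro Q hQ hcQ hQn
      by_cases hQT : Q = T
      · subst hQT
        intro α hα hα'
        exact ⟨0, by
          rw [pow_zero, pow_one]
          exact (mp_iff_autGroup le_rfl _).2 hα'⟩
      · have hlt : Nat.card Q < Nat.card (normalizerIn T Q) :=
          H802.card_lt_card_normalizerIn hTp hQ.le hQT
        have hQN : Q ≤ normalizerIn T Q := H802.le_normalizerIn hQ.le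
        have hNc : TC F T (normalizerIn T Q) := hQ.mono hQN inf_le_left
        have hNcard : Nat.card (normalizerIn T Q) ≤ Nat.card T :=
          Nat.card_mono (Set.toFinite _) (show normalizerIn T Q ≤ T from inf_le_left)
        have hN := ih (Nat.card T - Nat.card (normalizerIn T Q)) (by omega) _ hNc rfl
        let H := gam hTS hTc hI Q hQ.le
        let K : Subgroup H := (gam hTS hTc hI (normalizerIn T Q) inf_le_left).subgroupOf H
        let B : Subgroup H := (autInducedBy S T).subgroupOf H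
        let A : Subgroup H := (D.autGroup T).subgroupOf H
        have hAn : A.Normal := ⟨fun δ hδ β => hnorm β β.2.1 δ hδ⟩
        have hKp : IsPGroup p (K.map (QuotientGroup.mk' A)) := by
          rintro ⟨_, ⟨κ, hκ, rfl⟩⟩
          obtain ⟨k, hk⟩ := hN _ hκ.1 hκ.2
          refine ⟨k, Subtype.ext ?_⟩
          show ((QuotientGroup.mk' A) κ) ^ p ^ k = 1
          rw [← map_pow, QuotientGroup.mk'_apply, QuotientGroup.eq_one_iff]
          exact hk
        have hBp : IsPGroup p (B.map (QuotientGroup.mk' A)) := by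
          refine IsPGroup.map ?_ _
          exact (H802.isPGroup_autInducedBy hS T).comap_of_injective H.subtype
            H.subtype_injective
        have hfA : Finite (MulAut T) := inferInstance
        have hprod : IsPGroup p (H ⧸ A) := by
          refine isPGroup_of_mul hKp hBp fun x => ?_
          obtain ⟨⟨α, hα⟩, rfl⟩ := QuotientGroup.mk'_surjective A x
          obtain ⟨s, hs, hs1, hs2⟩ := exists_conj_ext hS hD' hQ hQn
            ((mp_iff_autGroup hTS α).1 hα.1) hα.2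
          have hsT : s ∈ Subgroup.normalizer (T : Set Ω) :=
            H759.StronglyClosed.le_normalizer hTc hs
          obtain ⟨c, hc⟩ := H802.exists_conjAut hsT
          have hcA : c ∈ autInducedBy S T := (H802.mem_autInducedBy_iff _ _ _).2 ⟨s, hs, hc⟩
          have hcH : c ∈ H := by
            refine ⟨H802.autInducedBy_le_autGroup F hTS hcA, (mp_id D hQ.le).congr fun x hx => ?_⟩
            rw [ex_apply _ (hQ.le hx), hc]
            exact hs1 x hx
          have hcinv : ∀ (y : Ω) (hy : y ∈ T), ((c⁻¹ ⟨y, hy⟩ : T) : Ω) = s⁻¹ * y * s := by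
            intro y hy
            have h1 := hc (c⁻¹ ⟨y, hy⟩)
            rw [MulAut.apply_inv_self] at h1
            have h2 : y = s * ((c⁻¹ ⟨y, hy⟩ : T) : Ω) * s⁻¹ := h1
            calc ((c⁻¹ ⟨y, hy⟩ : T) : Ω) = s⁻¹ * (s * ((c⁻¹ ⟨y, hy⟩ : T) : Ω) * s⁻¹) * s := by group
              _ = s⁻¹ * y * s := by rw [← h2]
          have hνK : α * c⁻¹ ∈ gam hTS hTc hI (normalizerIn T Q) inf_le_left := by
            refine ⟨mul_mem hα.1 (inv_mem hcH.1), hs2.congr fun y hy => ?_⟩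
            have hyT : y ∈ T := hy.1
            rw [ex_apply _ hyT]
            have h1 : s⁻¹ * y * s ∈ T := by rw [← hcinv y hyT]; exact (c⁻¹ _).2
            rw [ex_apply _ h1, MulAut.mul_apply]
            congr 2
            exact Subtype.ext (hcinv y hyT)
          have hνH : α * c⁻¹ ∈ H := mul_mem hα (inv_mem hcH)
          refine ⟨_, ⟨⟨α * c⁻¹, hνH⟩, hνK, rfl⟩, _, ⟨⟨c, hcH⟩, hcA, rfl⟩, ?_⟩
          rw [← map_mul]
          congr 1
          apply Subtype.ext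
          show α = α * c⁻¹ * c
          group
        intro α hα hα'
        have hαH : α ∈ H := ⟨hα, hα'⟩
        obtain ⟨k, hk⟩ := hprod (QuotientGroup.mk' A ⟨α, hαH⟩)
        rw [← map_pow, QuotientGroup.mk'_apply, QuotientGroup.eq_one_iff] at hk
        exact ⟨k, hk⟩
    -- passage to a fully normalized conjugate
    intro α hα hα'
    obtain ⟨P', ⟨φ, hφ, hφr⟩, hP'⟩ := H802.exists_isFullyNormalized hS hF (hP.le.trans hTS)
    obtain ⟨b, hb, f₀, hf₀, h1⟩ := hFr P (ex φ) hP.le (mp_ex hφ)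
    have hP'm : ∀ y, y ∈ P' ↔ ∃ x ∈ P, ex φ x = y := by
      intro y
      rw [← hφr]
      constructor
      · rintro ⟨x, rfl⟩; exact ⟨x, x.2, ex_coe _ x⟩
      · rintro ⟨x, hx, rfl⟩; exact ⟨⟨x, hx⟩, (ex_apply (φ : P → Ω) hx).symm⟩
    have hP'c : TC F T P' := hP.image hTc (mp_ex hφ) hP'm
    have hcard : Nat.card P' = Nat.card P := (H802.isConj_card_eq ⟨φ, hφ, hφr⟩).symm
    obtain ⟨β, hβ, hβe⟩ := hb.exists_aut fun x hx => mp_mem_of_stronglyClosed hTc hb hx hx
    have hαm := (mp_iff_autGroup hTS α).1 hα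
    set a := ex (fun x => ((α x : T) : Ω)) with hadef
    have hav : ∀ (x : Ω) (hx : x ∈ T), a x = ((α ⟨x, hx⟩ : T) : Ω) := fun x hx => ex_apply _ hx
    obtain ⟨R, hR, hRT, -⟩ := hf₀.exists_image le_rfl
    obtain ⟨f₁, hf₁, h2, h3⟩ := hf₀.exists_symm le_rfl hR
    -- `a` on `R = f₀(P)` is in `D`
    have haR : Mp D R a := by
      obtain ⟨R₂, hR₂, -, -⟩ := hα'.exists_image le_rfl
      obtain ⟨a', ha', h4, h5⟩ := exists_aut_inv hTc hαm
      have h6 : Mp D R₂ (fun y => a (f₀ (a' y))) := by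
        refine hI P R₂ _ _ _ hf₀ hαm fun y hy => ?_
        obtain ⟨x, hx, rfl⟩ := (hR₂ y).1 hy
        refine ⟨x, hx, rfl, ?_⟩
        show a (f₀ (a' (a x))) = _
        rw [h4 x (hP.le hx)]
      have h7 := (hf₁.comp hα' fun y hy => (h3 y hy).1).comp h6 fun y hy =>
        (hR₂ _).2 ⟨_, (h3 y hy).1, rfl⟩
      refine h7.congr fun y hy => ?_
      show a y = a (f₀ (a' (a (f₁ y))))
      rw [h4 _ (hP.le (h3 y hy).1), (h3 y hy).2]
    have hα₂ : Mp D P' (ex fun x => (((β * α * β⁻¹) x : T) : Ω)) := by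
      refine hI R P' _ _ _ haR hb fun y hy => ?_
      obtain ⟨x, hx, rfl⟩ := (hP'm y).1 hy
      have hf₀T : f₀ x ∈ T := hf₀.mem hx
      have haT : a (f₀ x) ∈ T := by rw [hav _ hf₀T]; exact (α _).2
      have hbT : b (f₀ x) ∈ T := mp_mem_of_stronglyClosed hTc hb hf₀T hf₀T
      refine ⟨f₀ x, (hR _).2 ⟨x, hx, rfl⟩, (h1 x hx).symm, ?_⟩
      rw [h1 x hx, ex_apply _ hbT, hβe _ haT]
      have h8 : (⟨b (f₀ x), hbT⟩ : T) = β ⟨f₀ x, hf₀T⟩ := Subtype.ext (hβe _ hf₀T)
      have h9 : (⟨a (f₀ x), haT⟩ : T) = α ⟨f₀ x, hf₀T⟩ := Subtype.ext (hav _ hf₀T)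
      rw [h8, h9]
      simp [MulAut.mul_apply]
    obtain ⟨k, hk⟩ := step P' hP'c hcard hP' (β * α * β⁻¹)
      (mul_mem (mul_mem hβ hα) (inv_mem hβ)) hα₂
    refine ⟨k, ?_⟩
    have h10 := hnorm β⁻¹ (inv_mem hβ) _ hk
    rw [conj_pow] at h10
    have h11 : β⁻¹ * (β * α ^ p ^ k * β⁻¹) * β⁻¹⁻¹ = α ^ p ^ k := by group
    rwa [h11] at h10
  intro P hP
  exact main _ P hP rfl

end Cfsg.Agent.H756
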